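import Mathlib
import Cfsg.Prelude.Def_Characters
import Cfsg.Prelude.Def_Blocks
import Cfsg.Agent.H21.BRDefs
import Cfsg.Agent.S4441
import Cfsg.Agent.S4729
import Cfsg.Agent.S0910
import Cfsg.Agent.H78.DefectZero
import Cfsg.Agent.H21.E2Block
import Cfsg.Agent.H21.SimpleTools
import Cfsg.Agent.H21.ResidueTrick
import Cfsg.Agent.H81.BlockDeg
import Cfsg.Agent.H81.Reg
import Cfsg.Agent.H4.IrrCount

/-!
# S0999-C1 (helper18, for helper21): `C(P) = P` when `|G| < p ^ 3`

`G` non-cyclic finite simple, `P` a Sylow `p`-subgroup of order `p` (`p` odd), `|G| < p ^ 3`: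
then `P` is self-centralizing.  From `S4441` (the principal block for `|P| = p`), `S4729`
(small faithful degree forces `C(P)` to be a `p`-group) and `S0910`.
-/

set_option autoImplicit false
set_option linter.style.haveILetI false

namespace Cfsg.Agent.H18.BR

open Cfsg Cfsg.Agent.H21.BR
open scoped ComplexConjugate commutatorElement

/-- The degree arithmetic: `f ∣ D' = c e (1 + n p) < p²`, `f ≥ 2p`, and the residue of `f`. -/
theorem brc1_arith (p c e n f : ℕ) (hp : p.Prime) (hc : 1 ≤ c) (he : 1 ≤ e) (hep : e < p)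
    (hn : 1 ≤ n) (hD : c * e * (1 + n * p) < p ^ 2) (hdvd : f ∣ c * e * (1 + n * p))
    (hf : 2 * p ≤ f) :
    ((f : ℤ) ≡ 1 [ZMOD p] → 2 * (c * e) < p ∧ f = 1 + n * p) ∧
    ((f : ℤ) ≡ -1 [ZMOD p] → p < 2 * (c * e)) ∧
    ((f : ℤ) ≡ (e : ℤ) [ZMOD p] → f = e * (1 + n * p)) ∧
    ((f : ℤ) ≡ -(e : ℤ) [ZMOD p] → p < 2 * c) := by
  obtain ⟨g, hg⟩ := hdvd
  have hp0 : 0 < p := hp.pos
  have hce : c * e < p := by
    by_contra h
    push Not at h
    have h1 : p * (1 + n * p) ≤ c * e * (1 + n * p) := Nat.mul_le_mul_right _ h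
    have h2 : p * (1 + p) ≤ p * (1 + n * p) :=
      Nat.mul_le_mul_left _ (by nlinarith)
    nlinarith
  have hce1 : 1 ≤ c * e := Nat.mul_pos hc he
  have hcp : c < p := lt_of_le_of_lt (Nat.le_mul_of_pos_right c he) hce
  have hg1 : 1 ≤ g := by
    rcases Nat.eq_zero_or_pos g with h | h
    · rw [h, mul_zero] at hg
      have : 0 < c * e * (1 + n * p) := by positivity
      omega
    · exact h
  have hg2 : 2 * g < p := by
    by_contra h
    push Not at h
    have h1 : 2 * p * g ≤ f * g := Nat.mul_le_mul_right _ hf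
    have h2 : p * p ≤ p * (2 * g) := Nat.mul_le_mul_left _ h
    nlinarith
  have hfg : (f : ℤ) * g = c * e * (1 + n * p) := by exact_mod_cast hg.symm
  have hpz : Prime (p : ℤ) := Nat.prime_iff_prime_int.mp hp
  have hpe : ¬ (p : ℤ) ∣ (e : ℤ) := by
    intro h
    have := Nat.le_of_dvd he (Int.natCast_dvd_natCast.mp h)
    omega
  refine ⟨?_, ?_, ?_, ?_⟩
  · intro hmod
    obtain ⟨k, hk⟩ := (Int.modEq_iff_dvd).1 hmod
    have h1 : (p : ℤ) ∣ (g : ℤ) - (c * e : ℕ) :=
      ⟨k * g + c * e * n, by push_cast; linear_combination (g : ℤ) * hk + hfg⟩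
    have h2 : (g : ℤ) - (c * e : ℕ) = 0 :=
      Int.eq_zero_of_abs_lt_dvd h1 (by rw [abs_lt]; constructor <;> omega)
    have h3 : g = c * e := by omega
    refine ⟨by omega, ?_⟩
    rw [h3] at hg
    have h4 : c * e * (1 + n * p) = c * e * f := by rw [hg]; ring
    exact (Nat.eq_of_mul_eq_mul_left hce1 h4).symm
  · intro hmod
    obtain ⟨k, hk⟩ := (Int.modEq_iff_dvd).1 hmod
    have h1 : (p : ℤ) ∣ (g : ℤ) + (c * e : ℕ) - p :=
      ⟨-(k * g) - c * e * n - 1, by push_cast; linear_combination (-(g : ℤ)) * hk - hfg⟩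
    have h2 : (g : ℤ) + (c * e : ℕ) - p = 0 :=
      Int.eq_zero_of_abs_lt_dvd h1 (by rw [abs_lt]; constructor <;> omega)
    omega
  · intro hmod
    obtain ⟨k, hk⟩ := (Int.modEq_iff_dvd).1 hmod
    have h0 : (p : ℤ) ∣ (e : ℤ) * ((g : ℤ) - c) :=
      ⟨k * g + c * e * n, by linear_combination (g : ℤ) * hk + hfg⟩
    have h1 : (p : ℤ) ∣ (g : ℤ) - c := (hpz.dvd_or_dvd h0).resolve_left hpe
    have h2 : (g : ℤ) - c = 0 :=
      Int.eq_zero_of_abs_lt_dvd h1 (by rw [abs_lt]; constructor <;> omega)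
    have h3 : g = c := by omega
    rw [h3] at hg
    have h4 : c * (e * (1 + n * p)) = c * f := by rw [← mul_assoc, hg]; ring
    exact (Nat.eq_of_mul_eq_mul_left hc h4).symm
  · intro hmod
    obtain ⟨k, hk⟩ := (Int.modEq_iff_dvd).1 hmod
    have h0 : (p : ℤ) ∣ (e : ℤ) * ((g : ℤ) + c) :=
      ⟨-(k * g) - c * e * n, by linear_combination (-(g : ℤ)) * hk - hfg⟩
    have h1 : (p : ℤ) ∣ (g : ℤ) + c - p := by
      have := (hpz.dvd_or_dvd h0).resolve_left hpe
      exact dvd_sub this (dvd_refl _)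
    have h2 : (g : ℤ) + c - p = 0 :=
      Int.eq_zero_of_abs_lt_dvd h1 (by rw [abs_lt]; constructor <;> omega)
    omega

/-- S0999-C1. -/
theorem centralizer_eq_of_card_lt {G : Type*} [Group G] [Finite G] [IsSimpleGroup G]
    (hG : ¬ IsCyclic G) (p : ℕ) [Fact p.Prime] (hp2 : p ≠ 2) (P : Sylow p G)
    (hP : Nat.card (P : Subgroup G) = p) (hbig : Nat.card G < p ^ 3) :
    Subgroup.centralizer ((P : Subgroup G) : Set G) = (P : Subgroup G) := by
  classical
  have hp : p.Prime := Fact.out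
  have hp3 : 3 ≤ p := by
    have := hp.two_le
    omega
  -- `G` is not abelian
  have hna : ∃ u v : G, u * v ≠ v * u := by
    by_contra h
    push Not at h
    apply hG
    letI : CommGroup G := { ‹Group G› with mul_comm := h }
    exact IsSimpleGroup.isCyclic
  have hGc : ¬ IsMulCommutative G := by
    intro hc
    obtain ⟨u, v, huv⟩ := hna
    exact huv (hc.is_comm.comm u v)
  -- `G` is perfect
  have hperf : commutator G = ⊤ := by
    rcases (inferInstance : (commutator G).Normal).eq_bot_or_eq_top with h | h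
    · exfalso
      obtain ⟨u, v, huv⟩ := hna
      apply huv
      have hm : ⁅u, v⁆ ∈ commutator G := Subgroup.commutator_mem_commutator
        (Subgroup.mem_top u) (Subgroup.mem_top v)
      rw [h, Subgroup.mem_bot, commutatorElement_eq_one_iff_mul_comm] at hm
      exact hm
    · exact h
  -- `P ≤ C(P)`
  have hPC : (P : Subgroup G) ≤ Subgroup.centralizer ((P : Subgroup G) : Set G) := by
    haveI : IsCyclic ↥(P : Subgroup G) := isCyclic_of_prime_card hP
    intro x hx
    rw [Subgroup.mem_centralizer_iff]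
    intro h hh
    have := (IsCyclic.commGroup (α := ↥(P : Subgroup G))).mul_comm ⟨h, hh⟩ ⟨x, hx⟩
    exact congrArg Subtype.val this
  by_contra hne
  -- the order of `C(P)`
  obtain ⟨c, hc⟩ : p ∣ Nat.card ↥(Subgroup.centralizer ((P : Subgroup G) : Set G)) := by
    have h := Subgroup.card_dvd_of_le hPC
    rwa [hP] at h
  have hidx : Nat.card G = p * (P : Subgroup G).index := by
    have h := (P : Subgroup G).card_mul_index
    rw [hP] at h
    exact h.symm
  have hnidx : ¬ p ∣ (P : Subgroup G).index := P.not_dvd_index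
  have hc2 : 2 ≤ c := by
    by_contra h
    push Not at h
    have hcpos : 0 < Nat.card ↥(Subgroup.centralizer ((P : Subgroup G) : Set G)) := Nat.card_pos
    have hc1 : c = 1 := by
      rcases Nat.eq_zero_or_pos c with h0 | h0
      · rw [h0, mul_zero] at hc
        omega
      · omega
    rw [hc1, mul_one] at hc
    exact hne (Subgroup.eq_of_le_of_card_ge hPC (by rw [hc, hP])).symm
  have hCnp : ¬ IsPGroup p ↥(Subgroup.centralizer ((P : Subgroup G) : Set G)) := by
    intro h
    obtain ⟨k, hk⟩ := IsPGroup.iff_card.1 h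
    rw [hc] at hk
    have hk2 : 2 ≤ k := by
      rcases k with _ | _ | k
      · rw [pow_zero] at hk
        have := hp.two_le
        nlinarith
      · rw [pow_one] at hk
        have : c = 1 := Nat.eq_of_mul_eq_mul_left hp.pos (by rw [hk, mul_one])
        omega
      · omega
    have h1 : p ^ 2 ∣ Nat.card G := by
      have h2 : p ^ 2 ∣ p ^ k := pow_dvd_pow p hk2
      rw [← hk, ← hc] at h2
      exact dvd_trans h2 (Subgroup.card_subgroup_dvd_card _)
    rw [hidx, pow_two] at h1
    exact hnidx ((Nat.mul_dvd_mul_iff_left hp.pos).1 h1)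
  -- the index `e` of `C(P)` in `N(P)`
  obtain ⟨e, he, he1, hedvd, -⟩ := Cfsg.Agent.H21.simple_sylow_prime_card_NC hGc P hP
  have he0 : 0 < e := Nat.pos_of_dvd_of_pos hedvd (by omega)
  have he2 : 2 ≤ e := by omega
  have hN := Cfsg.Agent.H21.card_centralizer_mul_relIndex_normalizer (P : Subgroup G)
  rw [← he, hc] at hN
  obtain ⟨-, -, -, -, hs1, hsne, -, hNs, -⟩ :=
    Cfsg.Agent.H21.simple_sylow_facts hGc (p := p) (k := 1) (m := (P : Subgroup G).index)
      (by rw [pow_one]; exact hidx) hnidx one_ne_zero P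
  obtain ⟨n, hn⟩ : ∃ n, Nat.card (Sylow p G) = 1 + n * p :=
    ⟨Nat.card (Sylow p G) / p, by
      have := Nat.div_add_mod (Nat.card (Sylow p G)) p
      rw [hs1] at this
      rw [mul_comm] at this
      omega⟩
  have hn1 : 1 ≤ n := by
    rcases Nat.eq_zero_or_pos n with h0 | h0
    · rw [h0, zero_mul, add_zero] at hn
      exact absurd hn hsne
    · exact h0
  have hcardG : Nat.card G = p * (c * e * (1 + n * p)) := by
    rw [← hNs, ← hN, hn]
    ring
  have hD : c * e * (1 + n * p) < p ^ 2 := by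
    rw [hcardG] at hbig
    have h3 : p * (c * e * (1 + n * p)) < p * p ^ 2 := by
      calc p * (c * e * (1 + n * p)) < p ^ 3 := hbig
        _ = p * p ^ 2 := by ring
    exact Nat.lt_of_mul_lt_mul_left h3
  have hce : c * e < p := by
    by_contra h
    push Not at h
    have h1 : p * (1 + n * p) ≤ c * e * (1 + n * p) := Nat.mul_le_mul_right _ h
    have h2 : p * (1 + p) ≤ p * (1 + n * p) :=
      Nat.mul_le_mul_left _ (by nlinarith)
    nlinarith
  have hep : e < p := by
    have := Nat.le_of_dvd (by omega) hedvd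
    omega
  have h2e : 2 * e ≤ c * e := Nat.mul_le_mul_right _ hc2
  have h2c : 2 * c ≤ c * e := by
    rw [mul_comm c e]; exact Nat.mul_le_mul_right _ he2
  have ht2 : 2 ≤ (p - 1) / e := by
    rw [Nat.le_div_iff_mul_le he0]
    omega
  -- the principal block
  let _ : Fintype G := Fintype.ofFinite G
  have := Cfsg.Agent.H4.finite_irr G
  obtain ⟨M, hM⟩ := Cfsg.Agent.H78.exists_isPModular p hp
  obtain ⟨X, Y, hB, hdisj, hX, hY, εX, ε, hXp, hε, hYdeg, hYeq, hYsum⟩ :=
    Cfsg.Agent.S4441.result p M hM hp2 P hP e he.symm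
  rw [Nat.card_coe_set_eq] at hX hY
  have hXfin : X.Finite := Set.toFinite _
  have hYfin : Y.Finite := Set.toFinite _
  have hval1 : ∀ ζ : IrrCharacter G, (ζ : G → ℂ) 1 = (charDegree (ζ : G → ℂ) : ℂ) :=
    fun ζ => (Cfsg.Agent.H81.irr_charDegree ζ).1
  have hpos : ∀ ζ : IrrCharacter G, 0 < charDegree (ζ : G → ℂ) :=
    fun ζ => (Cfsg.Agent.H81.irr_charDegree ζ).2
  have h0B : one G ∈ principalBlock M G := Cfsg.Agent.H81.mem_blockOf_self hM (one G)
  have hdeg0 : charDegree ((one G : IrrCharacter G) : G → ℂ) = 1 := by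
    have := hval1 (one G)
    rw [Cfsg.Agent.H21.E2Block.triv_apply] at this
    exact_mod_cast this.symm
  have hXB : ∀ χ ∈ X, χ ∈ principalBlock M G := fun χ hχ => by rw [hB]; exact Or.inl hχ
  have hYB : ∀ χ ∈ Y, χ ∈ principalBlock M G := fun χ hχ => by rw [hB]; exact Or.inr hχ
  -- nontrivial members of the principal block have degree at least 2
  have hge2 : ∀ χ ∈ principalBlock M G, χ ≠ one G → 2 ≤ charDegree (χ : G → ℂ) := by
    intro χ hχ hne
    have h1 : charDegree (χ : G → ℂ) ≠ 1 := by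
      intro h1
      have hdeg : (χ : G → ℂ) 1 = ((p : ℕ) : ℂ) ^ 0 := by rw [hval1, h1]; simp
      have := Cfsg.Agent.S0910.result p M hM hna χ hχ 0 hdeg
      exact hne (Subtype.ext this)
    have := hpos χ
    omega
  -- ... and even at least `2 p`
  have hDEG : ∀ χ ∈ principalBlock M G, χ ≠ one G → 2 * p ≤ charDegree (χ : G → ℂ) := by
    intro χ hχ hne
    by_contra hlt
    push Not at hlt
    have h2 := hge2 χ hχ hne
    have hχ1 : (χ : G → ℂ) 1 ≠ 1 := by
      rw [hval1]
      intro h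
      have : charDegree (χ : G → ℂ) = 1 := by exact_mod_cast h
      omega
    have hfaith : ∀ g : G, (χ : G → ℂ) g = (χ : G → ℂ) 1 → g = 1 := by
      intro g hg
      by_contra hg1
      exact Cfsg.Agent.H21.ResidueTrick.irr_apply_ne_degree χ hχ1 g hg1 hg
    exact hCnp (Cfsg.Agent.S4729.result p M hM hperf P χ hχ hfaith hlt)
  have hreg1 : ¬ p ∣ orderOf (1 : G) := by
    rw [orderOf_one]; exact hp.not_dvd_one
  -- the trivial character lies in `X`
  have h0X : one G ∈ X := by
    by_contra h0X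
    have h0Y : one G ∈ Y := by
      rw [hB] at h0B
      rcases h0B with h | h
      · exact absurd h h0X
      · exact h
    have hYall : ∀ θ' ∈ Y, θ' = one G := by
      intro θ' hθ'
      by_contra hne
      have h1 := hYeq θ' hθ' (one G) h0Y 1 hreg1
      rw [hval1, hval1, hdeg0] at h1
      have h2 : charDegree (θ' : G → ℂ) = 1 := by exact_mod_cast h1
      have := hge2 θ' (hYB θ' hθ') hne
      omega
    have hYone : (p - 1) / e = 1 := by
      rw [← hY, Set.eq_singleton_iff_unique_mem.2 ⟨h0Y, hYall⟩, Set.ncard_singleton]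
    omega
  have hs0 : εX (one G) = 1 := by
    obtain ⟨h1, h2, -⟩ := hXp _ h0X
    rw [hdeg0] at h2
    have h3 := h2.dvd
    rcases h1 with h1 | h1
    · exact h1
    · exfalso
      rw [h1] at h3
      have h4 : (p : ℤ) ∣ 2 := by
        have : (-1 : ℤ) - ((1 : ℕ) : ℤ) = -2 := by norm_num
        rw [this] at h3
        exact (dvd_neg).1 h3
      have h5 : p ∣ 2 := by exact_mod_cast h4
      have := Nat.le_of_dvd (by norm_num) h5
      omega
  -- degrees prime to `p` divide `D'`
  have hdvdD : ∀ χ : IrrCharacter G, ¬ p ∣ charDegree (χ : G → ℂ) →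
      charDegree (χ : G → ℂ) ∣ c * e * (1 + n * p) := by
    intro χ hχ
    have h1 := Cfsg.Agent.H81.irr_charDegree_dvd χ
    rw [hcardG] at h1
    exact (Nat.Coprime.symm ((Nat.Prime.coprime_iff_not_dvd hp).2 hχ)).dvd_of_dvd_mul_left h1
  have hXnd : ∀ χ ∈ X, ¬ p ∣ charDegree (χ : G → ℂ) := by
    intro χ hχ hdvd
    obtain ⟨h1, h2, -⟩ := hXp χ hχ
    have h3 : (p : ℤ) ∣ εX χ := by
      have h4 := h2.dvd
      have h5 : (p : ℤ) ∣ (charDegree (χ : G → ℂ) : ℤ) := by exact_mod_cast hdvd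
      have := dvd_add h4 h5
      simpa using this
    rcases h1 with h1 | h1 <;> rw [h1] at h3
    · have h5 : p ∣ 1 := by exact_mod_cast h3
      exact hp.not_dvd_one h5
    · have h5 : p ∣ 1 := by exact_mod_cast (dvd_neg).1 h3
      exact hp.not_dvd_one h5
  have hYnd : ∀ θ ∈ Y, ¬ p ∣ charDegree (θ : G → ℂ) := by
    intro θ hθ hdvd
    have h2 := (hYdeg θ hθ).dvd
    have h5 : (p : ℤ) ∣ (charDegree (θ : G → ℂ) : ℤ) := by exact_mod_cast hdvd
    have h3 : (p : ℤ) ∣ ε * (e : ℤ) := by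
      have := dvd_add h2 h5
      simpa using this
    have h4 : (p : ℤ) ∣ (e : ℤ) := by
      rcases hε with h | h <;> rw [h] at h3
      · simpa using h3
      · simpa using h3
    have := Nat.le_of_dvd he0 (Int.natCast_dvd_natCast.mp h4)
    omega
  -- a member of `Y`
  obtain ⟨θ, hθ⟩ : Y.Nonempty := by
    rw [← Set.ncard_pos hYfin, hY]
    exact lt_of_lt_of_le (by norm_num) ht2
  have hθne : θ ≠ one G := by
    intro h
    exact Set.disjoint_left.1 hdisj h0X (h ▸ hθ)
  have hθarith := brc1_arith p c e n (charDegree (θ : G → ℂ)) hp (by omega) he0 hep hn1 hD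
    (hdvdD θ (hYnd θ hθ)) (hDEG θ (hYB θ hθ) hθne)
  have hε1 : ε = 1 := by
    rcases hε with h | h
    · exact h
    · exfalso
      have h1 := hYdeg θ hθ
      rw [h] at h1
      have h2 := hθarith.2.2.2 (by simpa using h1)
      omega
  have hθdeg : charDegree (θ : G → ℂ) = e * (1 + n * p) := by
    have h1 := hYdeg θ hθ
    rw [hε1, one_mul] at h1
    exact hθarith.2.2.1 h1
  -- the relation at `1`
  have hrel : ((e * (1 + n * p) : ℕ) : ℤ) =
      ∑ χ ∈ hXfin.toFinset, εX χ * (charDegree (χ : G → ℂ) : ℤ) := by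
    have h1 := hYsum θ hθ 1 hreg1
    rw [finsum_mem_eq_finite_toFinset_sum _ hXfin, hε1, hval1, hθdeg] at h1
    have h2 : ∑ χ ∈ hXfin.toFinset, (εX χ : ℂ) * (χ : G → ℂ) 1 =
        ((∑ χ ∈ hXfin.toFinset, εX χ * (charDegree (χ : G → ℂ) : ℤ) : ℤ) : ℂ) := by
      push_cast
      exact Finset.sum_congr rfl fun χ _ => by rw [hval1]
    rw [h2] at h1
    have h3 : (((e * (1 + n * p) : ℕ) : ℤ) : ℂ) =
        ((∑ χ ∈ hXfin.toFinset, εX χ * (charDegree (χ : G → ℂ) : ℤ) : ℤ) : ℂ) := by
      rw [← h1]; push_cast; ring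
    exact_mod_cast h3
  have h0Xf : one G ∈ hXfin.toFinset := (Set.Finite.mem_toFinset hXfin).2 h0X
  have hcardXf : hXfin.toFinset.card = e := by
    rw [← Set.ncard_eq_toFinset_card _ hXfin, hX]
  rw [← Finset.add_sum_erase _ _ h0Xf, hs0, hdeg0] at hrel
  -- the non-principal members of `X`
  have hXarith : ∀ χ ∈ hXfin.toFinset.erase (one G),
      (εX χ = 1 → 2 * (c * e) < p ∧ charDegree (χ : G → ℂ) = 1 + n * p) ∧
      (εX χ = -1 → p < 2 * (c * e)) := by
    intro χ hχ
    rw [Finset.mem_erase, Set.Finite.mem_toFinset] at hχ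
    obtain ⟨hχne, hχX⟩ := hχ
    have ha := brc1_arith p c e n (charDegree (χ : G → ℂ)) hp (by omega) he0 hep hn1 hD
      (hdvdD χ (hXnd χ hχX)) (hDEG χ (hXB χ hχX) hχne)
    obtain ⟨-, h2, -⟩ := hXp χ hχX
    constructor
    · intro h
      rw [h] at h2
      exact ha.1 h2
    · intro h
      rw [h] at h2
      exact ha.2.1 h2
  have hcardE : (hXfin.toFinset.erase (one G)).card = e - 1 := by
    rw [Finset.card_erase_of_mem h0Xf, hcardXf]
  rcases Nat.lt_or_ge (2 * (c * e)) p with hcase | hcase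
  · -- no minus characters
    have hall : ∀ χ ∈ hXfin.toFinset.erase (one G),
        εX χ * (charDegree (χ : G → ℂ) : ℤ) = ((1 + n * p : ℕ) : ℤ) := by
      intro χ hχ
      have hχ' := hχ
      rw [Finset.mem_erase, Set.Finite.mem_toFinset] at hχ'
      rcases (hXp χ hχ'.2).1 with h | h
      · rw [h, one_mul, ((hXarith χ hχ).1 h).2]
      · have := (hXarith χ hχ).2 h
        omega
    have hsum : ∑ χ ∈ hXfin.toFinset.erase (one G), εX χ * (charDegree (χ : G → ℂ) : ℤ) =
        ((e - 1 : ℕ) : ℤ) * ((1 + n * p : ℕ) : ℤ) := by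
      rw [Finset.sum_congr rfl hall, Finset.sum_const, hcardE, nsmul_eq_mul]
    rw [hsum] at hrel
    have h5 : ((e * (1 + n * p) : ℕ) : ℤ) = ((1 + (e - 1) * (1 + n * p) : ℕ) : ℤ) := by
      rw [hrel]; push_cast; ring
    have h6 : e * (1 + n * p) = 1 + (e - 1) * (1 + n * p) := by exact_mod_cast h5
    have h7 : e * (1 + n * p) = (e - 1) * (1 + n * p) + (1 + n * p) := by
      have : e = (e - 1) + 1 := by omega
      conv_lhs => rw [this]
      ring
    rw [h7] at h6
    have h8 : 0 < n * p := Nat.mul_pos hn1 hp.pos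
    omega
  · -- no plus characters
    have hall : ∀ χ ∈ hXfin.toFinset.erase (one G),
        εX χ * (charDegree (χ : G → ℂ) : ℤ) ≤ 0 := by
      intro χ hχ
      have hχ' := hχ
      rw [Finset.mem_erase, Set.Finite.mem_toFinset] at hχ'
      rcases (hXp χ hχ'.2).1 with h | h
      · have := ((hXarith χ hχ).1 h).1
        omega
      · rw [h]
        have := hpos χ
        have h9 : (0 : ℤ) < (charDegree (χ : G → ℂ) : ℤ) := by exact_mod_cast this
        linarith
    have h5 := Finset.sum_nonpos hall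
    have h6 : ((e * (1 + n * p) : ℕ) : ℤ) ≤ 1 := by
      have h10 : (1 : ℤ) * ((1 : ℕ) : ℤ) = 1 := by norm_num
      rw [hrel, h10]; linarith
    have h7 : e * (1 + n * p) ≤ 1 := by exact_mod_cast h6
    have h8 : 2 * 1 ≤ e * (1 + n * p) := Nat.mul_le_mul he2 (by omega)
    omega

example {G : Type*} [Group G] [Finite G] [IsSimpleGroup G]
    (hG : ¬ IsCyclic G) (p : ℕ) [Fact p.Prime] (hp2 : p ≠ 2) (P : Sylow p G)
    (hP : Nat.card (P : Subgroup G) = p) (hbig : Nat.card G < p ^ 3) :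
    Subgroup.centralizer ((P : Subgroup G) : Set G) = (P : Subgroup G) :=
  centralizer_eq_of_card_lt hG p hp2 P hP hbig

end Cfsg.Agent.H18.BR
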