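import Mathlib

/-!
# S5748-NORM2 (helper18, for helper43)

A finite simple group of even order with a normal Sylow `2`-subgroup is commutative.
-/

set_option autoImplicit false

namespace Cfsg.Agent.H18.CT

/-- S5748-NORM2. -/
theorem comm_of_normal_sylow2 {G : Type*} [Group G] [Finite G] [IsSimpleGroup G]
    (heven : Even (Nat.card G)) (hn : ∀ P : Sylow 2 G, (P : Subgroup G).Normal) :
    IsMulCommutative G := by
  have : Fact (Nat.Prime 2) := ⟨Nat.prime_two⟩
  obtain ⟨P⟩ : Nonempty (Sylow 2 G) := inferInstance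
  have hne : (P : Subgroup G) ≠ ⊥ := P.ne_bot_of_dvd_card heven.two_dvd
  have htop : (P : Subgroup G) = ⊤ := ((hn P).eq_bot_or_eq_top).resolve_left hne
  have hP : IsPGroup 2 (⊤ : Subgroup G) := htop ▸ P.isPGroup'
  have hG : IsPGroup 2 G := hP.of_equiv Subgroup.topEquiv
  have : Nontrivial G := IsSimpleGroup.toNontrivial
  have hc : Nontrivial (Subgroup.center G) := hG.center_nontrivial
  have hcne : Subgroup.center G ≠ ⊥ := (Subgroup.nontrivial_iff_ne_bot _).1 hc
  have hctop : Subgroup.center G = ⊤ :=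
    ((inferInstance : (Subgroup.center G).Normal).eq_bot_or_eq_top).resolve_left hcne
  refine ⟨⟨fun a b => ?_⟩⟩
  have hb : b ∈ Subgroup.center G := hctop ▸ Subgroup.mem_top b
  exact (Subgroup.mem_center_iff.1 hb a)

example {G : Type*} [Group G] [Finite G] [IsSimpleGroup G]
    (heven : Even (Nat.card G)) (hn : ∀ P : Sylow 2 G, (P : Subgroup G).Normal) :
    IsMulCommutative G := comm_of_normal_sylow2 heven hn

end Cfsg.Agent.H18.CT
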