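import Mathlib

/-!
# S5748-PROD (helper18, for helper43)

A nonabelian finite simple group isomorphic to `SL₂(F) × A` (`F` of characteristic two, `A`
abelian) is `PSL₂(F)` with `|F| = 2 ^ f`, `f ≥ 2`.
-/

set_option autoImplicit false

namespace Cfsg.Agent.H18.CT

/-- The centre of `SL₂(F)` is trivial in characteristic two. -/
theorem center_sl2_char2 (F : Type) [Field F] [CharP F 2] :
    Subgroup.center (Matrix.SpecialLinearGroup (Fin 2) F) = ⊥ := by
  rw [eq_bot_iff]
  intro z hz
  rw [Matrix.SpecialLinearGroup.mem_center_iff] at hz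
  obtain ⟨r, hr, hrz⟩ := hz
  rw [Fintype.card_fin] at hr
  have h2 : (2 : F) = 0 := CharTwo.two_eq_zero
  have h1 : (r - 1) ^ 2 = 0 := by linear_combination hr - (r - 1) * h2
  have hr1 : r = 1 := sub_eq_zero.mp ((pow_eq_zero_iff (two_ne_zero)).mp h1)
  rw [Subgroup.mem_bot]
  apply Subtype.ext
  rw [← hrz, hr1]
  simp

/-- `SL₂` of a field with two elements has six elements. -/
theorem card_sl2_two (F : Type) [Field F] [Fintype F] (hF : Fintype.card F = 2) :
    Nat.card (Matrix.SpecialLinearGroup (Fin 2) F) = 6 := by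
  classical
  have hone : ∀ x : F, x ≠ 0 → x = 1 := by
    intro x hx
    have h := FiniteField.pow_card_sub_one_eq_one x hx
    rw [hF] at h
    simpa using h
  have hbij : Function.Bijective
      (Matrix.SpecialLinearGroup.toGL : Matrix.SpecialLinearGroup (Fin 2) F →* _) := by
    constructor
    · intro a b hab
      apply Subtype.ext
      exact congrArg (fun g : Matrix.GeneralLinearGroup (Fin 2) F =>
        ((g : Matrix.GeneralLinearGroup (Fin 2) F) : Matrix (Fin 2) (Fin 2) F)) hab
    · intro g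
      have hdet : (g : Matrix (Fin 2) (Fin 2) F).det = 1 := by
        apply hone
        have := (Matrix.isUnit_iff_isUnit_det _).1 g.isUnit
        exact this.ne_zero
      exact ⟨⟨g, hdet⟩, Units.ext rfl⟩
  rw [Nat.card_eq_of_bijective _ hbij, Matrix.card_GL_field, hF, Fin.prod_univ_two]
  norm_num

/-- A simple group does not have order six. -/
theorem not_simple_card_six {G : Type*} [Group G] [Finite G] [IsSimpleGroup G]
    (h6 : Nat.card G = 6) : False := by
  have : Fact (Nat.Prime 3) := ⟨Nat.prime_three⟩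
  obtain ⟨x, hx⟩ := exists_prime_orderOf_dvd_card' (G := G) 3 (by rw [h6]; norm_num)
  have hcard : Nat.card (Subgroup.zpowers x) = 3 := by rw [Nat.card_zpowers, hx]
  have hidx : (Subgroup.zpowers x).index = 2 := by
    have h := (Subgroup.zpowers x).card_mul_index
    rw [hcard, h6] at h
    omega
  have hnorm : (Subgroup.zpowers x).Normal := Subgroup.normal_of_index_eq_two hidx
  rcases hnorm.eq_bot_or_eq_top with h | h
  · rw [h] at hcard
    simp at hcard
  · rw [h, Subgroup.card_top, h6] at hcard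
    omega

/-- S5748-PROD. -/
theorem psl_of_sl_prod {G : Type*} [Group G] [Finite G] [IsSimpleGroup G]
    (hG : ¬ IsMulCommutative G)
    (F : Type) [Field F] [Fintype F] (A : Type) [CommGroup A] [Finite A] (hchar : CharP F 2)
    (e : G ≃* Matrix.SpecialLinearGroup (Fin 2) F × A) :
    ∃ f : ℕ, 2 ≤ f ∧ Fintype.card F = 2 ^ f ∧
      Nonempty (G ≃* Matrix.ProjectiveSpecialLinearGroup (Fin 2) F) := by
  classical
  have := hchar
  obtain ⟨π, hπ⟩ : ∃ π : G →* Matrix.SpecialLinearGroup (Fin 2) F, ∀ g, π g = (e g).1 :=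
    ⟨(MonoidHom.fst _ _).comp e.toMonoidHom, fun g => rfl⟩
  have hπs : Function.Surjective π := by
    intro s
    refine ⟨e.symm (s, 1), ?_⟩
    rw [hπ, MulEquiv.apply_symm_apply]
  have hker : π.ker = ⊥ := by
    rcases (inferInstance : π.ker.Normal).eq_bot_or_eq_top with h | h
    · exact h
    · exfalso
      apply hG
      refine ⟨⟨fun a b => ?_⟩⟩
      have ha : (e a).1 = 1 := by
        rw [← hπ]; exact MonoidHom.mem_ker.1 (h ▸ Subgroup.mem_top a)
      have hb : (e b).1 = 1 := by
        rw [← hπ]; exact MonoidHom.mem_ker.1 (h ▸ Subgroup.mem_top b)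
      apply e.injective
      rw [map_mul, map_mul]
      refine Prod.ext ?_ ?_
      · rw [Prod.fst_mul, Prod.fst_mul, ha, hb]
      · rw [Prod.snd_mul, Prod.snd_mul, mul_comm]
  have hπi : Function.Injective π := (MonoidHom.ker_eq_bot_iff π).1 hker
  have ε : G ≃* Matrix.SpecialLinearGroup (Fin 2) F := MulEquiv.ofBijective π ⟨hπi, hπs⟩
  obtain ⟨n, -, hn⟩ := FiniteField.card F 2
  refine ⟨n, ?_, hn, ⟨ε.trans ?_⟩⟩
  · by_contra hlt
    have hn1 : (n : ℕ) = 1 := by
      have := n.pos
      omega
    rw [hn1, pow_one] at hn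
    have h6 : Nat.card G = 6 := by
      rw [Nat.card_congr ε.toEquiv]
      exact card_sl2_two F hn
    exact not_simple_card_six h6
  · exact ((QuotientGroup.quotientMulEquivOfEq (center_sl2_char2 F)).trans
      QuotientGroup.quotientBot).symm

example {G : Type*} [Group G] [Finite G] [IsSimpleGroup G] (hG : ¬ IsMulCommutative G)
    (F : Type) [Field F] [Fintype F] (A : Type) [CommGroup A] [Finite A] (hchar : CharP F 2)
    (e : G ≃* Matrix.SpecialLinearGroup (Fin 2) F × A) :
    ∃ f : ℕ, 2 ≤ f ∧ Fintype.card F = 2 ^ f ∧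
      Nonempty (G ≃* Matrix.ProjectiveSpecialLinearGroup (Fin 2) F) :=
  psl_of_sl_prod hG F A hchar e

end Cfsg.Agent.H18.CT
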