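import Mathlib
import Cfsg.Agent.H18.DkMx6
import Cfsg.Agent.H18.KleinConj
import Cfsg.Agent.S0808

/-!
# Maximal subgroups of `PSL(2, q)`, `q` odd: the cases `A₄`, `S₄`, `A₅` (helper18)
-/

set_option autoImplicit false
set_option linter.unusedSectionVars false
set_option linter.unusedVariables false
set_option linter.deprecated false
set_option linter.unusedSimpArgs false
set_option linter.style.haveILetI false
set_option linter.unnecessarySeqFocus false

namespace Cfsg.Agent.H18.Dk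

open Matrix Cfsg.Agent.H65.SL2 Cfsg.Agent.H29.Dk

/-! ### Small permutation facts -/

def a4a : alternatingGroup (Fin 4) :=
  ⟨Equiv.swap 0 1 * Equiv.swap 2 3, Equiv.Perm.mem_alternatingGroup.mpr (by decide)⟩

def a4b : alternatingGroup (Fin 4) :=
  ⟨Equiv.swap 0 2 * Equiv.swap 1 3, Equiv.Perm.mem_alternatingGroup.mpr (by decide)⟩

theorem a4_pair : a4a ≠ 1 ∧ a4b ≠ 1 ∧ a4a ≠ a4b ∧ a4a * a4a = 1 ∧ a4b * a4b = 1 ∧
    a4a * a4b = a4b * a4a := by decide

theorem a4_invol : ∀ v : alternatingGroup (Fin 4), v * v = 1 →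
    v = 1 ∨ v = a4a ∨ v = a4b ∨ v = a4a * a4b := by decide

def s4a : Equiv.Perm (Fin 4) := Equiv.swap 0 1 * Equiv.swap 2 3

def s4b : Equiv.Perm (Fin 4) := Equiv.swap 0 2 * Equiv.swap 1 3

theorem s4_pair : s4a ≠ 1 ∧ s4b ≠ 1 ∧ s4a ≠ s4b ∧ s4a * s4a = 1 ∧ s4b * s4b = 1 ∧
    s4a * s4b = s4b * s4a ∧ Equiv.Perm.sign s4a = 1 ∧ Equiv.Perm.sign s4b = 1 := by decide

set_option maxRecDepth 100000 in
theorem s4_even : ∀ σ : Equiv.Perm (Fin 4), Equiv.Perm.sign σ = 1 → σ ^ 2 = 1 ∨ σ ^ 3 = 1 := by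
  decide

set_option maxRecDepth 100000 in
theorem s4_odd : ∀ σ : Equiv.Perm (Fin 4), Equiv.Perm.sign σ ≠ 1 → σ ^ 4 = 1 := by decide

def a5a : alternatingGroup (Fin 5) :=
  ⟨Equiv.swap 0 1 * Equiv.swap 2 3, Equiv.Perm.mem_alternatingGroup.mpr (by decide)⟩

def a5b : alternatingGroup (Fin 5) :=
  ⟨Equiv.swap 0 2 * Equiv.swap 1 3, Equiv.Perm.mem_alternatingGroup.mpr (by decide)⟩

def a5c : alternatingGroup (Fin 5) :=
  ⟨Equiv.swap 0 1 * Equiv.swap 1 2, Equiv.Perm.mem_alternatingGroup.mpr (by decide)⟩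

def a5d : alternatingGroup (Fin 5) :=
  ⟨Equiv.swap 0 1 * Equiv.swap 1 2 * Equiv.swap 2 3 * Equiv.swap 3 4,
    Equiv.Perm.mem_alternatingGroup.mpr (by decide)⟩

theorem a5_pair : a5a ≠ 1 ∧ a5b ≠ 1 ∧ a5a ≠ a5b ∧ a5a * a5a = 1 ∧ a5b * a5b = 1 ∧
    a5a * a5b = a5b * a5a := by decide

theorem a5_c : a5c ≠ 1 ∧ a5c ^ 3 = 1 ∧
    (a5c * a5a * a5c⁻¹ = a5a ∨ a5c * a5a * a5c⁻¹ = a5b ∨ a5c * a5a * a5c⁻¹ = a5a * a5b) ∧
    (a5c * a5b * a5c⁻¹ = a5a ∨ a5c * a5b * a5c⁻¹ = a5b ∨ a5c * a5b * a5c⁻¹ = a5a * a5b) := by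
  decide

theorem a5_d : a5d ≠ 1 ∧ a5d ^ 5 = 1 := by decide

theorem a5_pow' (g : alternatingGroup (Fin 5)) : g ^ 2 = 1 ∨ g ^ 3 = 1 ∨ g ^ 5 = 1 := by
  have hs : Equiv.Perm.sign g.1 = 1 := Equiv.Perm.mem_alternatingGroup.1 g.2
  rcases a5_pow g.1 hs with h | h | h
  · left; exact Subtype.ext (by simpa using h)
  · right; left; exact Subtype.ext (by simpa using h)
  · right; right; exact Subtype.ext (by simpa using h)

theorem invPair_map {X G : Type*} [Group X] [Group G] (φ : X →* G) (hφ : Function.Injective φ)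
    {a b : X} (h : Cfsg.Agent.H18.InvPair a b) : Cfsg.Agent.H18.InvPair (φ a) (φ b) :=
  ⟨by rw [orderOf_injective φ hφ]; exact h.1, by rw [orderOf_injective φ hφ]; exact h.2.1,
   fun e => h.2.2.1 (hφ e), by rw [← map_mul, ← map_mul, h.2.2.2]⟩

theorem invPair_of {X : Type*} [Group X] {a b : X} (h : a ≠ 1 ∧ b ≠ 1 ∧ a ≠ b ∧ a * a = 1 ∧
    b * b = 1 ∧ a * b = b * a) : Cfsg.Agent.H18.InvPair a b :=
  ⟨Cfsg.Agent.H18.orderOf_two_of h.2.2.2.1 h.1, Cfsg.Agent.H18.orderOf_two_of h.2.2.2.2.1 h.2.1,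
    h.2.2.1, h.2.2.2.2.2⟩

section SL

variable {F : Type*} [Field F] [Fintype F]

theorem frobSub_one_le_two (p : ℕ) [Fact p.Prime] [CharP F p] :
    frobSub F p 1 ≤ frobSub F p 2 := by
  intro x hx
  rw [mem_frobSub] at hx ⊢
  rw [pow_one] at hx
  rw [pow_two, pow_mul, hx, hx]

theorem natCast_mem_frobSub (p : ℕ) [Fact p.Prime] [CharP F p] (n k : ℕ) :
    (k : F) ∈ frobSub F p n := natCast_mem _ k

/-- A maximal subgroup consisting of semisimple elements, containing a quaternion pair, with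
traces in `K` (up to a twist), forces `K = F`. -/
theorem top_of_descent (p : ℕ) [Fact p.Prime] [CharP F p] (h2 : (2 : F) ≠ 0)
    (L : Subgroup (Matrix.SpecialLinearGroup (Fin 2) F)) (hL : IsCoatom L)
    (hss : ∀ x ∈ L, x ∉ (Ze : Subgroup _) → tr x ^ 2 ≠ 4)
    (K : Subfield F) (hK1 : frobSub F p 1 ≤ K)
    {I J : Matrix.SpecialLinearGroup (Fin 2) F} (hIL : I ∈ L)
    (hJL : J ∈ L) (hI : I * I = -1) (hJ : J * J = -1) (hIJ : I * J = -(J * I))
    (N : Set (Matrix.SpecialLinearGroup (Fin 2) F)) (s : F) (hs : s ≠ 0)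
    (hN1 : ∀ g ∈ L, g ∈ N → tr g ∈ K) (hN2 : ∀ g ∈ L, g ∉ N → s * tr g ∈ K)
    (hNI : ∀ g ∈ L, (g * I ∈ N ↔ g ∈ N)) (hNJ : ∀ g ∈ L, (g * J ∈ N ↔ g ∈ N)) : K = ⊤ := by
  by_contra hK
  obtain ⟨α, β, hα, hβ, hαβ⟩ := exists_sq_add_sq (F := F) p
  have h2K : (2 : F) ∈ K := by
    have := K.add_mem K.one_mem K.one_mem
    rwa [one_add_one_eq_two] at this
  obtain ⟨g, hgL, hgZ, hgt⟩ := descent h2 L hL K hK (hK1 hα) (hK1 hβ) hαβ hIL hJL hI hJ hIJ N s hs
    hN1 hN2 hNI hNJ 2 h2K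
  apply hss g hgL hgZ
  rw [hgt]; norm_num

end SL

section A4

variable {F : Type*} [Field F] [Fintype F]

/-- `A₄` maximal with semisimple elements: the field is prime. -/
theorem a4_card_eq (p : ℕ) [Fact p.Prime] [CharP F p] (hodd : Odd (Fintype.card F))
    (M : Subgroup (Matrix.ProjectiveSpecialLinearGroup (Fin 2) F)) (hM : IsCoatom M)
    (hss : ∀ x ∈ M.comap (mkP F), x ∉ (Ze : Subgroup _) → tr x ^ 2 ≠ 4)
    (f : M ≃* alternatingGroup (Fin 4)) : Fintype.card F = p := by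
  have h2 : (2 : F) ≠ 0 := Cfsg.Agent.H44.two_ne_zero_of_odd hodd
  have hL := isCoatom_comap_mkP hM
  obtain ⟨h1, h2', h3, h4, h5, h6⟩ := a4_pair
  obtain ⟨I, J, hIM, hJM, hfI, hfJ, hII, hJJ, hIJ⟩ :=
    exists_quat_of_equiv h2 M f a4a a4b h1 h2' h3 h4 h5 h6
  have htr : ∀ g ∈ M.comap (mkP F), tr g ∈ frobSub F p 1 := by
    intro g hg
    have hg' : mkP F g ∈ M := hg
    apply tr_mem_of_pow23
    rcases a4_pow (f ⟨mkP F g, hg'⟩) with h | h
    · left; exact pow_mem_Ze_of_equiv M f hg' 2 h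
    · right; exact pow_mem_Ze_of_equiv M f hg' 3 h
  have hK := top_of_descent p h2 _ hL hss (frobSub F p 1) le_rfl (I := I) (J := J) hIM hJM hII hJJ
    hIJ Set.univ 1 one_ne_zero (fun g hg _ => htr g hg)
    (fun g hg hn => absurd (Set.mem_univ g) hn) (fun g _ => by simp) (fun g _ => by simp)
  exact card_of_frob_one p hK

/-- The Klein four-subgroup of a subgroup isomorphic to `A₄`. -/
theorem a4_klein (M : Subgroup (Matrix.ProjectiveSpecialLinearGroup (Fin 2) F))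
    (f : M ≃* alternatingGroup (Fin 4)) :
    ∃ V : Subgroup (Matrix.ProjectiveSpecialLinearGroup (Fin 2) F), IsKleinFour V ∧
      Nat.card V = 4 ∧ V ≤ M ∧ M ≤ Subgroup.normalizer (V : Set _) := by
  classical
  let φ : alternatingGroup (Fin 4) →* Matrix.ProjectiveSpecialLinearGroup (Fin 2) F :=
    M.subtype.comp f.symm.toMonoidHom
  have hφ : Function.Injective φ := fun a b h => f.symm.injective (M.subtype_injective h)
  have hφf : ∀ m : M, φ (f m) = (m : Matrix.ProjectiveSpecialLinearGroup (Fin 2) F) := by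
    intro m
    show ((f.symm (f m) : M) : Matrix.ProjectiveSpecialLinearGroup (Fin 2) F) = m
    rw [MulEquiv.symm_apply_apply]
  have hφM : ∀ a, φ a ∈ M := fun a => (f.symm a).2
  have hp : Cfsg.Agent.H18.InvPair (φ a4a) (φ a4b) := invPair_map φ hφ (invPair_of a4_pair)
  have hinv : ∀ m ∈ M, m * m = 1 → m ∈ Cfsg.Agent.H18.pairSubgroup (φ a4a) (φ a4b) hp := by
    intro m hm hmm
    have h1 : f ⟨m, hm⟩ * f ⟨m, hm⟩ = 1 := by
      rw [← map_mul]
      have : (⟨m, hm⟩ : M) * ⟨m, hm⟩ = 1 := Subtype.ext hmm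
      rw [this, map_one]
    have h2 : φ (f ⟨m, hm⟩) = m := hφf ⟨m, hm⟩
    rw [Cfsg.Agent.H18.mem_pairSubgroup]
    rcases a4_invol _ h1 with h | h | h | h
    · left; rw [← h2, h, map_one]
    · right; left; rw [← h2, h]
    · right; right; left; rw [← h2, h]
    · right; right; right; rw [← h2, h, map_mul]
  have hVM : Cfsg.Agent.H18.pairSubgroup (φ a4a) (φ a4b) hp ≤ M := by
    intro v hv
    rw [Cfsg.Agent.H18.mem_pairSubgroup] at hv
    rcases hv with rfl | rfl | rfl | rfl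
    · exact M.one_mem
    · exact hφM _
    · exact hφM _
    · exact M.mul_mem (hφM _) (hφM _)
  have hsq : ∀ v ∈ Cfsg.Agent.H18.pairSubgroup (φ a4a) (φ a4b) hp, v * v = 1 := by
    intro v hv
    have hx2 := Cfsg.Agent.H18.mul_self_of_orderOf_two hp.1
    have hy2 := Cfsg.Agent.H18.mul_self_of_orderOf_two hp.2.1
    have hc := hp.2.2.2
    rw [Cfsg.Agent.H18.mem_pairSubgroup] at hv
    rcases hv with rfl | rfl | rfl | rfl
    · simp
    · exact hx2
    · exact hy2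
    · calc φ a4a * φ a4b * (φ a4a * φ a4b) = φ a4a * (φ a4b * φ a4a) * φ a4b := by group
        _ = φ a4a * (φ a4a * φ a4b) * φ a4b := by rw [hc]
        _ = (φ a4a * φ a4a) * (φ a4b * φ a4b) := by group
        _ = 1 := by rw [hx2, hy2, one_mul]
  refine ⟨_, Cfsg.Agent.H18.isKleinFour_pairSubgroup _ _ hp,
    Cfsg.Agent.H18.card_pairSubgroup _ _ hp, hVM, ?_⟩
  intro m hm
  apply Subgroup.mem_normalizer_fintype
  intro n hn
  have hn' : n ∈ Cfsg.Agent.H18.pairSubgroup (φ a4a) (φ a4b) hp := hn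
  apply hinv _ (M.mul_mem (M.mul_mem hm (hVM hn')) (M.inv_mem hm))
  calc m * n * m⁻¹ * (m * n * m⁻¹) = m * (n * n) * m⁻¹ := by group
    _ = 1 := by rw [hsq n hn']; group

theorem klein_normalizer_eq (hodd : Odd (Fintype.card F)) (h5 : 5 ≤ Fintype.card F)
    (M : Subgroup (Matrix.ProjectiveSpecialLinearGroup (Fin 2) F)) (hM : IsCoatom M)
    (V : Subgroup (Matrix.ProjectiveSpecialLinearGroup (Fin 2) F)) (hV4 : Nat.card V = 4)
    (hVM : V ≤ M) (hN : M ≤ Subgroup.normalizer (V : Set _)) :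
    Subgroup.normalizer (V : Set (Matrix.ProjectiveSpecialLinearGroup (Fin 2) F)) = M := by
  haveI := Cfsg.Agent.H64.MX.simple_PSL2 (F := F) (by omega)
  apply Cfsg.Agent.H64.MX.normalizer_eq_of_coatom hM _ _ hN
  · intro h
    rw [h, Subgroup.card_bot] at hV4
    omega
  · intro h
    rw [h] at hVM
    exact hM.1 (top_le_iff.1 hVM)

/-- `A₄` maximal forces `q ≡ ±3 (mod 8)`. -/
theorem a4_mod8 (hodd : Odd (Fintype.card F)) (h5 : 5 ≤ Fintype.card F)
    (M : Subgroup (Matrix.ProjectiveSpecialLinearGroup (Fin 2) F)) (hM : IsCoatom M)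
    (f : M ≃* alternatingGroup (Fin 4)) :
    Fintype.card F % 8 = 3 ∨ Fintype.card F % 8 = 5 := by
  classical
  obtain ⟨V, hVK, hV4, hVM, hN⟩ := a4_klein M f
  have hNeq := klein_normalizer_eq hodd h5 M hM V hV4 hVM hN
  have hcM : Nat.card M = 12 := by rw [Nat.card_congr f.toEquiv, card_A4]
  by_contra hmod
  obtain ⟨j, hj⟩ := hodd
  have hq17 : Fintype.card F % 8 = 1 ∨ Fintype.card F % 8 = 7 := by omega
  have hG := card_PSL2_odd (F := F) ⟨j, hj⟩
  have h16 : 16 ∣ Fintype.card F ^ 2 - 1 := by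
    rw [sq_sub_one_eq _ (by omega)]
    rcases hq17 with h | h
    · obtain ⟨i, hi⟩ : ∃ i, Fintype.card F = 8 * i + 1 := ⟨Fintype.card F / 8, by omega⟩
      rw [hi]
      have e : (8 * i + 1 - 1) * (8 * i + 1 + 1) = 16 * (i * (4 * i + 1)) := by
        rw [Nat.add_sub_cancel]; ring
      rw [e]; exact Dvd.intro _ rfl
    · obtain ⟨i, hi⟩ : ∃ i, Fintype.card F = 8 * i + 7 := ⟨Fintype.card F / 8, by omega⟩
      rw [hi]
      have e : (8 * i + 7 - 1) * (8 * i + 7 + 1) = 16 * ((4 * i + 3) * (i + 1)) := by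
        have : 8 * i + 7 - 1 = 8 * i + 6 := by omega
        rw [this]; ring
      rw [e]; exact Dvd.intro _ rfl
  have h8 : 2 ^ (2 + 1) ∣ Nat.card (Matrix.ProjectiveSpecialLinearGroup (Fin 2) F) := by
    have h1 : 16 ∣ 2 * Nat.card (Matrix.ProjectiveSpecialLinearGroup (Fin 2) F) := by
      rw [hG]; exact Dvd.dvd.mul_left h16 _
    obtain ⟨c, hc⟩ := h1
    exact ⟨c, by omega⟩
  haveI : Fact (Nat.Prime 2) := ⟨Nat.prime_two⟩
  obtain ⟨K, hK8, hVK'⟩ := Sylow.exists_subgroup_card_pow_succ h8 (H := V) (by rw [hV4]; norm_num)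
  have hidx : (V.subgroupOf K).index = 2 := by
    have h1 := Subgroup.card_mul_index (V.subgroupOf K)
    rw [Nat.card_congr (Subgroup.subgroupOfEquivOfLe hVK').toEquiv, hV4, hK8] at h1
    omega
  haveI : (V.subgroupOf K).Normal := Subgroup.normal_of_index_eq_two hidx
  have hKN : K ≤ Subgroup.normalizer (V : Set _) := Subgroup.le_normalizer_of_normal_subgroupOf hVK'
  rw [hNeq] at hKN
  have hdvd := Subgroup.card_dvd_of_le hKN
  rw [hK8, hcM] at hdvd
  norm_num at hdvd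

end A4

section A4b

variable {F : Type*} [Field F] [Fintype F]

/-- `A₄` maximal forces `q ≢ ±1 (mod 10)`. -/
theorem a4_mod10 (hodd : Odd (Fintype.card F)) (h5 : 5 ≤ Fintype.card F)
    (M : Subgroup (Matrix.ProjectiveSpecialLinearGroup (Fin 2) F)) (hM : IsCoatom M)
    (f : M ≃* alternatingGroup (Fin 4)) :
    ¬ (Fintype.card F % 10 = 1 ∨ Fintype.card F % 10 = 9) := by
  classical
  intro h10
  have h8 := a4_mod8 hodd h5 M hM f
  obtain ⟨V, hVK, hV4, hVM, hN⟩ := a4_klein M f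
  haveI := Cfsg.Agent.H64.MX.simple_PSL2 (F := F) (by omega)
  have hcM : Nat.card M = 12 := by rw [Nat.card_congr f.toEquiv, card_A4]
  have hq9 : 9 ≤ Fintype.card F := by omega
  have h5dvd : 5 ∣ Fintype.card F * (Fintype.card F ^ 2 - 1) := by
    rw [sq_sub_one_eq _ (by omega)]
    rcases h10 with h | h
    · have : 5 ∣ Fintype.card F - 1 := by omega
      exact Dvd.dvd.mul_left (Dvd.dvd.mul_right this _) _
    · have : 5 ∣ Fintype.card F + 1 := by omega
      exact Dvd.dvd.mul_left (Dvd.dvd.mul_left this _) _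
  obtain ⟨A, ⟨e⟩⟩ := (Cfsg.Agent.S0804.result (F := F) rfl).2 h5dvd
  have hcA : Nat.card A = 60 := by rw [Nat.card_congr e.toEquiv, card_A5]
  let ψ : alternatingGroup (Fin 5) →* Matrix.ProjectiveSpecialLinearGroup (Fin 2) F :=
    A.subtype.comp e.symm.toMonoidHom
  have hψ : Function.Injective ψ := fun a b h => e.symm.injective (A.subtype_injective h)
  have hψA : ∀ a, ψ a ∈ A := fun a => (e.symm a).2
  have hp : Cfsg.Agent.H18.InvPair (ψ a5a) (ψ a5b) := invPair_map ψ hψ (invPair_of a5_pair)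
  have hWK : IsKleinFour (Cfsg.Agent.H18.pairSubgroup (ψ a5a) (ψ a5b) hp) :=
    Cfsg.Agent.H18.isKleinFour_pairSubgroup _ _ hp
  have hW4 : Nat.card (Cfsg.Agent.H18.pairSubgroup (ψ a5a) (ψ a5b) hp) = 4 :=
    Cfsg.Agent.H18.card_pairSubgroup _ _ hp
  obtain ⟨g, hg⟩ := (Cfsg.Agent.S0808.result (F := F) rfl hodd).1 h8 V _ hVK hWK
  have hRn : Subgroup.normalizer (V : Set (Matrix.ProjectiveSpecialLinearGroup (Fin 2) F)) ≠ ⊤ := by
    rw [klein_normalizer_eq hodd h5 M hM V hV4 hVM hN]; exact hM.1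
  have hA : A ≠ ⊤ := by
    intro h
    rw [h, Subgroup.card_top] at hcA
    have hG := card_PSL2_odd (F := F) hodd
    rw [hcA] at hG
    have h81 : 9 * 9 ≤ Fintype.card F * Fintype.card F := Nat.mul_le_mul hq9 hq9
    have h80 : 80 ≤ Fintype.card F ^ 2 - 1 := by rw [pow_two]; omega
    have := Nat.mul_le_mul hq9 h80
    omega
  refine coatom_conj_contra hM hN hRn hA g hg ?_ (by rw [hcA, hcM]; norm_num)
  rw [hcM]
  have hWA : Cfsg.Agent.H18.pairSubgroup (ψ a5a) (ψ a5b) hp ≤ A := by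
    intro v hv
    rw [Cfsg.Agent.H18.mem_pairSubgroup] at hv
    rcases hv with rfl | rfl | rfl | rfl
    · exact A.one_mem
    · exact hψA _
    · exact hψA _
    · exact A.mul_mem (hψA _) (hψA _)
  have h4 : 4 ∣ Nat.card (A ⊓ Subgroup.normalizer
      ((Cfsg.Agent.H18.pairSubgroup (ψ a5a) (ψ a5b) hp : Subgroup _) : Set _) : Subgroup _) := by
    rw [← hW4]
    exact Subgroup.card_dvd_of_le (le_inf hWA Subgroup.le_normalizer)
  have hxW : ψ a5a ∈ Cfsg.Agent.H18.pairSubgroup (ψ a5a) (ψ a5b) hp := Or.inr (Or.inl rfl)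
  have hyW : ψ a5b ∈ Cfsg.Agent.H18.pairSubgroup (ψ a5a) (ψ a5b) hp :=
    Or.inr (Or.inr (Or.inl rfl))
  have hcx : ψ a5c * ψ a5a * (ψ a5c)⁻¹ ∈ Cfsg.Agent.H18.pairSubgroup (ψ a5a) (ψ a5b) hp := by
    rw [← map_inv, ← map_mul, ← map_mul, Cfsg.Agent.H18.mem_pairSubgroup]
    rcases a5_c.2.2.1 with h | h | h
    · right; left; rw [h]
    · right; right; left; rw [h]
    · right; right; right; rw [h, map_mul]
  have hcy : ψ a5c * ψ a5b * (ψ a5c)⁻¹ ∈ Cfsg.Agent.H18.pairSubgroup (ψ a5a) (ψ a5b) hp := by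
    rw [← map_inv, ← map_mul, ← map_mul, Cfsg.Agent.H18.mem_pairSubgroup]
    rcases a5_c.2.2.2 with h | h | h
    · right; left; rw [h]
    · right; right; left; rw [h]
    · right; right; right; rw [h, map_mul]
  have hc : ψ a5c ∈ (A ⊓ Subgroup.normalizer
      ((Cfsg.Agent.H18.pairSubgroup (ψ a5a) (ψ a5b) hp : Subgroup _) : Set _) : Subgroup _) := by
    refine Subgroup.mem_inf.2 ⟨hψA _, ?_⟩
    apply Subgroup.mem_normalizer_fintype
    intro n hn
    have hn' : n ∈ Cfsg.Agent.H18.pairSubgroup (ψ a5a) (ψ a5b) hp := hn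
    show ψ a5c * n * (ψ a5c)⁻¹ ∈ Cfsg.Agent.H18.pairSubgroup (ψ a5a) (ψ a5b) hp
    rw [Cfsg.Agent.H18.mem_pairSubgroup] at hn'
    rcases hn' with rfl | rfl | rfl | rfl
    · simp only [mul_one, mul_inv_cancel]; exact Subgroup.one_mem _
    · exact hcx
    · exact hcy
    · have e1 : ψ a5c * (ψ a5a * ψ a5b) * (ψ a5c)⁻¹ =
          (ψ a5c * ψ a5a * (ψ a5c)⁻¹) * (ψ a5c * ψ a5b * (ψ a5c)⁻¹) := by group
      rw [e1]
      exact Subgroup.mul_mem _ hcx hcy
  have h3 : 3 ∣ Nat.card (A ⊓ Subgroup.normalizer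
      ((Cfsg.Agent.H18.pairSubgroup (ψ a5a) (ψ a5b) hp : Subgroup _) : Set _) : Subgroup _) := by
    haveI : Fact (Nat.Prime 3) := ⟨Nat.prime_three⟩
    have ho : orderOf (ψ a5c) = 3 := by
      rw [orderOf_injective ψ hψ]
      exact orderOf_eq_prime a5_c.2.1 a5_c.1
    rw [← ho]
    have := orderOf_dvd_natCard (⟨ψ a5c, hc⟩ : ↥(A ⊓ Subgroup.normalizer
      ((Cfsg.Agent.H18.pairSubgroup (ψ a5a) (ψ a5b) hp : Subgroup _) : Set _) : Subgroup _))
    rwa [Subgroup.orderOf_mk] at this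
  have h12 : 4 * 3 ∣ Nat.card (A ⊓ Subgroup.normalizer
      ((Cfsg.Agent.H18.pairSubgroup (ψ a5a) (ψ a5b) hp : Subgroup _) : Set _) : Subgroup _) :=
    Nat.Coprime.mul_dvd_of_dvd_of_dvd (by norm_num) h4 h3
  exact Nat.le_of_dvd Nat.card_pos h12

end A4b

section S4

variable {F : Type*} [Field F] [Fintype F]

/-- **The `S₄` case.** -/
theorem s4_case (p : ℕ) [Fact p.Prime] [CharP F p] (hodd : Odd (Fintype.card F))
    (M : Subgroup (Matrix.ProjectiveSpecialLinearGroup (Fin 2) F)) (hM : IsCoatom M)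
    (hss : ∀ x ∈ M.comap (mkP F), x ∉ (Ze : Subgroup _) → tr x ^ 2 ≠ 4)
    (f : M ≃* Equiv.Perm (Fin 4)) :
    Fintype.card F = p ∧ (p % 8 = 1 ∨ p % 8 = 7) := by
  classical
  have h2 : (2 : F) ≠ 0 := Cfsg.Agent.H44.two_ne_zero_of_odd hodd
  have hL := isCoatom_comap_mkP hM
  obtain ⟨h1, h2', h3, h4, h5', h6, hsa, hsb⟩ := s4_pair
  obtain ⟨I, J, hIM, hJM, hfI, hfJ, hII, hJJ, hIJ⟩ :=
    exists_quat_of_equiv h2 M f s4a s4b h1 h2' h3 h4 h5' h6
  let N : Set (Matrix.SpecialLinearGroup (Fin 2) F) :=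
    {g | ∃ h : mkP F g ∈ M, Equiv.Perm.sign (f ⟨mkP F g, h⟩) = 1}
  have hNiff : ∀ g (hg : mkP F g ∈ M), g ∈ N ↔ Equiv.Perm.sign (f ⟨mkP F g, hg⟩) = 1 := by
    intro g hg
    constructor
    · rintro ⟨h, hs⟩; exact hs
    · intro hs; exact ⟨hg, hs⟩
  have hmul : ∀ g (hg : mkP F g ∈ M) (X : Matrix.SpecialLinearGroup (Fin 2) F)
      (hX : mkP F X ∈ M), Equiv.Perm.sign (f ⟨mkP F X, hX⟩) = 1 → (g * X ∈ N ↔ g ∈ N) := by
    intro g hg X hX hsX
    have hgX : mkP F (g * X) ∈ M := by rw [map_mul]; exact M.mul_mem hg hX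
    rw [hNiff _ hgX, hNiff _ hg]
    have e : (⟨mkP F (g * X), hgX⟩ : M) = ⟨mkP F g, hg⟩ * ⟨mkP F X, hX⟩ :=
      Subtype.ext (map_mul _ _ _)
    rw [e, map_mul, map_mul, hsX, mul_one]
  have h2K : (2 : F) ∈ frobSub F p 1 := by
    have h := natCast_mem_frobSub (F := F) p 1 2
    rw [Nat.cast_ofNat] at h
    exact h
  obtain ⟨s, hs0, hsK⟩ : ∃ s : F, s ≠ 0 ∧ ∀ t : F, t * t = 2 → s * t ∈ frobSub F p 1 := by
    by_cases hex : ∃ s₀ : F, s₀ * s₀ = 2
    · obtain ⟨s₀, hs₀⟩ := hex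
      refine ⟨s₀, ?_, ?_⟩
      · rintro rfl
        apply h2
        rw [← hs₀]; ring
      · intro t ht
        have h0 : (t - s₀) * (t + s₀) = 0 := by linear_combination ht - hs₀
        rcases mul_eq_zero.1 h0 with h | h
        · have : s₀ * t = 2 := by rw [← hs₀]; linear_combination s₀ * h
          rw [this]; exact h2K
        · have : s₀ * t = -2 := by rw [← hs₀]; linear_combination s₀ * h
          rw [this]; exact neg_mem h2K
    · refine ⟨1, one_ne_zero, ?_⟩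
      intro t ht
      exact absurd ⟨t, ht⟩ hex
  have hN1 : ∀ g ∈ M.comap (mkP F), g ∈ N → tr g ∈ frobSub F p 1 := by
    intro g hg hgN
    have hg' : mkP F g ∈ M := hg
    have hs := (hNiff g hg').1 hgN
    apply tr_mem_of_pow23
    rcases s4_even _ hs with h | h
    · left; exact pow_mem_Ze_of_equiv M f hg' 2 h
    · right; exact pow_mem_Ze_of_equiv M f hg' 3 h
  have hN2 : ∀ g ∈ M.comap (mkP F), g ∉ N → s * tr g ∈ frobSub F p 1 := by
    intro g hg hgN
    have hg' : mkP F g ∈ M := hg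
    have hs : Equiv.Perm.sign (f ⟨mkP F g, hg'⟩) ≠ 1 := fun h => hgN ((hNiff g hg').2 h)
    have h4' := pow_mem_Ze_of_equiv M f hg' 4 (s4_odd _ hs)
    have hgZ : g ∉ (Ze : Subgroup _) := by
      intro hZ
      apply hs
      have : (⟨mkP F g, hg'⟩ : M) = 1 := Subtype.ext (mkP_eq_one_iff.2 hZ)
      rw [this, map_one, map_one]
    rcases tr_of_pow4_mem_Ze hgZ h4' with h | h
    · rw [h, mul_zero]; exact Subfield.zero_mem _
    · exact hsK _ h
  have hK := top_of_descent p h2 _ hL hss (frobSub F p 1) le_rfl (I := I) (J := J) hIM hJM hII hJJ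
    hIJ N s hs0 hN1 hN2
    (fun g hg => hmul g hg I hIM (by rw [hfI]; exact hsa))
    (fun g hg => hmul g hg J hJM (by rw [hfJ]; exact hsb))
  have hq := card_of_frob_one p hK
  refine ⟨hq, ?_⟩
  have h16 := (Cfsg.Agent.S0803.result (F := F) rfl).1 ⟨M, ⟨f⟩⟩
  rw [hq] at h16
  have e : p ^ 2 % 16 = (p % 16) ^ 2 % 16 := Nat.pow_mod p 2 16
  rw [e] at h16
  have hlt : p % 16 < 16 := Nat.mod_lt _ (by norm_num)
  have e8 : p % 8 = (p % 16) % 8 := (Nat.mod_mod_of_dvd p (by norm_num : 8 ∣ 16)).symm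
  rw [e8]
  generalize p % 16 = r at h16 hlt
  interval_cases r <;> simp_all

end S4

section A5

variable {F : Type*} [Field F] [Fintype F]

theorem a5_traces (h2 : (2 : F) ≠ 0)
    (M : Subgroup (Matrix.ProjectiveSpecialLinearGroup (Fin 2) F))
    (f : M ≃* alternatingGroup (Fin 5)) (K : Subfield F) (hK5 : ∀ w : F, w * w = 5 → w ∈ K) :
    ∀ g ∈ M.comap (mkP F), tr g ∈ K := by
  intro g hg
  have hg' : mkP F g ∈ M := hg
  apply tr_mem_of_pow235 h2 K hK5
  rcases a5_pow' (f ⟨mkP F g, hg'⟩) with h | h | h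
  · left; exact pow_mem_Ze_of_equiv M f hg' 2 h
  · right; left; exact pow_mem_Ze_of_equiv M f hg' 3 h
  · right; right; exact pow_mem_Ze_of_equiv M f hg' 5 h

/-- **The `A₅` case** (semisimple elements). -/
theorem a5_case (p : ℕ) [Fact p.Prime] [CharP F p] (hodd : Odd (Fintype.card F))
    (h5 : 5 ≤ Fintype.card F)
    (M : Subgroup (Matrix.ProjectiveSpecialLinearGroup (Fin 2) F)) (hM : IsCoatom M)
    (hss : ∀ x ∈ M.comap (mkP F), x ∉ (Ze : Subgroup _) → tr x ^ 2 ≠ 4)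
    (f : M ≃* alternatingGroup (Fin 5)) :
    (Fintype.card F % 10 = 1 ∨ Fintype.card F % 10 = 9) ∧
      (Fintype.card F = p ∨ (Fintype.card F = p ^ 2 ∧ (p % 10 = 3 ∨ p % 10 = 7))) := by
  classical
  have h2 : (2 : F) ≠ 0 := Cfsg.Agent.H44.two_ne_zero_of_odd hodd
  have hL := isCoatom_comap_mkP hM
  have hp : p.Prime := Fact.out
  have hp2 : p ≠ 2 := by
    rintro rfl
    exact h2 CharTwo.two_eq_zero
  have hcM : Nat.card M = 60 := by rw [Nat.card_congr f.toEquiv, card_A5]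
  have hnd : ¬ p ∣ 60 := by
    have := not_dvd_card_of_semi p h2 (M.comap (mkP F)) (Ze_le_comap M) hss
    rw [map_comap_mkP, hcM] at this
    exact this
  have hp5 : p ≠ 5 := by
    rintro rfl
    exact hnd (by norm_num)
  have h5dvd := (Cfsg.Agent.S0804.result (F := F) rfl).1 ⟨M, ⟨f⟩⟩
  obtain ⟨n, -, hn⟩ := FiniteField.card F p
  have h5q : ¬ 5 ∣ Fintype.card F := by
    rw [hn]
    intro h
    have := Nat.Prime.dvd_of_dvd_pow Nat.prime_five h
    exact hp5 ((Nat.prime_dvd_prime_iff_eq Nat.prime_five hp).1 this).symm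
  have hq10 : Fintype.card F % 10 = 1 ∨ Fintype.card F % 10 = 9 := by
    rcases (Nat.Prime.dvd_mul Nat.prime_five).1 h5dvd with h | h
    · exact absurd h h5q
    · rw [sq_sub_one_eq _ (by omega)] at h
      obtain ⟨j, hj⟩ := hodd
      rcases (Nat.Prime.dvd_mul Nat.prime_five).1 h with h' | h'
      · left; omega
      · right; omega
  refine ⟨hq10, ?_⟩
  obtain ⟨h1, h2', h3, h4, h5', h6⟩ := a5_pair
  obtain ⟨I, J, hIM, hJM, hfI, hfJ, hII, hJJ, hIJ⟩ :=
    exists_quat_of_equiv h2 M f a5a a5b h1 h2' h3 h4 h5' h6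
  have h5K : (5 : F) ∈ frobSub F p 1 := by
    have h := natCast_mem_frobSub (F := F) p 1 5
    rw [Nat.cast_ofNat] at h
    exact h
  by_cases hp10 : p % 10 = 1 ∨ p % 10 = 9
  · left
    obtain ⟨s, hs, hs5⟩ := exists_sq_eq_five (F := F) p hp10
    have hK5 : ∀ w : F, w * w = 5 → w ∈ frobSub F p 1 := by
      intro w hw
      have h0 : (w - s) * (w + s) = 0 := by linear_combination hw - hs5
      rcases mul_eq_zero.1 h0 with h | h
      · have : w = s := by linear_combination h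
        rw [this]; exact hs
      · have : w = -s := by linear_combination h
        rw [this]; exact neg_mem hs
    have htr := a5_traces h2 M f _ hK5
    have hK := top_of_descent p h2 _ hL hss (frobSub F p 1) le_rfl (I := I) (J := J) hIM hJM hII
      hJJ hIJ Set.univ 1 one_ne_zero (fun g hg _ => htr g hg)
      (fun g hg hn => absurd (Set.mem_univ g) hn) (fun g _ => by simp) (fun g _ => by simp)
    exact card_of_frob_one p hK
  · have hK5 : ∀ w : F, w * w = 5 → w ∈ frobSub F p 2 :=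
      fun w hw => sqrt_mem_frobSub p hp2 hw h5K
    have htr := a5_traces h2 M f _ hK5
    have hK := top_of_descent p h2 _ hL hss (frobSub F p 2) (frobSub_one_le_two p) (I := I)
      (J := J) hIM hJM hII hJJ hIJ Set.univ 1 one_ne_zero (fun g hg _ => htr g hg)
      (fun g hg hn => absurd (Set.mem_univ g) hn) (fun g _ => by simp) (fun g _ => by simp)
    rcases card_of_frob_two p hK with h | h
    · left; exact h
    · right
      refine ⟨h, ?_⟩
      have hodd_p : p % 2 = 1 := (hp.eq_two_or_odd).resolve_left hp2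
      have h5p : p % 5 ≠ 0 := by
        intro h0
        have : 5 ∣ p := Nat.dvd_of_mod_eq_zero h0
        exact hp5 ((Nat.prime_dvd_prime_iff_eq Nat.prime_five hp).1 this).symm
      omega

/-- **The `A₅` case in characteristic `3`**: `q = 9`. -/
theorem a5_char3 [Fact (Nat.Prime 3)] [CharP F 3] (hodd : Odd (Fintype.card F))
    (h5 : 5 ≤ Fintype.card F)
    (M : Subgroup (Matrix.ProjectiveSpecialLinearGroup (Fin 2) F)) (hM : IsCoatom M)
    (f : M ≃* alternatingGroup (Fin 5)) : Fintype.card F = 9 := by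
  classical
  have h2 : (2 : F) ≠ 0 := Cfsg.Agent.H44.two_ne_zero_of_odd hodd
  have h3 : (3 : F) = 0 := by
    have := CharP.cast_eq_zero F 3
    rw [Nat.cast_ofNat] at this
    exact this
  have hL := isCoatom_comap_mkP hM
  obtain ⟨h1, h2', h3', h4, h5', h6⟩ := a5_pair
  obtain ⟨I, J, hIM, hJM, hfI, hfJ, hII, hJJ, hIJ⟩ :=
    exists_quat_of_equiv h2 M f a5a a5b h1 h2' h3' h4 h5' h6
  have h5K : (5 : F) ∈ frobSub F 3 1 := by
    have h := natCast_mem_frobSub (F := F) 3 1 5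
    rw [Nat.cast_ofNat] at h
    exact h
  have hK5 : ∀ w : F, w * w = 5 → w ∈ frobSub F 3 2 :=
    fun w hw => sqrt_mem_frobSub 3 (by norm_num) hw h5K
  have htr := a5_traces h2 M f _ hK5
  have hK : frobSub F 3 2 = ⊤ := by
    by_contra hK
    obtain ⟨α, β, hα, hβ, hαβ⟩ := exists_sq_add_sq (F := F) 3
    have hdesc := descent h2 _ hL (frobSub F 3 2) hK (frobSub_one_le_two 3 hα)
      (frobSub_one_le_two 3 hβ) hαβ (I := I) (J := J) hIM hJM hII hJJ hIJ Set.univ 1 one_ne_zero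
      (fun g hg _ => htr g hg) (fun g hg hn => absurd (Set.mem_univ g) hn) (fun g _ => by simp)
      (fun g _ => by simp)
    obtain ⟨g₅, hg₅⟩ := mkP_surjective
      ((f.symm a5d : M) : Matrix.ProjectiveSpecialLinearGroup (Fin 2) F)
    have hg₅M : mkP F g₅ ∈ M := by rw [hg₅]; exact (f.symm a5d).2
    have hfg : f ⟨mkP F g₅, hg₅M⟩ = a5d := by
      have : (⟨mkP F g₅, hg₅M⟩ : M) = f.symm a5d := Subtype.ext hg₅
      rw [this, MulEquiv.apply_symm_apply]
    have hg₅Z : g₅ ∉ (Ze : Subgroup _) := by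
      intro hZ
      apply a5_d.1
      have : (⟨mkP F g₅, hg₅M⟩ : M) = 1 := Subtype.ext (mkP_eq_one_iff.2 hZ)
      rw [← hfg, this, map_one]
    have hg₅5 : g₅ ^ 5 ∈ (Ze : Subgroup _) :=
      pow_mem_Ze_of_equiv M f hg₅M 5 (by rw [hfg]; exact a5_d.2)
    obtain ⟨w, hw⟩ : ∃ w : F, w * w = 5 := by
      rcases tr_of_pow5_mem_Ze hg₅Z hg₅5 with h | h
      · exact ⟨_, h⟩
      · exact ⟨_, h⟩
    obtain ⟨g, hgL, hgZ, hgt⟩ := hdesc w (hK5 w hw)
    have hg' : mkP F g ∈ M := hgL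
    rcases a5_pow' (f ⟨mkP F g, hg'⟩) with h | h | h
    · have ht := tr_of_sq_mem_Ze hgZ (pow_mem_Ze_of_equiv M f hg' 2 h)
      rw [hgt] at ht
      apply h2
      rw [ht] at hw
      linear_combination (-1 : F) * hw - h3
    · apply one_ne_zero (α := F)
      rcases tr_of_cube_mem_Ze hgZ (pow_mem_Ze_of_equiv M f hg' 3 h) with ht | ht
      · rw [hgt] at ht
        rw [ht] at hw
        linear_combination (-1 : F) * hw - h3
      · rw [hgt] at ht
        rw [ht] at hw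
        linear_combination (-1 : F) * hw - h3
    · apply one_ne_zero (α := F)
      rcases tr_of_pow5_mem_Ze hgZ (pow_mem_Ze_of_equiv M f hg' 5 h) with ht | ht
      · rw [hgt] at ht
        have e1 : w = -1 := by linear_combination ht - 4 * hw - (w + 5) * h3
        linear_combination (-1 : F) * hw + (w - 1) * e1 - h3
      · rw [hgt] at ht
        have e1 : w = 1 := by linear_combination (-1 : F) * ht + 4 * hw + (5 - w) * h3
        linear_combination (-1 : F) * hw + (w + 1) * e1 - h3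
  rcases card_of_frob_two 3 hK with h | h
  · omega
  · rw [h]; norm_num

end A5

end Cfsg.Agent.H18.Dk
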