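import Mathlib
import Cfsg.Agent.H18.DkMx7
import Cfsg.Agent.S0806

/-!
# Maximal subgroups of `PSL(2, q)`, `q` odd: assembly (helper18)
-/

set_option autoImplicit false
set_option linter.unusedSectionVars false
set_option linter.unusedVariables false
set_option linter.deprecated false
set_option linter.unusedSimpArgs false
set_option linter.style.haveILetI false
set_option linter.unnecessarySeqFocus false

namespace Cfsg.Agent.H18.Dk

open Matrix Cfsg.Agent.H65.SL2 Cfsg.Agent.H29.Dk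

variable {F : Type*} [Field F] [Fintype F]

theorem Bo_ne_top (h5 : 5 ≤ Fintype.card F) :
    (Bo : Subgroup (Matrix.SpecialLinearGroup (Fin 2) F)) ≠ ⊤ := by
  intro h
  have h1 := card_Bo (F := F)
  rw [h, Subgroup.card_top, Cfsg.Agent.H44.card_SL2, sq_sub_one_eq _ (by omega)] at h1
  have hpos : 0 < Fintype.card F * (Fintype.card F - 1) := Nat.mul_pos (by omega) (by omega)
  have h2 : Fintype.card F * (Fintype.card F - 1) * (Fintype.card F + 1) =
      Fintype.card F * (Fintype.card F - 1) * 1 := by rw [mul_one, mul_assoc]; exact h1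
  have h3 := Nat.eq_of_mul_eq_mul_left hpos h2
  omega

/-- **Maximal subgroups of `PSL(2, q)`, `q` odd.** -/
theorem main_5892 (p : ℕ) [Fact p.Prime] [CharP F p] (hodd : Odd (Fintype.card F))
    (h5 : 5 ≤ Fintype.card F)
    (M : Subgroup (Matrix.ProjectiveSpecialLinearGroup (Fin 2) F)) (hM : IsCoatom M) :
    2 * Nat.card M = Fintype.card F * (Fintype.card F - 1) ∨
    (13 ≤ Fintype.card F ∧
      (∃ k : ℕ, 2 * k = Fintype.card F - 1 ∧ Nonempty (M ≃* DihedralGroup k))) ∨
    (Fintype.card F ≠ 7 ∧ Fintype.card F ≠ 9 ∧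
      (∃ k : ℕ, 2 * k = Fintype.card F + 1 ∧ Nonempty (M ≃* DihedralGroup k))) ∨
    (∃ (F₀ : Type) (_ : Field F₀) (_ : Fintype F₀), Fintype.card F = Fintype.card F₀ ^ 2 ∧
        Nonempty (M ≃* Matrix.ProjGenLinGroup (Fin 2) F₀)) ∨
    (∃ (F₀ : Type) (_ : Field F₀) (_ : Fintype F₀) (r : ℕ), r.Prime ∧ Odd r ∧
        Fintype.card F = Fintype.card F₀ ^ r ∧
        Nonempty (M ≃* Matrix.ProjectiveSpecialLinearGroup (Fin 2) F₀)) ∨
    ((Fintype.card F % 10 = 1 ∨ Fintype.card F % 10 = 9) ∧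
        (Fintype.card F = p ∨ (Fintype.card F = p ^ 2 ∧ (p % 10 = 3 ∨ p % 10 = 7))) ∧
        Nonempty (M ≃* alternatingGroup (Fin 5))) ∨
    (Fintype.card F = p ∧ (p % 8 = 3 ∨ p % 8 = 5) ∧ ¬ (p % 10 = 1 ∨ p % 10 = 9) ∧
        Nonempty (M ≃* alternatingGroup (Fin 4))) ∨
    (Fintype.card F = p ∧ (p % 8 = 1 ∨ p % 8 = 7) ∧ Nonempty (M ≃* Equiv.Perm (Fin 4))) := by
  classical
  have h2 : (2 : F) ≠ 0 := Cfsg.Agent.H44.two_ne_zero_of_odd hodd
  have hp : p.Prime := Fact.out
  have hp2 : p ≠ 2 := by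
    rintro rfl
    exact h2 CharTwo.two_eq_zero
  haveI := Cfsg.Agent.H64.MX.simple_PSL2 (F := F) (by omega)
  have hnc := Cfsg.Agent.H64.MX.noncomm_PSL2 (F := F)
  have habel : (∀ a b : M, a * b = b * a) → False := by
    intro h
    exact Cfsg.Agent.H64.MX.abelian_coatom_false hnc M hM
      (fun a ha b hb => congrArg Subtype.val (h ⟨a, ha⟩ ⟨b, hb⟩))
  have hL : IsCoatom (M.comap (mkP F)) := isCoatom_comap_mkP hM
  have hLM := map_comap_mkP M
  have hZL : (Ze : Subgroup _) ≤ M.comap (mkP F) := Ze_le_comap M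
  have hgcd : Nat.gcd 2 (Fintype.card F - 1) = 2 := by
    obtain ⟨j, hj⟩ := hodd
    have : 2 ∣ Fintype.card F - 1 := ⟨j, by omega⟩
    exact Nat.gcd_eq_left this
  obtain ⟨n, -, hn⟩ := FiniteField.card F p
  have hpq : p ∣ Fintype.card F := by
    rw [hn]; exact dvd_pow_self p (by positivity)
  by_cases hss : ∀ x ∈ M.comap (mkP F), x ∉ (Ze : Subgroup _) → tr x ^ 2 ≠ 4
  · -- all noncentral elements are semisimple
    have hnd : ¬ p ∣ Nat.card M := by
      have := not_dvd_card_of_semi p h2 _ hZL hss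
      rwa [hLM] at this
    have hD : DkP F p ↥M := DkP_congr p (MulEquiv.subgroupCongr hLM) (dk_semi _ p hZL hss)
    rcases hD with ⟨k, hk, ⟨hc, hcard⟩ | ⟨⟨f⟩⟩⟩ | ⟨P, K, hK, ⟨f⟩⟩ | ⟨⟨f⟩⟩ | ⟨⟨f⟩⟩ | ⟨⟨f⟩⟩ |
      ⟨K, i1, i2, m, hm, ⟨⟨f⟩⟩ | ⟨⟨f⟩⟩⟩
    · exfalso
      haveI := hc
      exact habel (fun a b => mul_comm' a b)
    · rcases dih_case hodd h5 M hM hss k f with h | h
      · right; left; exact h
      · right; right; left; exact h
    · exfalso
      have hcK : Nat.card K = Nat.card M := (Nat.card_congr f.toEquiv).symm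
      have hab := abelian_of_normalizer_sylow p P K hK (by rw [hcK]; exact hnd)
      apply habel
      intro a b
      apply f.injective
      rw [map_mul, map_mul]
      exact Subtype.ext (hab _ (f a).2 _ (f b).2)
    · right; right; right; right; right; right; left
      have hq := a4_card_eq p hodd M hM hss f
      have h8 := a4_mod8 hodd h5 M hM f
      have h10 := a4_mod10 hodd h5 M hM f
      rw [hq] at h8 h10
      exact ⟨hq, h8, h10, ⟨f⟩⟩
    · right; right; right; right; right; right; right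
      obtain ⟨hq, h8⟩ := s4_case p hodd M hM hss f
      exact ⟨hq, h8, ⟨f⟩⟩
    · right; right; right; right; right; left
      obtain ⟨h10, hq⟩ := a5_case p hodd h5 M hM hss f
      exact ⟨h10, hq, ⟨f⟩⟩
    · exfalso
      apply hnd
      have hpK : p ∣ Fintype.card K := by
        rw [← hm] at hpq
        exact hp.dvd_of_dvd_pow hpq
      have hc := card_PSL2_mul (F := K)
      have h3 : p ∣ Nat.gcd 2 (Fintype.card K - 1) *
          Nat.card (Matrix.ProjectiveSpecialLinearGroup (Fin 2) K) := by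
        rw [hc]; exact Dvd.dvd.mul_right hpK _
      rw [Nat.card_congr f.toEquiv]
      rcases (Nat.Prime.dvd_mul hp).1 h3 with h | h
      · exfalso
        have h4 : p ∣ 2 := h.trans (Nat.gcd_dvd_left _ _)
        exact hp2 ((Nat.prime_dvd_prime_iff_eq hp Nat.prime_two).1 h4)
      · exact h
    · exfalso
      apply hnd
      have hpK : p ∣ Fintype.card K := by
        rw [← hm] at hpq
        exact hp.dvd_of_dvd_pow hpq
      rw [Nat.card_congr f.toEquiv, Cfsg.Agent.S0806.card_PGL2' K]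
      exact Dvd.dvd.mul_right hpK _
  · -- there is a unipotent element
    push Not at hss
    obtain ⟨x₀, hx₀L, hx₀Z, htr⟩ := hss
    have key : ∃ u ∈ M.comap (mkP F), tr u = 2 ∧ u ≠ 1 := by
      have h2' : (tr x₀ - 2) * (tr x₀ + 2) = 0 := by linear_combination htr
      rcases mul_eq_zero.1 h2' with h | h
      · refine ⟨x₀, hx₀L, by linear_combination h, fun h1 => hx₀Z ?_⟩
        rw [h1]; exact Subgroup.one_mem _
      · refine ⟨-x₀, neg_mem_of_mem _ hZL hx₀L, by rw [tr_neg]; linear_combination -h, ?_⟩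
        intro h1
        apply hx₀Z
        have h3 : x₀ = -1 := by rw [← h1, neg_neg]
        rw [h3]; exact neg_one_mem_Ze
    obtain ⟨u, huL, hutr, hu1⟩ := key
    obtain ⟨g, hg, hgu⟩ := exists_conj_uT u hutr hu1
    let σ : Matrix.SpecialLinearGroup (Fin 2) F ≃* Matrix.SpecialLinearGroup (Fin 2) F :=
      MulEquiv.ofBijective (conjHom g hg)
        ⟨conjHom_injective g hg, Finite.surjective_of_injective (conjHom_injective g hg)⟩
    have hσ : ∀ x, σ x = conjHom g hg x := fun x => rfl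
    have hL₁ : IsCoatom ((M.comap (mkP F)).map σ.symm.toMonoidHom) :=
      Cfsg.Agent.H64.MX.isCoatom_map σ.symm hL
    have hZL₁ : (Ze : Subgroup _) ≤ (M.comap (mkP F)).map σ.symm.toMonoidHom := by
      intro ζ hζ
      refine ⟨σ ζ, hZL (equiv_mem_Ze σ hζ), ?_⟩
      show σ.symm (σ ζ) = ζ
      simp
    have h1 : uT (1 : F) ∈ (M.comap (mkP F)).map σ.symm.toMonoidHom := by
      refine ⟨u, huL, ?_⟩
      show σ.symm u = uT 1
      rw [← hgu, ← hσ]
      simp
    obtain ⟨e₁⟩ := transport_equiv σ.symm (M.comap (mkP F))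
    let e₀ : M ≃* ↥(((M.comap (mkP F)).map σ.symm.toMonoidHom).map (mkP F)) :=
      (MulEquiv.subgroupCongr hLM).symm.trans e₁
    rcases dk_unip_red' ((M.comap (mkP F)).map σ.symm.toMonoidHom) p hp2 hZL₁ h1 with
      hB | ⟨hp3, ⟨fA⟩⟩ | ⟨hLB, hcard⟩
    · -- the Borel subgroup
      left
      have hLB : (M.comap (mkP F)).map σ.symm.toMonoidHom = Bo := by
        by_contra hne
        exact Bo_ne_top h5 (hL₁.2 _ (lt_of_le_of_ne hB hne))
      have hc1 : Nat.card ↥((M.comap (mkP F)).map σ.symm.toMonoidHom) =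
          Fintype.card F * (Fintype.card F - 1) := by rw [hLB, card_Bo]
      have hc2 := card_map_mkP (F := F) hZL₁
      rw [card_Ze, hgcd] at hc2
      have hc3 : Nat.card M =
          Nat.card ↥(((M.comap (mkP F)).map σ.symm.toMonoidHom).map (mkP F)) :=
        Nat.card_congr e₀.toEquiv
      rw [hc3, ← hc2, hc1]
    · -- `A₅` in characteristic `3`
      right; right; right; right; right; left
      subst hp3
      have hq9 := a5_char3 hodd h5 M hM (e₀.trans fA)
      refine ⟨Or.inr (by rw [hq9]), Or.inr ⟨by rw [hq9]; norm_num, Or.inl (by norm_num)⟩,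
        ⟨e₀.trans fA⟩⟩
    · -- the subfield case
      obtain ⟨ω₀, K, hK1, hK2, hK3⟩ := Cfsg.Agent.H64.MX.struct_of_hcard _ h1 hLB hcard
      have hL₂ : IsCoatom (((M.comap (mkP F)).map σ.symm.toMonoidHom).map
          (MulAut.conj (uT (-ω₀))).toMonoidHom) :=
        Cfsg.Agent.H64.MX.isCoatom_map (MulAut.conj (uT (-ω₀))) hL₁
      have hZL₂ : (Ze : Subgroup _) ≤ ((M.comap (mkP F)).map σ.symm.toMonoidHom).map
          (MulAut.conj (uT (-ω₀))).toMonoidHom := by
        intro ζ hζ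
        refine ⟨(MulAut.conj (uT (-ω₀))).symm ζ,
          hZL₁ (equiv_mem_Ze (MulAut.conj (uT (-ω₀))).symm hζ), ?_⟩
        exact MulEquiv.apply_symm_apply (MulAut.conj (uT (-ω₀))) ζ
      obtain ⟨e₂⟩ := transport_equiv (MulAut.conj (uT (-ω₀)))
        ((M.comap (mkP F)).map σ.symm.toMonoidHom)
      rcases field_case_odd p hodd _ hL₂ hZL₂ K hK1 hK2 hK3 with
        ⟨F₀, i1, i2, hq, ⟨f⟩⟩ | ⟨F₀, i1, i2, r, hr, hro, hq, ⟨f⟩⟩
      · right; right; right; left
        exact ⟨F₀, i1, i2, hq, ⟨(e₀.trans e₂).trans f⟩⟩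
      · right; right; right; right; left
        exact ⟨F₀, i1, i2, r, hr, hro, hq, ⟨(e₀.trans e₂).trans f⟩⟩

end Cfsg.Agent.H18.Dk
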