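import Mathlib
import Cfsg.Agent.H34.PgDefs
import Cfsg.Agent.H62.PSU3a

/-!
# S3663 team project (helper34): piece PG-EX (helper18)

Elements of order 10 and 15 in `SU₃(4)` (explicit matrices over the concrete `GF(16)`).
-/

set_option autoImplicit false

namespace Cfsg.Agent.H18.PG

open Cfsg.Agent.H34.PG Matrix

/-- a unitary matrix of order 10 -/
def M10 : Matrix (Fin 3) (Fin 3) K :=
  !![kk 6, kk 15, kk 5; kk 2, kk 13, kk 10; kk 0, kk 2, kk 4]

/-- a unitary matrix of order 15 -/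
def M15 : Matrix (Fin 3) (Fin 3) K :=
  !![kk 0, kk 2, kk 4; kk 0, kk 5, kk 3; kk 1, kk 0, kk 0]

theorem M10_isU3 : Cfsg.Agent.H62.IsU3 (2 ^ 2) M10 := by
  constructor <;> decide +kernel

theorem M15_isU3 : Cfsg.Agent.H62.IsU3 (2 ^ 2) M15 := by
  constructor <;> decide +kernel

/-- the element of order 10 -/
def g10 : G := Cfsg.Agent.H62.mkSU3 2 2 M10 M10_isU3

/-- the element of order 15 -/
def g15 : G := Cfsg.Agent.H62.mkSU3 2 2 M15 M15_isU3

theorem g10_pow (N : ℕ) : ((g10 ^ N).1.1 : Matrix (Fin 3) (Fin 3) K) = M10 ^ N :=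
  Cfsg.Agent.H62.su3_coe_pow 4 g10 N

theorem g15_pow (N : ℕ) : ((g15 ^ N).1.1 : Matrix (Fin 3) (Fin 3) K) = M15 ^ N :=
  Cfsg.Agent.H62.su3_coe_pow 4 g15 N

theorem pow_eq_one_iff_mat (g : G) (N : ℕ) :
    g ^ N = 1 ↔ ((g ^ N).1.1 : Matrix (Fin 3) (Fin 3) K) = 1 := by
  constructor
  · intro h
    rw [h]
    rfl
  · intro h
    exact Subtype.ext (Subtype.ext h)

theorem orderOf_g10 : orderOf g10 = 10 := by
  apply orderOf_eq_of_pow_and_pow_div_prime (by norm_num)
  · rw [pow_eq_one_iff_mat, g10_pow]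
    decide +kernel
  · intro p hp hpd
    have h1 : p ∣ 2 * 5 := hpd
    rcases (Nat.Prime.dvd_mul hp).mp h1 with h | h
    · have hp2 : p = 2 := (Nat.prime_dvd_prime_iff_eq hp Nat.prime_two).mp h
      subst hp2
      rw [Ne, pow_eq_one_iff_mat, g10_pow]
      decide +kernel
    · have hp5 : p = 5 := (Nat.prime_dvd_prime_iff_eq hp Nat.prime_five).mp h
      subst hp5
      rw [Ne, pow_eq_one_iff_mat, g10_pow]
      decide +kernel

theorem orderOf_g15 : orderOf g15 = 15 := by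
  apply orderOf_eq_of_pow_and_pow_div_prime (by norm_num)
  · rw [pow_eq_one_iff_mat, g15_pow]
    decide +kernel
  · intro p hp hpd
    have h1 : p ∣ 3 * 5 := hpd
    rcases (Nat.Prime.dvd_mul hp).mp h1 with h | h
    · have hp3 : p = 3 := (Nat.prime_dvd_prime_iff_eq hp Nat.prime_three).mp h
      subst hp3
      rw [Ne, pow_eq_one_iff_mat, g15_pow]
      decide +kernel
    · have hp5 : p = 5 := (Nat.prime_dvd_prime_iff_eq hp Nat.prime_five).mp h
      subst hp5
      rw [Ne, pow_eq_one_iff_mat, g15_pow]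
      decide +kernel

/-- **PG-EX**. -/
theorem ex : StEx := ⟨⟨g10, orderOf_g10⟩, ⟨g15, orderOf_g15⟩⟩

example : Cfsg.Agent.H34.PG.StEx := Cfsg.Agent.H18.PG.ex

end Cfsg.Agent.H18.PG
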