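import Mathlib
import Cfsg.Agent.H34.PgDefs

/-!
# S3663 team project (helper34): piece PG-FPF (helper18)

Elements of order 13 of `SU₃(4)` have no non-zero fixed vector on the Weil module (Sylow
conjugacy reduces to one element `g₀`).
-/

set_option autoImplicit false

namespace Cfsg.Agent.H18.PG

open Cfsg.Agent.H34.PG Matrix
open scoped Pointwise

theorem mat_pow (g : G) (n : ℕ) : mat (g ^ n) = mat g ^ n := by
  induction n with
  | zero => rw [pow_zero, pow_zero, mat_one]
  | succ n ih => rw [pow_succ, pow_succ, mat_mul, ih]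

/-- the stabiliser of a vector of the Weil module -/
def stabV (v : ↥VV) : Subgroup G where
  carrier := {x | actV x v = v}
  one_mem' := actV_one v
  mul_mem' := by
    intro a b ha hb
    show actV (a * b) v = v
    rw [actV_mul, hb, ha]
  inv_mem' := by
    intro a ha
    show actV a⁻¹ v = v
    have h1 : actV a⁻¹ (actV a v) = v := by
      rw [← actV_mul, inv_mul_cancel, actV_one]
    rw [ha] at h1
    exact h1

theorem mem_stabV (v : ↥VV) (x : G) : x ∈ stabV v ↔ actV x v = v := Iff.rfl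

/-- the cyclic group generated by an element of order 13 is a Sylow 13-subgroup -/
theorem fpf_sylow (hC : StCard) (g : G) (hg : orderOf g = 13) :
    ∃ P : Sylow 13 G, (P : Subgroup G) = Subgroup.zpowers g := by
  have : Fact (Nat.Prime 13) := ⟨by norm_num⟩
  have hcard : Nat.card (Subgroup.zpowers g) = 13 := by rw [Nat.card_zpowers, hg]
  have hp : IsPGroup 13 (Subgroup.zpowers g) :=
    IsPGroup.of_card (n := 1) (by rw [hcard, pow_one])
  obtain ⟨P, hP⟩ := hp.exists_le_sylow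
  refine ⟨P, ?_⟩
  obtain ⟨k, hk⟩ := IsPGroup.iff_card.mp P.isPGroup'
  have hdvd : Nat.card P ∣ Nat.card G := Subgroup.card_subgroup_dvd_card _
  have hC' : Nat.card G = 62400 := hC
  rw [hk, hC'] at hdvd
  have hk1 : k ≤ 1 := by
    by_contra h
    have h1 : 13 ^ 2 ∣ 13 ^ k := pow_dvd_pow 13 (by omega)
    have h2 := h1.trans hdvd
    norm_num at h2
  have hle : Nat.card P ≤ 13 := by
    rw [hk]
    calc 13 ^ k ≤ 13 ^ 1 := Nat.pow_le_pow_right (by norm_num) hk1
      _ = 13 := by norm_num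
  exact (Subgroup.eq_of_le_of_card_ge hP (by rw [hcard]; exact hle)).symm

/-- **PG-FPF**. -/
theorem fpf (hC : StCard) (h0 : StFix0) : StFpf := by
  intro g hg v hv
  have : Fact (Nat.Prime 13) := ⟨by norm_num⟩
  obtain ⟨g₀, hg₀, hconst⟩ := h0
  obtain ⟨P, hP⟩ := fpf_sylow hC g hg
  obtain ⟨P₀, hP₀⟩ := fpf_sylow hC g₀ hg₀
  obtain ⟨h, hh⟩ := MulAction.exists_smul_eq G P P₀
  -- `g₀ = h s h⁻¹` with `s` a power of `g`
  have h1 : g₀ ∈ (P₀ : Subgroup G) := by
    rw [hP₀]
    exact Subgroup.mem_zpowers g₀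
  rw [← hh, Sylow.coe_subgroup_smul, Subgroup.mem_smul_pointwise_iff_exists] at h1
  obtain ⟨s, hs, hsg⟩ := h1
  rw [hP] at hs
  have hsv : actV s v = v :=
    (Subgroup.zpowers_le.mpr ((mem_stabV v g).mpr hv)) hs
  have hsg' : g₀ = h * s * h⁻¹ := by
    rw [← hsg]
    rfl
  -- `w = h v` is fixed by `g₀`
  obtain ⟨w, hw⟩ : ∃ w : ↥VV, w = actV h v := ⟨_, rfl⟩
  have hwfix : actV g₀ w = w := by
    rw [hw, hsg', ← actV_mul, inv_mul_cancel_right, actV_mul, hsv]
  obtain ⟨f, hf, hwf⟩ := w.2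
  have hfix : actF g₀ (dl f) = dl f := by
    have h2 := congrArg Subtype.val hwfix
    rw [actV_coe, hwf] at h2
    exact h2
  -- `f (M x) - f (M y) = f x - f y` on isotropic vectors, `M = mat g₀⁻¹`
  have hdiff : ∀ x y : E, IsoV x → IsoV y →
      f (mat g₀⁻¹ *ᵥ x) - f (mat g₀⁻¹ *ᵥ y) = f x - f y := by
    intro x y hx hy
    have h2 := congrFun (congrFun hfix x) y
    rw [actF_apply] at h2
    unfold dl at h2
    rw [if_pos ⟨(isoV_mat g₀⁻¹ x).mpr hx, (isoV_mat g₀⁻¹ y).mpr hy⟩, if_pos ⟨hx, hy⟩] at h2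
    exact h2
  have hM13 : mat g₀⁻¹ ^ 13 = 1 := by
    rw [← mat_pow, inv_pow, ← hg₀, pow_orderOf_eq_one, inv_one, mat_one]
  -- `f ∘ M = f`
  have hfM : ∀ x : E, f (mat g₀⁻¹ *ᵥ x) = f x := by
    intro x
    by_cases hx : IsoV x
    · have hc : ∀ y : E, IsoV y → f (mat g₀⁻¹ *ᵥ y) = f y + (f (mat g₀⁻¹ *ᵥ x) - f x) := by
        intro y hy
        have h2 := hdiff y x hy hx
        linear_combination h2
      have hiter : ∀ (n : ℕ) (y : E), IsoV y →
          f ((mat g₀⁻¹ ^ n) *ᵥ y) = f y + n * (f (mat g₀⁻¹ *ᵥ x) - f x) := by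
        intro n
        induction n with
        | zero =>
          intro y _
          rw [pow_zero, Matrix.one_mulVec, Nat.cast_zero, zero_mul, add_zero]
        | succ n ih =>
          intro y hy
          rw [pow_succ, ← Matrix.mulVec_mulVec, ih _ ((isoV_mat g₀⁻¹ y).mpr hy), hc y hy]
          push_cast
          ring
      have h13 := hiter 13 x hx
      rw [hM13, Matrix.one_mulVec] at h13
      have hc0 : f (mat g₀⁻¹ *ᵥ x) - f x = 0 := by
        have h3 : ((13 : ℕ) : ZMod 5) * (f (mat g₀⁻¹ *ᵥ x) - f x) = 0 := by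
          linear_combination -h13
        generalize f (mat g₀⁻¹ *ᵥ x) - f x = c at h3
        revert c
        decide
      exact sub_eq_zero.mp hc0
    · rw [hf.1 x hx, hf.1 _ (fun hc => hx ((isoV_mat g₀⁻¹ x).mp hc))]
  have hfg : ∀ x : E, f (mat g₀ *ᵥ x) = f x := by
    intro x
    have h2 := hfM (mat g₀ *ᵥ x)
    rw [Matrix.mulVec_mulVec, mat_inv_mul, Matrix.one_mulVec] at h2
    exact h2.symm
  have hcst := hconst f hf hfg
  have hdl : dl f = 0 := by
    funext x y
    unfold dl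
    split_ifs with hxy
    · rw [hcst x y hxy.1 hxy.2, sub_self]
      rfl
    · rfl
  have hw0 : w = 0 := by
    apply Subtype.ext
    rw [hwf, hdl]
    rfl
  have hv0 : actV h⁻¹ (actV h v) = v := by
    rw [← actV_mul, inv_mul_cancel, actV_one]
  rw [← hw, hw0, actV_zero] at hv0
  exact hv0.symm

example (hC : Cfsg.Agent.H34.PG.StCard) (h0 : Cfsg.Agent.H34.PG.StFix0) :
    Cfsg.Agent.H34.PG.StFpf := Cfsg.Agent.H18.PG.fpf hC h0

end Cfsg.Agent.H18.PG
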