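import Mathlib
import Cfsg.Agent.H18.DkMx8

/-!
# Maximal subgroups of `PGL(2, q)`, `q` odd: foundations (helper18)
-/

set_option autoImplicit false
set_option linter.unusedSectionVars false
set_option linter.unusedVariables false
set_option linter.deprecated false
set_option linter.unusedSimpArgs false
set_option linter.style.haveILetI false
set_option linter.unnecessarySeqFocus false

namespace Cfsg.Agent.H18.Pg

open Matrix Cfsg.Agent.H65.SL2 Cfsg.Agent.H29.Dk Cfsg.Agent.H18.Dk

variable {F : Type*} [Field F]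

/-- The natural map `SL(2, F) → PGL(2, F)`. -/
noncomputable def piG (F : Type*) [Field F] :
    Matrix.SpecialLinearGroup (Fin 2) F →* Matrix.ProjGenLinGroup (Fin 2) F :=
  Matrix.ProjGenLinGroup.mk.comp Matrix.SpecialLinearGroup.toGL

theorem piG_apply (x : Matrix.SpecialLinearGroup (Fin 2) F) :
    piG F x = Matrix.ProjGenLinGroup.mk (Matrix.SpecialLinearGroup.toGL x) := rfl

theorem piG_eq (x : Matrix.SpecialLinearGroup (Fin 2) F) :
    piG F x = Matrix.ProjectiveSpecialLinearGroup.toPGL (mkP F x) := rfl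

theorem piG_range : (piG F).range =
    (Matrix.ProjectiveSpecialLinearGroup.toPGL (n := Fin 2) (R := F)).range := by
  ext y
  constructor
  · rintro ⟨x, rfl⟩; exact ⟨mkP F x, rfl⟩
  · rintro ⟨x', rfl⟩
    obtain ⟨x, rfl⟩ := mkP_surjective x'
    exact ⟨x, rfl⟩

theorem piG_eq_one_iff {x : Matrix.SpecialLinearGroup (Fin 2) F} :
    piG F x = 1 ↔ x ∈ (Ze : Subgroup _) := by
  rw [piG_eq, ← mkP_eq_one_iff]
  constructor
  · intro h
    exact Matrix.ProjectiveSpecialLinearGroup.toPGL_injective (by rw [h, map_one])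
  · intro h; rw [h, map_one]

theorem piG_eq_iff {x y : Matrix.SpecialLinearGroup (Fin 2) F} :
    piG F x = piG F y ↔ x⁻¹ * y ∈ (Ze : Subgroup _) := by
  rw [← piG_eq_one_iff, map_mul, map_inv, inv_mul_eq_one]

theorem piG_neg (x : Matrix.SpecialLinearGroup (Fin 2) F) : piG F (-x) = piG F x := by
  rw [eq_comm, piG_eq_iff]
  have : x⁻¹ * -x = -1 := by rw [mul_neg, inv_mul_cancel]
  rw [this]; exact neg_one_mem_Ze

theorem piG_eq_cases {x y : Matrix.SpecialLinearGroup (Fin 2) F} (h : piG F x = piG F y) :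
    y = x ∨ y = -x := by
  rw [piG_eq_iff, mem_Ze_iff] at h
  rcases h with h | h
  · left
    have : y = x * (x⁻¹ * y) := by group
    rw [this, h, mul_one]
  · right
    have : y = x * (x⁻¹ * y) := by group
    rw [this, h, mul_neg, mul_one]

theorem mk_mem_LG_iff (g : GL (Fin 2) F) :
    Matrix.ProjGenLinGroup.mk g ∈ (piG F).range ↔ IsSquare (g.val.det) := by
  rw [piG_range]; exact mk_mem_range_iff g

theorem gl_det_conj (a b : GL (Fin 2) F) : (b * a * b⁻¹).val.det = a.val.det := by
  have h : Matrix.GeneralLinearGroup.det (b * a * b⁻¹) = Matrix.GeneralLinearGroup.det a := by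
    rw [map_mul, map_mul, map_inv, mul_comm, ← mul_assoc, inv_mul_cancel, one_mul]
  exact congrArg Units.val h

theorem LG_normal : ((piG F).range).Normal := by
  constructor
  intro n hn g
  induction n using Matrix.ProjGenLinGroup.induction_on with | mk a =>
  induction g using Matrix.ProjGenLinGroup.induction_on with | mk b =>
  rw [← map_inv, ← map_mul, ← map_mul, mk_mem_LG_iff, gl_det_conj]
  exact (mk_mem_LG_iff a).1 hn

theorem sq_mem_LG (m : Matrix.ProjGenLinGroup (Fin 2) F) : m * m ∈ (piG F).range := by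
  induction m using Matrix.ProjGenLinGroup.induction_on with | mk a =>
  rw [← map_mul, mk_mem_LG_iff]
  exact ⟨a.val.det, by rw [Units.val_mul, Matrix.det_mul]⟩

theorem mem_LG_of_odd_order (m : Matrix.ProjGenLinGroup (Fin 2) F) (h : Odd (orderOf m)) :
    m ∈ (piG F).range := by
  obtain ⟨k, hk⟩ := h
  have h1 : m = (m * m) ^ (k + 1) := by
    rw [← pow_two, ← pow_mul]
    have : 2 * (k + 1) = orderOf m + 1 := by omega
    rw [this, pow_succ, pow_orderOf_eq_one, one_mul]
  rw [h1]
  exact Subgroup.pow_mem _ (sq_mem_LG m) _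

theorem conj_mem_LG_iff (c l : Matrix.ProjGenLinGroup (Fin 2) F) :
    c * l * c⁻¹ ∈ (piG F).range ↔ l ∈ (piG F).range := by
  haveI := LG_normal (F := F)
  constructor
  · intro h
    have := (LG_normal (F := F)).conj_mem _ h c⁻¹
    have e : c⁻¹ * (c * l * c⁻¹) * c⁻¹⁻¹ = l := by group
    rwa [e] at this
  · intro h
    exact (LG_normal (F := F)).conj_mem _ h c

theorem mem_map_piG {X : Subgroup (Matrix.SpecialLinearGroup (Fin 2) F)}
    (hZ : (Ze : Subgroup _) ≤ X) {g : Matrix.SpecialLinearGroup (Fin 2) F} :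
    piG F g ∈ X.map (piG F) ↔ g ∈ X := by
  constructor
  · rintro ⟨k, hk, hkg⟩
    have h1 := piG_eq_iff.1 hkg
    have h2 : g = k * (k⁻¹ * g) := by group
    rw [h2]; exact X.mul_mem hk (hZ h1)
  · intro hg; exact Subgroup.mem_map_of_mem _ hg

theorem Ze_le_comap_piG (M : Subgroup (Matrix.ProjGenLinGroup (Fin 2) F)) :
    (Ze : Subgroup _) ≤ M.comap (piG F) := by
  intro g hg
  rw [Subgroup.mem_comap, piG_eq_one_iff.2 hg]
  exact M.one_mem

theorem map_comap_piG (M : Subgroup (Matrix.ProjGenLinGroup (Fin 2) F)) :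
    (M.comap (piG F)).map (piG F) = M ⊓ (piG F).range := by
  rw [Subgroup.map_comap_eq, inf_comm]

/-- Lifting a conjugation relation in `PGL₂` to matrices. -/
theorem lift_conj (g : GL (Fin 2) F) (x y : Matrix.SpecialLinearGroup (Fin 2) F)
    (h : Matrix.ProjGenLinGroup.mk g * piG F x * (Matrix.ProjGenLinGroup.mk g)⁻¹ = piG F y) :
    ∃ y' : Matrix.SpecialLinearGroup (Fin 2) F, (y' = y ∨ y' = -y) ∧ g.1 * x.1 = y'.1 * g.1 := by
  rw [piG_apply, piG_apply, ← map_inv, ← map_mul, ← map_mul,
    Matrix.ProjGenLinGroup.mk_eq_mk_iff] at h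
  obtain ⟨u, hu⟩ := h
  have h1 : g * Matrix.SpecialLinearGroup.toGL x =
      Matrix.SpecialLinearGroup.toGL y * (Matrix.GeneralLinearGroup.scalar (Fin 2) u)⁻¹ * g := by
    rw [← hu]; group
  have h2 : g.1 * x.1 = (u⁻¹ : Fˣ).1 • (y.1 * g.1) := by
    have h3 := congrArg (fun M : GL (Fin 2) F => M.1) h1
    rw [← map_inv] at h3
    simp only [Units.val_mul, GeneralLinearGroup.coe_scalar] at h3
    have e1 : (Matrix.SpecialLinearGroup.toGL x).1 = x.1 := rfl
    have e2 : (Matrix.SpecialLinearGroup.toGL y).1 = y.1 := rfl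
    rw [e1, e2] at h3
    rw [h3]
    ext i j
    simp [Matrix.mul_apply, Matrix.scalar_apply, Matrix.diagonal_apply, Fin.sum_univ_two,
      Matrix.smul_apply]
    fin_cases i <;> fin_cases j <;> simp <;> ring
  have hdet := congrArg Matrix.det h2
  rw [Matrix.det_mul, Matrix.det_smul, Matrix.det_mul, x.det_coe, y.det_coe, Fintype.card_fin,
    mul_one, one_mul] at hdet
  have hg0 : g.1.det ≠ 0 := gl_det_ne_zero g
  have hv : ((u⁻¹ : Fˣ).1 - 1) * ((u⁻¹ : Fˣ).1 + 1) = 0 := by
    have : ((u⁻¹ : Fˣ).1 ^ 2 - 1) * g.1.det = 0 := by linear_combination -hdet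
    rcases mul_eq_zero.1 this with h | h
    · linear_combination h
    · exact absurd h hg0
  rcases mul_eq_zero.1 hv with h | h
  · refine ⟨y, Or.inl rfl, ?_⟩
    rw [h2, sub_eq_zero.1 h, one_smul]
  · refine ⟨-y, Or.inr rfl, ?_⟩
    rw [h2, eq_neg_of_add_eq_zero_left h, Matrix.SpecialLinearGroup.coe_neg]
    simp

/-- The converse: a matrix intertwining relation gives a conjugation relation in `PGL₂`. -/
theorem conj_of_lift (g : GL (Fin 2) F) (x y : Matrix.SpecialLinearGroup (Fin 2) F)
    (h : g.1 * x.1 = y.1 * g.1) :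
    Matrix.ProjGenLinGroup.mk g * piG F x * (Matrix.ProjGenLinGroup.mk g)⁻¹ = piG F y := by
  have h1 : g * Matrix.SpecialLinearGroup.toGL x = Matrix.SpecialLinearGroup.toGL y * g :=
    Units.ext h
  rw [piG_apply, piG_apply, ← map_mul, h1, map_mul, mul_inv_cancel_right]

theorem piG_conjHom (P : Matrix (Fin 2) (Fin 2) F) (hP : P.det ≠ 0)
    (x : Matrix.SpecialLinearGroup (Fin 2) F) :
    piG F (conjHom P hP x) =
      Matrix.ProjGenLinGroup.mk (GeneralLinearGroup.mkOfDetNeZero P hP) * piG F x *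
        (Matrix.ProjGenLinGroup.mk (GeneralLinearGroup.mkOfDetNeZero P hP))⁻¹ := by
  symm
  apply conj_of_lift
  show P * x.1 = (conjHom P hP x).1 * P
  rw [conjHom_coe, Matrix.mul_assoc, Matrix.nonsing_inv_mul P (isUnit_iff_ne_zero.2 hP),
    Matrix.mul_one]

section Finite

variable [Fintype F]

theorem card_LG (hodd : Odd (Fintype.card F)) :
    2 * Nat.card ↥((piG F).range) = Fintype.card F * (Fintype.card F ^ 2 - 1) := by
  rw [← card_PSL2_odd hodd, piG_range]
  congr 1
  exact (Nat.card_congr (MonoidHom.ofInjective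
    (Matrix.ProjectiveSpecialLinearGroup.toPGL_injective (n := Fin 2) (R := F))).toEquiv).symm

theorem finite_PGL : Finite (Matrix.ProjGenLinGroup (Fin 2) F) :=
  Finite.of_surjective _ Matrix.ProjGenLinGroup.mk_surjective

theorem card_pos_LG : 0 < Nat.card ↥((piG F).range) := by
  haveI := finite_PGL (F := F)
  exact Nat.card_pos

theorem index_LG (hodd : Odd (Fintype.card F)) : ((piG F).range).index = 2 := by
  have h1 := Subgroup.card_mul_index ((piG F).range)
  rw [Cfsg.Agent.S0806.card_PGL2' F, ← card_LG hodd] at h1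
  have hpos := card_pos_LG (F := F)
  have : Nat.card ↥((piG F).range) * ((piG F).range).index = Nat.card ↥((piG F).range) * 2 := by
    rw [h1]; ring
  exact Nat.eq_of_mul_eq_mul_left hpos this

/-- A subgroup not inside `PSL₂` meets it in a subgroup of index two. -/
theorem card_of_not_le (hodd : Odd (Fintype.card F))
    (X : Subgroup (Matrix.ProjGenLinGroup (Fin 2) F)) (hX : ¬ X ≤ (piG F).range) :
    Nat.card X = 2 * Nat.card (X ⊓ (piG F).range : Subgroup _) := by
  haveI := LG_normal (F := F)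
  have h1 : ((piG F).range).relIndex X ∣ 2 := by
    have := Subgroup.relIndex_dvd_index_of_normal ((piG F).range) X
    rwa [index_LG hodd] at this
  have h2 : ((piG F).range).relIndex X ≠ 1 := by
    intro h; exact hX (Subgroup.relIndex_eq_one.1 h)
  have h3 : ((piG F).range).relIndex X = 2 := by
    rcases (Nat.dvd_prime Nat.prime_two).1 h1 with h | h
    · exact absurd h h2
    · exact h
  have h4 := Subgroup.card_mul_index (((piG F).range).subgroupOf X)
  have h5 : (((piG F).range).subgroupOf X).index = 2 := h3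
  have h6 : Nat.card (((piG F).range).subgroupOf X) =
      Nat.card (X ⊓ (piG F).range : Subgroup _) := by
    rw [← Subgroup.inf_subgroupOf_left]
    exact Nat.card_congr (Subgroup.subgroupOfEquivOfLe inf_le_left).toEquiv
  rw [h5, h6] at h4
  rw [← h4, mul_comm]

theorem card_map_piG (hodd : Odd (Fintype.card F))
    {X : Subgroup (Matrix.SpecialLinearGroup (Fin 2) F)} (hZ : (Ze : Subgroup _) ≤ X) :
    Nat.card X = 2 * Nat.card (X.map (piG F)) := by
  have h1 := card_map_mkP hZ
  have hZ2 : Nat.card (Ze : Subgroup (Matrix.SpecialLinearGroup (Fin 2) F)) = 2 := by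
    rw [card_Ze]
    obtain ⟨j, hj⟩ := hodd
    rw [hj, Nat.add_sub_cancel]
    simp
  rw [hZ2] at h1
  rw [h1]
  congr 1
  have e : X.map (piG F) = (X.map (mkP F)).map
      (Matrix.ProjectiveSpecialLinearGroup.toPGL (n := Fin 2) (R := F)) := by
    rw [Subgroup.map_map]; rfl
  rw [e]
  exact Nat.card_congr ((X.map (mkP F)).equivMapOfInjective _
    Matrix.ProjectiveSpecialLinearGroup.toPGL_injective).toEquiv

/-- A nontrivial subgroup of `PSL₂` normalised by `PSL₂` is all of it. -/
theorem LG_le_of_normalized (h4 : 4 ≤ Fintype.card F)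
    (N : Subgroup (Matrix.ProjGenLinGroup (Fin 2) F)) (hNL : N ≤ (piG F).range) (hN : N ≠ ⊥)
    (hnorm : (piG F).range ≤ Subgroup.normalizer (N : Set (Matrix.ProjGenLinGroup (Fin 2) F))) :
    (piG F).range ≤ N := by
  haveI := Cfsg.Agent.H64.MX.simple_PSL2 (F := F) h4
  have hnormal : (N.comap
      (Matrix.ProjectiveSpecialLinearGroup.toPGL (n := Fin 2) (R := F))).Normal := by
    constructor
    intro x hx g
    rw [Subgroup.mem_comap] at hx ⊢
    rw [map_mul, map_mul, map_inv]
    have hg : Matrix.ProjectiveSpecialLinearGroup.toPGL g ∈ (piG F).range := by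
      rw [piG_range]; exact ⟨g, rfl⟩
    exact (Subgroup.mem_normalizer_iff.1 (hnorm hg) _).1 hx
  rcases hnormal.eq_bot_or_eq_top with h | h
  · exfalso
    apply hN
    rw [eq_bot_iff]
    intro n hn
    have hnL := hNL hn
    rw [piG_range] at hnL
    obtain ⟨x, rfl⟩ := hnL
    have hx : x ∈ N.comap
        (Matrix.ProjectiveSpecialLinearGroup.toPGL (n := Fin 2) (R := F)) := hn
    rw [h, Subgroup.mem_bot] at hx
    rw [hx, map_one]; exact Subgroup.mem_bot.2 rfl
  · intro l hl
    rw [piG_range] at hl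
    obtain ⟨x, rfl⟩ := hl
    have hx : x ∈ N.comap
        (Matrix.ProjectiveSpecialLinearGroup.toPGL (n := Fin 2) (R := F)) := by
      rw [h]; trivial
    exact hx

/-- In a maximal subgroup `M`, a nontrivial proper subgroup of `PSL₂` normalised by `M` has
normaliser exactly `M`. -/
theorem normalizer_eq_of_coatom (h4 : 4 ≤ Fintype.card F)
    {M N : Subgroup (Matrix.ProjGenLinGroup (Fin 2) F)} (hM : IsCoatom M)
    (hNL : N ≤ (piG F).range) (hN : N ≠ ⊥) (hLN : ¬ (piG F).range ≤ N)
    (hMN : M ≤ Subgroup.normalizer (N : Set (Matrix.ProjGenLinGroup (Fin 2) F))) :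
    Subgroup.normalizer (N : Set (Matrix.ProjGenLinGroup (Fin 2) F)) = M := by
  by_contra hne
  have hlt : M < Subgroup.normalizer (N : Set _) := lt_of_le_of_ne hMN (Ne.symm hne)
  have htop := hM.2 _ hlt
  apply hLN
  apply LG_le_of_normalized h4 N hNL hN
  rw [htop]; exact le_top

theorem LG_noncomm : ∃ a ∈ (piG F).range, ∃ b ∈ (piG F).range, a * b ≠ b * a := by
  refine ⟨piG F (uT 1), ⟨_, rfl⟩, piG F (lT 1), ⟨_, rfl⟩, ?_⟩
  intro hc
  rw [← map_mul, ← map_mul, piG_eq_iff, mem_Ze] at hc
  have h1 := hc.1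
  simp only [mul10, mul00, inv10, inv11, uT00, uT01, uT10, uT11,
    lT00, lT01, lT10, lT11] at h1
  norm_num at h1

/-- A maximal subgroup not containing `PSL₂` is not contained in it. -/
theorem not_le_LG (hodd : Odd (Fintype.card F))
    {M : Subgroup (Matrix.ProjGenLinGroup (Fin 2) F)} (hM : IsCoatom M)
    (hML : ¬ (piG F).range ≤ M) : ¬ M ≤ (piG F).range := by
  intro h
  have hne : M ≠ (piG F).range := by
    intro h'; apply hML; rw [h']
  have := hM.2 _ (lt_of_le_of_ne h hne)
  have h2 := index_LG (F := F) hodd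
  rw [this, Subgroup.index_top] at h2
  omega

end Finite

/-! ### Conjugating a maximal subgroup -/

theorem not_le_conj {M : Subgroup (Matrix.ProjGenLinGroup (Fin 2) F)}
    (hML : ¬ (piG F).range ≤ M) (c : Matrix.ProjGenLinGroup (Fin 2) F) :
    ¬ (piG F).range ≤ M.map (MulAut.conj c).toMonoidHom := by
  intro h
  apply hML
  intro l hl
  have h1 : c * l * c⁻¹ ∈ M.map (MulAut.conj c).toMonoidHom :=
    h ((conj_mem_LG_iff c l).2 hl)
  rw [mem_map_conj_iff] at h1
  have e : c⁻¹ * (c * l * c⁻¹) * c = l := by group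
  rwa [e] at h1

theorem conj_equiv (M : Subgroup (Matrix.ProjGenLinGroup (Fin 2) F))
    (c : Matrix.ProjGenLinGroup (Fin 2) F) :
    Nonempty (↥M ≃* ↥(M.map (MulAut.conj c).toMonoidHom)) :=
  ⟨M.equivMapOfInjective _ (MulAut.conj c).injective⟩

theorem mem_conj_of_mem {M : Subgroup (Matrix.ProjGenLinGroup (Fin 2) F)}
    (c : Matrix.ProjGenLinGroup (Fin 2) F) {x : Matrix.ProjGenLinGroup (Fin 2) F} (hx : x ∈ M) :
    c * x * c⁻¹ ∈ M.map (MulAut.conj c).toMonoidHom := by
  rw [mem_map_conj_iff]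
  have e : c⁻¹ * (c * x * c⁻¹) * c = x := by group
  rwa [e]

end Cfsg.Agent.H18.Pg
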