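import Mathlib
import Cfsg.Agent.H18.Pgl1

/-!
# Maximal subgroups of `PGL(2, q)`, `q` odd: abelian and dihedral subgroups (helper18)
-/

set_option autoImplicit false
set_option linter.unusedSectionVars false
set_option linter.unusedVariables false
set_option linter.deprecated false
set_option linter.unusedSimpArgs false
set_option linter.style.haveILetI false
set_option linter.unnecessarySeqFocus false

namespace Cfsg.Agent.H18.Pg

open Matrix Cfsg.Agent.H65.SL2 Cfsg.Agent.H29.Dk Cfsg.Agent.H18.Dk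

/-- Burnside's transfer theorem for a self-normalising abelian `2`-subgroup. -/
theorem sn2_complement {G : Type*} [Group G] [Finite G] (H : Subgroup G) (hH : IsPGroup 2 H)
    (hab : ∀ a ∈ H, ∀ b ∈ H, a * b = b * a)
    (hN : Subgroup.normalizer (H : Set G) ≤ H) :
    ∃ K : Subgroup G, K.Normal ∧ Nat.card K * Nat.card H = Nat.card G := by
  classical
  haveI : Fact (Nat.Prime 2) := ⟨Nat.prime_two⟩
  obtain ⟨n, hn⟩ := IsPGroup.iff_card.1 hH
  have hnd : ¬ 2 ^ (n + 1) ∣ Nat.card G := by
    intro hdvd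
    obtain ⟨K, hK, hHK⟩ := Sylow.exists_subgroup_card_pow_succ hdvd hn
    have hidx : (H.subgroupOf K).index = 2 := by
      have h1 := Subgroup.card_mul_index (H.subgroupOf K)
      have h2 : Nat.card (H.subgroupOf K) = Nat.card H :=
        Nat.card_congr (Subgroup.subgroupOfEquivOfLe hHK).toEquiv
      rw [h2, hn, hK, pow_succ] at h1
      exact Nat.eq_of_mul_eq_mul_left (by positivity) h1
    haveI := Subgroup.normal_of_index_eq_two hidx
    have hKN : K ≤ Subgroup.normalizer (H : Set G) :=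
      Subgroup.le_normalizer_of_normal_subgroupOf hHK
    have hKH : K ≤ H := hKN.trans hN
    have h5 := Subgroup.card_le_of_le hKH
    rw [hK, hn, pow_succ] at h5
    have : 0 < 2 ^ n := by positivity
    omega
  have hG0 : Nat.card G ≠ 0 := Nat.card_pos.ne'
  have hfac : (Nat.card G).factorization 2 = n := by
    have h1 : 2 ^ n ∣ Nat.card G := by rw [← hn]; exact Subgroup.card_subgroup_dvd_card H
    have h2 := (Nat.Prime.pow_dvd_iff_le_factorization Nat.prime_two hG0).1 h1
    have h3 : ¬ n + 1 ≤ (Nat.card G).factorization 2 := fun h =>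
      hnd ((Nat.Prime.pow_dvd_iff_le_factorization Nat.prime_two hG0).2 h)
    omega
  let P : Sylow 2 G := Sylow.ofCard H (by rw [hn, hfac])
  have hPH : (P : Subgroup G) = H := Sylow.coe_ofCard H _
  have hP : Subgroup.normalizer ((P : Subgroup G) : Set G) ≤
      Subgroup.centralizer ((P : Subgroup G) : Set G) := by
    rw [hPH]
    intro x hx
    have hxH := hN hx
    rw [Subgroup.mem_centralizer_iff]
    intro h hh
    exact hab h hh x hxH
  have hc := MonoidHom.ker_transferSylow_isComplement' P hP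
  refine ⟨(MonoidHom.transferSylow P hP).ker, MonoidHom.normal_ker _, ?_⟩
  have h7 := hc.card_mul
  have e : Nat.card ↥(P : Subgroup G) = Nat.card ↥H :=
    congrArg (fun S : Subgroup G => Nat.card ↥S) hPH
  rw [e] at h7
  exact h7

variable {F : Type*} [Field F] [Fintype F]

theorem sn2_psl (h4 : 4 ≤ Fintype.card F)
    (H : Subgroup (Matrix.ProjectiveSpecialLinearGroup (Fin 2) F)) (hH : IsPGroup 2 H)
    (hab : ∀ a ∈ H, ∀ b ∈ H, a * b = b * a)
    (hN : Subgroup.normalizer (H : Set (Matrix.ProjectiveSpecialLinearGroup (Fin 2) F)) ≤ H)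
    (hne : H ≠ ⊥) : False := by
  haveI := Cfsg.Agent.H64.MX.simple_PSL2 (F := F) h4
  obtain ⟨K, hK, hcard⟩ := sn2_complement H hH hab hN
  rcases hK.eq_bot_or_eq_top with h | h
  · rw [h, Subgroup.card_bot, one_mul] at hcard
    have htop := (Subgroup.card_eq_iff_eq_top H).1 hcard
    apply Cfsg.Agent.H64.MX.noncomm_PSL2 (F := F)
    intro a b
    exact hab a (by rw [htop]; trivial) b (by rw [htop]; trivial)
  · rw [h, Subgroup.card_top] at hcard
    have hpos : 0 < Nat.card (Matrix.ProjectiveSpecialLinearGroup (Fin 2) F) := Nat.card_pos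
    have h1 : Nat.card H = 1 := by
      have : Nat.card (Matrix.ProjectiveSpecialLinearGroup (Fin 2) F) * Nat.card H =
          Nat.card (Matrix.ProjectiveSpecialLinearGroup (Fin 2) F) * 1 := by rw [hcard, mul_one]
      exact Nat.eq_of_mul_eq_mul_left hpos this
    exact hne (Subgroup.card_eq_one.1 h1)

/-- No nontrivial abelian `2`-subgroup of `PSL₂ ≤ PGL₂` is self-normalising in `PSL₂`. -/
theorem sn2_G (h4 : 4 ≤ Fintype.card F)
    (H : Subgroup (Matrix.ProjGenLinGroup (Fin 2) F)) (hHL : H ≤ (piG F).range)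
    (hH : IsPGroup 2 H) (hab : ∀ a ∈ H, ∀ b ∈ H, a * b = b * a)
    (hN : ∀ x ∈ Subgroup.normalizer (H : Set (Matrix.ProjGenLinGroup (Fin 2) F)),
      x ∈ (piG F).range → x ∈ H)
    (hne : H ≠ ⊥) : False := by
  haveI := finite_PGL (F := F)
  have hinj := Matrix.ProjectiveSpecialLinearGroup.toPGL_injective (n := Fin 2) (R := F)
  apply sn2_psl h4 (H.comap (Matrix.ProjectiveSpecialLinearGroup.toPGL (n := Fin 2) (R := F)))
    (hH.comap_of_injective _ hinj)
  · intro a ha b hb
    apply hinj
    rw [map_mul, map_mul]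
    exact hab _ ha _ hb
  · intro x hx
    rw [Subgroup.mem_comap]
    apply hN
    · apply Subgroup.mem_normalizer_fintype
      intro n hn
      have hnL := hHL hn
      rw [piG_range] at hnL
      obtain ⟨n', rfl⟩ := hnL
      have h1 : x * n' * x⁻¹ ∈ H.comap
          (Matrix.ProjectiveSpecialLinearGroup.toPGL (n := Fin 2) (R := F)) :=
        (Subgroup.mem_normalizer_iff.1 hx n').1 hn
      rw [Subgroup.mem_comap, map_mul, map_mul, map_inv] at h1
      exact h1
    · rw [piG_range]; exact ⟨x, rfl⟩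
  · intro hbot
    apply hne
    rw [eq_bot_iff]
    intro n hn
    have hnL := hHL hn
    rw [piG_range] at hnL
    obtain ⟨n', rfl⟩ := hnL
    have h1 : n' ∈ H.comap
        (Matrix.ProjectiveSpecialLinearGroup.toPGL (n := Fin 2) (R := F)) := hn
    rw [hbot, Subgroup.mem_bot] at h1
    rw [h1, map_one]; exact Subgroup.mem_bot.2 rfl

theorem inf_LG_normalized (M : Subgroup (Matrix.ProjGenLinGroup (Fin 2) F)) :
    M ≤ Subgroup.normalizer ((M ⊓ (piG F).range : Subgroup _) :
      Set (Matrix.ProjGenLinGroup (Fin 2) F)) := by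
  haveI := finite_PGL (F := F)
  intro m hm
  apply Subgroup.mem_normalizer_fintype
  intro n hn
  exact ⟨M.mul_mem (M.mul_mem hm hn.1) (M.inv_mem hm), (conj_mem_LG_iff m n).2 hn.2⟩

theorem exists_inverting (hodd : Odd (Fintype.card F))
    (z : Matrix.SpecialLinearGroup (Fin 2) F) (htr : tr z ^ 2 ≠ 4) :
    ∃ τ : Matrix.SpecialLinearGroup (Fin 2) F, τ * z * τ⁻¹ = z⁻¹ := by
  have hc : IsConj z z⁻¹ := by
    apply Cfsg.Agent.H44.SL2_isConj_of_trace_odd hodd z z⁻¹
    · rw [Matrix.trace_fin_two, Matrix.trace_fin_two]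
      have e1 : (z⁻¹).1 0 0 = z.1 1 1 := inv00 z
      have e2 : (z⁻¹).1 1 1 = z.1 0 0 := inv11 z
      rw [e1, e2, add_comm]
    · rw [Matrix.trace_fin_two]; exact htr
  exact isConj_iff.1 hc

theorem four_dvd_card_PGL (hodd : Odd (Fintype.card F)) :
    2 ^ (1 + 1) ∣ Nat.card (Matrix.ProjGenLinGroup (Fin 2) F) := by
  rw [Cfsg.Agent.S0806.card_PGL2' F]
  obtain ⟨j, hj⟩ := hodd
  rw [hj]
  have : (2 * j + 1) ^ 2 - 1 = 2 ^ (1 + 1) * (j * (j + 1)) := by
    have : (2 * j + 1) ^ 2 = 2 ^ (1 + 1) * (j * (j + 1)) + 1 := by ring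
    omega
  rw [this]
  exact Dvd.dvd.mul_left (Dvd.intro _ rfl) _

theorem card_PGL_gt (h3 : 3 < Fintype.card F) :
    24 < Nat.card (Matrix.ProjGenLinGroup (Fin 2) F) := by
  rw [Cfsg.Agent.S0806.card_PGL2' F]
  have h1 : 15 ≤ Fintype.card F ^ 2 - 1 := by
    have : 4 * 4 ≤ Fintype.card F * Fintype.card F := Nat.mul_le_mul (by omega) (by omega)
    have h2 : Fintype.card F ^ 2 = Fintype.card F * Fintype.card F := by ring
    omega
  calc 24 < 4 * 15 := by norm_num
    _ ≤ Fintype.card F * (Fintype.card F ^ 2 - 1) := Nat.mul_le_mul (by omega) h1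

/-- **No abelian maximal subgroups** of `PGL₂(q)` (consisting of semisimple elements). -/
theorem abelian_false (hodd : Odd (Fintype.card F)) (h3 : 3 < Fintype.card F)
    (M : Subgroup (Matrix.ProjGenLinGroup (Fin 2) F)) (hM : IsCoatom M)
    (hML : ¬ (piG F).range ≤ M)
    (hss : ∀ x ∈ M.comap (piG F), x ∉ (Ze : Subgroup _) → tr x ^ 2 ≠ 4)
    (hab : ∀ a ∈ M, ∀ b ∈ M, a * b = b * a) : False := by
  classical
  haveI := finite_PGL (F := F)
  haveI : Fact (Nat.Prime 2) := ⟨Nat.prime_two⟩
  have h2 : (2 : F) ≠ 0 := Cfsg.Agent.H44.two_ne_zero_of_odd hodd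
  have hMnL := not_le_LG hodd hM hML
  have hcard := card_of_not_le hodd M hMnL
  by_cases hbot : M ⊓ (piG F).range = ⊥
  · have hM2 : Nat.card M = 2 ^ 1 := by rw [hcard, hbot, Subgroup.card_bot]; norm_num
    obtain ⟨K, hK, hMK⟩ := Sylow.exists_subgroup_card_pow_succ (four_dvd_card_PGL hodd) hM2
    have hne : M ≠ K := by
      intro h; rw [← h, hM2] at hK; norm_num at hK
    have htop := hM.2 K (lt_of_le_of_ne hMK hne)
    rw [htop, Subgroup.card_top] at hK
    have := card_PGL_gt h3
    rw [hK] at this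
    norm_num at this
  · have hHL : M ⊓ (piG F).range ≤ (piG F).range := inf_le_right
    have hLH : ¬ (piG F).range ≤ M ⊓ (piG F).range := fun h => hML (h.trans inf_le_left)
    have hNeq := normalizer_eq_of_coatom (by omega) hM hHL hbot hLH (inf_LG_normalized M)
    by_cases hexp : ∀ h ∈ M ⊓ (piG F).range, h * h = 1
    · apply sn2_G (by omega) (M ⊓ (piG F).range) hHL ?_ ?_ ?_ hbot
      · intro g
        refine ⟨1, ?_⟩
        apply Subtype.ext
        have := hexp g.1 g.2
        simp [pow_two, this]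
      · intro a ha b hb; exact hab a ha.1 b hb.1
      · intro x hx hxL
        rw [hNeq] at hx; exact ⟨hx, hxL⟩
    · push Not at hexp
      obtain ⟨h, hh, hh2⟩ := hexp
      obtain ⟨z, rfl⟩ := hh.2
      have hzM : z ∈ M.comap (piG F) := hh.1
      have hzZ : z ∉ (Ze : Subgroup _) := by
        intro hz; apply hh2; rw [piG_eq_one_iff.2 hz, one_mul]
      have htr := hss z hzM hzZ
      obtain ⟨τ, hτ⟩ := exists_inverting hodd z htr
      have hzp_le : Subgroup.zpowers (piG F z) ≤ (piG F).range := by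
        rw [Subgroup.zpowers_le]; exact ⟨z, rfl⟩
      have hzp_ne : Subgroup.zpowers (piG F z) ≠ ⊥ := by
        rw [Ne, Subgroup.zpowers_eq_bot]
        intro h1; apply hh2; rw [h1, one_mul]
      have hzp_M : Subgroup.zpowers (piG F z) ≤ M := by
        rw [Subgroup.zpowers_le]; exact hh.1
      have hnorm2 : M ≤ Subgroup.normalizer (Subgroup.zpowers (piG F z) :
          Set (Matrix.ProjGenLinGroup (Fin 2) F)) := by
        intro m hm
        apply Subgroup.mem_normalizer_fintype
        intro n hn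
        have e : m * n * m⁻¹ = n := by
          have := hab m hm n (hzp_M hn)
          rw [this, mul_inv_cancel_right]
        rw [e]; exact hn
      have hNeq2 := normalizer_eq_of_coatom (by omega) hM hzp_le hzp_ne
        (fun h => hML (h.trans hzp_M)) hnorm2
      have hτM : piG F τ ∈ M := by
        rw [← hNeq2]
        apply Subgroup.mem_normalizer_fintype
        intro n hn
        obtain ⟨j, rfl⟩ := Subgroup.mem_zpowers_iff.1 hn
        have e : piG F τ * piG F z ^ j * (piG F τ)⁻¹ = (piG F z) ^ (-j) := by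
          rw [← conj_zpow, ← map_inv, ← map_mul, ← map_mul, hτ, map_inv, _root_.inv_zpow, _root_.zpow_neg]
        rw [SetLike.mem_coe, e]
        exact Subgroup.zpow_mem_zpowers _ _
      have hcomm := hab _ hτM _ hh.1
      apply hh2
      have e1 : piG F τ * piG F z * (piG F τ)⁻¹ = piG F z := by
        rw [hcomm, mul_inv_cancel_right]
      rw [← map_inv, ← map_mul, ← map_mul, hτ, map_inv] at e1
      calc piG F z * piG F z = (piG F z)⁻¹ * piG F z := by rw [e1]
        _ = 1 := inv_mul_cancel _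

end Cfsg.Agent.H18.Pg
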