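import Mathlib
import Cfsg.Agent.H18.Pgl2

/-!
# Maximal subgroups of `PGL(2, q)`, `q` odd: dihedral subgroups (helper18)
-/

set_option autoImplicit false
set_option linter.unusedSectionVars false
set_option linter.unusedVariables false
set_option linter.deprecated false
set_option linter.unusedSimpArgs false
set_option linter.style.haveILetI false
set_option linter.unnecessarySeqFocus false

namespace Cfsg.Agent.H18.Pg

open Matrix Cfsg.Agent.H65.SL2 Cfsg.Agent.H29.Dk Cfsg.Agent.H18.Dk

theorem dih_struct4 {M : Type*} [Group M] (k : ℕ) (hk : 3 ≤ k) (hk4 : k ≠ 4)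
    (f : M ≃* DihedralGroup k) :
    ∃ x : M, x ^ 4 ≠ 1 ∧ (∀ m : M, m * x * m⁻¹ ∈ Subgroup.zpowers x) := by
  refine ⟨f.symm (DihedralGroup.r 1), ?_, ?_⟩
  · intro h
    have h1 := congrArg f h
    rw [map_pow, MulEquiv.apply_symm_apply, map_one, DihedralGroup.r_one_pow,
      DihedralGroup.one_def] at h1
    have h2 : ((4 : ℕ) : ZMod k) = 0 := by injection h1
    rw [ZMod.natCast_eq_zero_iff] at h2
    have h3 := Nat.le_of_dvd (by norm_num) h2
    interval_cases k
    · norm_num at h2
    · exact hk4 rfl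
  · intro m
    have h1 := Cfsg.Agent.H64.MX.dih_conj_mem k (f m)
    obtain ⟨j, hj⟩ := Subgroup.mem_zpowers_iff.mp h1
    rw [Subgroup.mem_zpowers_iff]
    refine ⟨j, f.injective ?_⟩
    rw [map_zpow, MulEquiv.apply_symm_apply, hj, map_mul, map_mul, map_inv,
      MulEquiv.apply_symm_apply]

variable {F : Type*} [Field F] [Fintype F]

/-- The normaliser of a torus. -/
theorem torus_pgl (hodd : Odd (Fintype.card F)) (h3 : 3 < Fintype.card F)
    (M : Subgroup (Matrix.ProjGenLinGroup (Fin 2) F)) (hM : IsCoatom M)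
    (hML : ¬ (piG F).range ≤ M)
    (hss : ∀ x ∈ M.comap (piG F), x ∉ (Ze : Subgroup _) → tr x ^ 2 ≠ 4)
    (ρ : Matrix.ProjGenLinGroup (Fin 2) F) (hρM : ρ ∈ M) (hρ4 : ρ ^ 4 ≠ 1)
    (hconj : ∀ m ∈ M, m * ρ * m⁻¹ ∈ Subgroup.zpowers ρ) :
    Nat.card M = 2 * (Fintype.card F - 1) ∨ Nat.card M = 2 * (Fintype.card F + 1) := by
  classical
  haveI := finite_PGL (F := F)
  have h2 : (2 : F) ≠ 0 := Cfsg.Agent.H44.two_ne_zero_of_odd hodd
  have hMnL := not_le_LG hodd hM hML
  have hcard := card_of_not_le hodd M hMnL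
  have hσL : ρ * ρ ∈ (piG F).range := sq_mem_LG ρ
  have hσM : ρ * ρ ∈ M := M.mul_mem hρM hρM
  have hσ2 : (ρ * ρ) * (ρ * ρ) ≠ 1 := by
    intro h; apply hρ4
    have e : ρ ^ 4 = (ρ * ρ) * (ρ * ρ) := by
      rw [pow_succ, pow_succ, pow_succ, pow_one, mul_assoc (ρ * ρ)]
    rw [e]; exact h
  obtain ⟨z, hz⟩ := hσL
  have hzM : z ∈ M.comap (piG F) := by rw [Subgroup.mem_comap, hz]; exact hσM
  have hzZ : z ∉ (Ze : Subgroup _) := by
    intro h; apply hσ2
    rw [← hz, piG_eq_one_iff.2 h, one_mul]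
  have htr := hss z hzM hzZ
  have htr0 : tr z ≠ 0 := by
    intro h
    apply hσ2
    rw [← hz, ← map_mul, mul_self_of_tr_zero h]
    exact piG_eq_one_iff.2 neg_one_mem_Ze
  have hconjσ : ∀ m ∈ M, m * piG F z * m⁻¹ ∈ Subgroup.zpowers (piG F z) := by
    intro m hm
    obtain ⟨j, hj⟩ := Subgroup.mem_zpowers_iff.1 (hconj m hm)
    rw [Subgroup.mem_zpowers_iff]
    refine ⟨j, ?_⟩
    rw [hz, (Commute.refl ρ).mul_zpow j, hj]
    group
  have hN_le : Subgroup.zpowers (piG F z) ≤ (piG F).range := by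
    rw [Subgroup.zpowers_le]; exact ⟨z, rfl⟩
  have hN_ne : Subgroup.zpowers (piG F z) ≠ ⊥ := by
    rw [Ne, Subgroup.zpowers_eq_bot]
    intro h1; apply hσ2; rw [← hz, h1, one_mul]
  have hN_M : Subgroup.zpowers (piG F z) ≤ M := by
    rw [Subgroup.zpowers_le, hz]; exact hσM
  have hnorm : M ≤ Subgroup.normalizer (Subgroup.zpowers (piG F z) :
      Set (Matrix.ProjGenLinGroup (Fin 2) F)) := by
    intro m hm
    apply Subgroup.mem_normalizer_fintype
    intro n hn
    obtain ⟨i, rfl⟩ := Subgroup.mem_zpowers_iff.1 hn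
    rw [SetLike.mem_coe, ← conj_zpow]
    exact Subgroup.zpow_mem _ (hconjσ m hm) i
  have hNeq := normalizer_eq_of_coatom (by omega) hM hN_le hN_ne
    (fun h => hML (h.trans hN_M)) hnorm
  have hLN : M.comap (piG F) ≤ NT z := by
    intro g hg
    have hgM : piG F g ∈ M := hg
    have hy : piG F (g * z * g⁻¹) ∈ Subgroup.zpowers (piG F z) := by
      rw [map_mul, map_mul, map_inv]
      exact hconjσ _ hgM
    obtain ⟨j, hj⟩ := Subgroup.mem_zpowers_iff.1 hy
    have hcomm' : piG F z * piG F (g * z * g⁻¹) = piG F (g * z * g⁻¹) * piG F z := by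
      rw [← hj]
      exact ((Commute.refl (piG F z)).zpow_right j).eq
    have hcomm : mkP F z * mkP F (g * z * g⁻¹) = mkP F (g * z * g⁻¹) * mkP F z :=
      Matrix.ProjectiveSpecialLinearGroup.toPGL_injective
        ((map_mul _ _ _).trans (hcomm'.trans (map_mul _ _ _).symm))
    have htry : tr (g * z * g⁻¹) ≠ 0 := by rw [tr_conj]; exact htr0
    have hxy : z * (g * z * g⁻¹) = (g * z * g⁻¹) * z := comm_of_mkP_comm h2 htry hcomm
    have hyZ : g * z * g⁻¹ ∉ (Ze : Subgroup _) := by
      intro h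
      apply hzZ
      have h3 : z = g⁻¹ * (g * z * g⁻¹) * g := by group
      rw [h3, ← Ze_comm h g⁻¹]
      have : g * z * g⁻¹ * g⁻¹ * g = g * z * g⁻¹ := by group
      rw [this]; exact h
    unfold NT
    rw [Subgroup.mem_normalizer_iff]
    intro c
    rw [Subgroup.mem_centralizer_singleton_iff, Subgroup.mem_centralizer_singleton_iff]
    constructor
    · intro hc
      have h3 : (g * z * g⁻¹) * (g * c * g⁻¹) = (g * c * g⁻¹) * (g * z * g⁻¹) := by
        calc (g * z * g⁻¹) * (g * c * g⁻¹) = g * (z * c) * g⁻¹ := by group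
          _ = g * (c * z) * g⁻¹ := by rw [hc]
          _ = (g * c * g⁻¹) * (g * z * g⁻¹) := by group
      exact (comm_trans hyZ hxy.symm h3).symm
    · intro hc
      have h3 : (g * z * g⁻¹) * (g * c * g⁻¹) = (g * c * g⁻¹) * (g * z * g⁻¹) :=
        comm_trans hzZ hxy hc.symm
      calc c * z = g⁻¹ * ((g * c * g⁻¹) * (g * z * g⁻¹)) * g := by group
        _ = g⁻¹ * ((g * z * g⁻¹) * (g * c * g⁻¹)) * g := by rw [h3]
        _ = z * c := by group
  have hCle : Subgroup.centralizer ({z} : Set (Matrix.SpecialLinearGroup (Fin 2) F)) ≤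
      M.comap (piG F) := by
    intro c hc
    rw [Subgroup.mem_centralizer_singleton_iff] at hc
    rw [Subgroup.mem_comap, ← hNeq]
    apply Subgroup.mem_normalizer_fintype
    intro n hn
    obtain ⟨i, rfl⟩ := Subgroup.mem_zpowers_iff.1 hn
    have e : piG F c * piG F z ^ i * (piG F c)⁻¹ = piG F z ^ i := by
      rw [← conj_zpow, ← map_inv, ← map_mul, ← map_mul, hc, mul_inv_cancel_right]
    rw [SetLike.mem_coe, e]
    exact Subgroup.zpow_mem_zpowers _ _
  obtain ⟨τ, hτ⟩ := exists_inverting hodd z htr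
  have hτM : τ ∈ M.comap (piG F) := by
    rw [Subgroup.mem_comap, ← hNeq]
    apply Subgroup.mem_normalizer_fintype
    intro n hn
    obtain ⟨j, rfl⟩ := Subgroup.mem_zpowers_iff.1 hn
    have e : piG F τ * piG F z ^ j * (piG F τ)⁻¹ = (piG F z) ^ (-j) := by
      rw [← conj_zpow, ← map_inv, ← map_mul, ← map_mul, hτ, map_inv, _root_.inv_zpow,
        _root_.zpow_neg]
    rw [SetLike.mem_coe, e]
    exact Subgroup.zpow_mem_zpowers _ _
  have hτC : τ ∉ Subgroup.centralizer ({z} : Set (Matrix.SpecialLinearGroup (Fin 2) F)) := by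
    intro hc
    rw [Subgroup.mem_centralizer_singleton_iff] at hc
    apply hzZ
    apply mem_Ze_of_mul_self h2
    have e : z⁻¹ = z := by rw [← hτ, hc, mul_inv_cancel_right]
    calc z * z = z⁻¹ * z := by rw [e]
      _ = 1 := inv_mul_cancel z
  have htr' : (z.1 0 0 + z.1 1 1) ^ 2 ≠ 4 := htr
  have hNT : Nat.card (NT z) = 2 * Nat.card (Subgroup.centralizer
      ({z} : Set (Matrix.SpecialLinearGroup (Fin 2) F))) :=
    Cfsg.Agent.H44.sl2_card_normalizer hodd htr'
  have hq : 2 ≤ Fintype.card F := Fintype.one_lt_card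
  have hCcard : Nat.card (Subgroup.centralizer
      ({z} : Set (Matrix.SpecialLinearGroup (Fin 2) F))) = Fintype.card F - 1 ∨
      Nat.card (Subgroup.centralizer
      ({z} : Set (Matrix.SpecialLinearGroup (Fin 2) F))) = Fintype.card F + 1 := by
    by_cases hE : Cfsg.Agent.H44.Elliptic (z : Matrix (Fin 2) (Fin 2) F)
    · right; exact Cfsg.Agent.H44.sl2_card_centralizer_elliptic hodd z hE
    · left; exact Cfsg.Agent.H44.sl2_card_centralizer_split hodd z htr' hE
  have hH₁ : Nat.card (M.comap (piG F)) = 2 * Nat.card (Subgroup.centralizer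
      ({z} : Set (Matrix.SpecialLinearGroup (Fin 2) F))) := by
    obtain ⟨d, hd⟩ := Subgroup.card_dvd_of_le hCle
    have hle := Subgroup.card_le_of_le hLN
    rw [hNT, hd] at hle
    have hCpos : 0 < Nat.card (Subgroup.centralizer
      ({z} : Set (Matrix.SpecialLinearGroup (Fin 2) F))) := Nat.card_pos
    have hd1 : d ≠ 1 := by
      intro h1
      rw [h1, mul_one] at hd
      have := Subgroup.eq_of_le_of_card_ge hCle hd.le
      apply hτC
      rw [this]; exact hτM
    have hd0 : d ≠ 0 := by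
      intro h0
      rw [h0, mul_zero] at hd
      have : 0 < Nat.card (M.comap (piG F)) := Nat.card_pos
      omega
    have hd2 : d ≤ 2 := by
      by_contra hcon
      have : Nat.card (Subgroup.centralizer
        ({z} : Set (Matrix.SpecialLinearGroup (Fin 2) F))) * 3 ≤ Nat.card (Subgroup.centralizer
        ({z} : Set (Matrix.SpecialLinearGroup (Fin 2) F))) * d :=
        Nat.mul_le_mul_left _ (by omega)
      omega
    have : d = 2 := by omega
    rw [hd, this, mul_comm]
  have h5 := card_map_piG hodd (Ze_le_comap_piG M)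
  rw [map_comap_piG, hH₁] at h5
  rw [hcard, ← h5]
  rcases hCcard with h | h
  · left; rw [h]
  · right; rw [h]

/-- **The dihedral case.** -/
theorem dih_pgl (hodd : Odd (Fintype.card F)) (h3 : 3 < Fintype.card F)
    (M : Subgroup (Matrix.ProjGenLinGroup (Fin 2) F)) (hM : IsCoatom M)
    (hML : ¬ (piG F).range ≤ M)
    (hss : ∀ x ∈ M.comap (piG F), x ∉ (Ze : Subgroup _) → tr x ^ 2 ≠ 4)
    (k : ℕ) (f : M ≃* DihedralGroup k) :
    (Fintype.card F ≠ 5 ∧ Nonempty (M ≃* DihedralGroup (Fintype.card F - 1))) ∨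
      Nonempty (M ≃* DihedralGroup (Fintype.card F + 1)) := by
  classical
  haveI := finite_PGL (F := F)
  haveI : Fact (Nat.Prime 2) := ⟨Nat.prime_two⟩
  have hcardM : Nat.card M = 2 * k := (Nat.card_congr f.toEquiv).trans DihedralGroup.nat_card
  have hMpos : 0 < Nat.card M := Nat.card_pos
  have hMnL := not_le_LG hodd hM hML
  have hcard := card_of_not_le hodd M hMnL
  by_cases hk3 : k < 3
  · exfalso
    have hk : k = 1 ∨ k = 2 := by omega
    apply abelian_false hodd h3 M hM hML hss
    intro a ha b hb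
    rcases hk with rfl | rfl
    · have := congrArg f.symm (Cfsg.Agent.H64.MX.dih1_comm (f ⟨a, ha⟩) (f ⟨b, hb⟩))
      rw [map_mul, map_mul, MulEquiv.symm_apply_apply, MulEquiv.symm_apply_apply] at this
      exact congrArg Subtype.val this
    · have := congrArg f.symm (Cfsg.Agent.H64.MX.dih2_comm (f ⟨a, ha⟩) (f ⟨b, hb⟩))
      rw [map_mul, map_mul, MulEquiv.symm_apply_apply, MulEquiv.symm_apply_apply] at this
      exact congrArg Subtype.val this
  · by_cases hk4 : k = 4
    · exfalso
      subst hk4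
      have hH4 : Nat.card (M ⊓ (piG F).range : Subgroup _) = 2 ^ 2 := by omega
      have hbot : M ⊓ (piG F).range ≠ ⊥ := by
        intro h
        rw [h, Subgroup.card_bot] at hH4
        norm_num at hH4
      have hHL : M ⊓ (piG F).range ≤ (piG F).range := inf_le_right
      have hLH : ¬ (piG F).range ≤ M ⊓ (piG F).range := fun h => hML (h.trans inf_le_left)
      have hNeq := normalizer_eq_of_coatom (by omega) hM hHL hbot hLH (inf_LG_normalized M)
      apply sn2_G (by omega) (M ⊓ (piG F).range) hHL (IsPGroup.of_card hH4) ?_ ?_ hbot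
      · intro a ha b hb
        have := IsPGroup.commutative_of_card_eq_prime_sq hH4
          (⟨a, ha⟩ : ↥(M ⊓ (piG F).range)) ⟨b, hb⟩
        exact congrArg Subtype.val this
      · intro x hx hxL
        rw [hNeq] at hx; exact ⟨hx, hxL⟩
    · obtain ⟨x, hx4, hxc⟩ := dih_struct4 k (by omega) hk4 f
      have hρ4 : (x : Matrix.ProjGenLinGroup (Fin 2) F) ^ 4 ≠ 1 := by
        intro h
        apply hx4
        apply Subtype.ext
        simpa using h
      have hconj : ∀ m ∈ M, m * (x : Matrix.ProjGenLinGroup (Fin 2) F) * m⁻¹ ∈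
          Subgroup.zpowers (x : Matrix.ProjGenLinGroup (Fin 2) F) := by
        intro m hm
        obtain ⟨j, hj⟩ := Subgroup.mem_zpowers_iff.1 (hxc ⟨m, hm⟩)
        rw [Subgroup.mem_zpowers_iff]
        refine ⟨j, ?_⟩
        have := congrArg Subtype.val hj
        simpa using this
      rcases torus_pgl hodd h3 M hM hML hss x x.2 hρ4 hconj with h | h
      · left
        have hk : k = Fintype.card F - 1 := by omega
        refine ⟨?_, ⟨by rw [← hk]; exact f⟩⟩
        intro h5
        rw [h5] at hk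
        exact hk4 hk
      · right
        have hk : k = Fintype.card F + 1 := by omega
        exact ⟨by rw [← hk]; exact f⟩

end Cfsg.Agent.H18.Pg
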