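import Mathlib
import Cfsg.Agent.H18.Pgl3

/-!
# Maximal subgroups of `PGL(2, q)`, `q` odd: subfield subgroups and `S₄` (helper18)
-/

set_option autoImplicit false
set_option linter.unusedSectionVars false
set_option linter.unusedVariables false
set_option linter.deprecated false
set_option linter.unusedSimpArgs false
set_option linter.style.haveILetI false
set_option linter.unnecessarySeqFocus false

namespace Cfsg.Agent.H18.Pg

open Matrix Cfsg.Agent.H65.SL2 Cfsg.Agent.H29.Dk Cfsg.Agent.H18.Dk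

variable {F : Type*} [Field F]

/-- The subgroup `PGL₂(K) ≤ PGL₂(F)` for a subfield `K`. -/
noncomputable def GamK (K : Subfield F) : Subgroup (Matrix.ProjGenLinGroup (Fin 2) F) :=
  (Matrix.ProjGenLinGroup.map (n := Fin 2) K.subtype).range

theorem mk_mem_GamK (K : Subfield F) (g : GL (Fin 2) F) (μ : F) (hμ : μ ≠ 0)
    (h : ∀ i j, μ * g.1 i j ∈ K) : Matrix.ProjGenLinGroup.mk g ∈ GamK K := by
  let g₀ : Matrix (Fin 2) (Fin 2) K := fun i j => ⟨μ * g.1 i j, h i j⟩
  have hdet : g₀.det ≠ 0 := by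
    intro h0
    rw [Matrix.det_fin_two] at h0
    have h5 := congrArg Subtype.val h0
    have hg := gl_det_ne_zero g
    rw [Matrix.det_fin_two] at hg
    apply hg
    have h6 : (μ * g.1 0 0) * (μ * g.1 1 1) - (μ * g.1 0 1) * (μ * g.1 1 0) = 0 := h5
    have h7 : μ * μ * (g.1 0 0 * g.1 1 1 - g.1 0 1 * g.1 1 0) = 0 := by linear_combination h6
    rcases mul_eq_zero.1 h7 with h8 | h8
    · exact absurd (mul_self_eq_zero.1 h8) hμ
    · exact h8
  refine ⟨Matrix.ProjGenLinGroup.mk (GeneralLinearGroup.mkOfDetNeZero g₀ hdet), ?_⟩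
  show Matrix.ProjGenLinGroup.mk (GeneralLinearGroup.map K.subtype
      (GeneralLinearGroup.mkOfDetNeZero g₀ hdet)) = Matrix.ProjGenLinGroup.mk g
  symm
  rw [Matrix.ProjGenLinGroup.mk_eq_mk_iff]
  refine ⟨Units.mk0 μ hμ, Units.ext ?_⟩
  simp only [Units.val_mul, GeneralLinearGroup.coe_scalar, Units.val_mk0]
  ext i j
  rw [Matrix.mul_apply]
  show ∑ k, g.1 i k * (Matrix.scalar (Fin 2) μ) k j = K.subtype (g₀ i j)
  fin_cases i <;> fin_cases j <;>
    simp [Matrix.scalar_apply, Matrix.diagonal_apply, Fin.sum_univ_two, g₀, mul_comm]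

theorem exists_of_mk_mem_GamK (K : Subfield F) (g : GL (Fin 2) F)
    (h : Matrix.ProjGenLinGroup.mk g ∈ GamK K) : ∃ μ : F, μ ≠ 0 ∧ ∀ i j, μ * g.1 i j ∈ K := by
  obtain ⟨y, hy⟩ := h
  induction y using Matrix.ProjGenLinGroup.induction_on with | mk g₀ =>
  rw [Matrix.ProjGenLinGroup.map_mk, Matrix.ProjGenLinGroup.mk_eq_mk_iff] at hy
  obtain ⟨u, hu⟩ := hy
  refine ⟨((u⁻¹ : Fˣ) : F), Units.ne_zero _, ?_⟩
  intro i j
  have h1 := congrArg (fun M : GL (Fin 2) F => M.1 i j) hu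
  simp only [Units.val_mul, GeneralLinearGroup.coe_scalar] at h1
  rw [Matrix.mul_apply] at h1
  have h2 : (g₀.1 i j : F) * (u : F) = g.1 i j := by
    rw [← h1]
    fin_cases i <;> fin_cases j <;>
      simp [Matrix.scalar_apply, Matrix.diagonal_apply, Fin.sum_univ_two,
        Matrix.GeneralLinearGroup.map]
  have h3 : ((u⁻¹ : Fˣ) : F) * g.1 i j = (g₀.1 i j : F) := by
    rw [← h2, mul_comm, mul_assoc, Units.mul_inv, mul_one]
  rw [h3]; exact (g₀.1 i j).2

theorem piG_mem_GamK (K : Subfield F) {x : Matrix.SpecialLinearGroup (Fin 2) F}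
    (hx : x ∈ stdSub K) : piG F x ∈ GamK K := by
  apply mk_mem_GamK K _ 1 one_ne_zero
  intro i j
  rw [one_mul]
  show x.1 i j ∈ K
  fin_cases i <;> fin_cases j
  · exact hx.1
  · exact hx.2.1
  · exact hx.2.2.1
  · exact hx.2.2.2

/-- `diag(a, 1)`. -/
noncomputable def dgl (a : F) (ha : a ≠ 0) : GL (Fin 2) F :=
  GeneralLinearGroup.mkOfDetNeZero !![a, 0; 0, 1] (by rw [Matrix.det_fin_two_of]; simpa using ha)

theorem mem_of_dgl_mem (K : Subfield F) (a : F) (ha : a ≠ 0)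
    (h : Matrix.ProjGenLinGroup.mk (dgl a ha) ∈ GamK K) : a ∈ K := by
  obtain ⟨μ, hμ, hμK⟩ := exists_of_mk_mem_GamK K _ h
  have h00 : μ * a ∈ K := hμK 0 0
  have h11 : μ * 1 ∈ K := hμK 1 1
  rw [mul_one] at h11
  have : a = μ⁻¹ * (μ * a) := by field_simp
  rw [this]; exact K.mul_mem (K.inv_mem h11) h00

theorem GamK_top_imp (K : Subfield F) (h : GamK K = ⊤) : K = ⊤ := by
  rw [eq_top_iff]
  intro a _
  by_cases ha : a = 0
  · rw [ha]; exact K.zero_mem
  · exact mem_of_dgl_mem K a ha (by rw [h]; trivial)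

theorem GamK_mono {K K' : Subfield F} (h : K ≤ K') : GamK K ≤ GamK K' := by
  intro y hy
  induction y using Matrix.ProjGenLinGroup.induction_on with | mk g =>
  obtain ⟨μ, hμ, hμK⟩ := exists_of_mk_mem_GamK K g hy
  exact mk_mem_GamK K' g μ hμ (fun i j => h (hμK i j))

theorem GamK_le_imp {K K' : Subfield F} (h : GamK K' ≤ GamK K) : K' ≤ K := by
  intro a ha'
  by_cases ha : a = 0
  · rw [ha]; exact K.zero_mem
  · apply mem_of_dgl_mem K a ha
    apply h
    apply mk_mem_GamK K' _ 1 one_ne_zero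
    intro i j
    rw [one_mul]
    show (!![a, 0; 0, 1] : Matrix (Fin 2) (Fin 2) F) i j ∈ K'
    fin_cases i <;> fin_cases j <;> simp [ha']

theorem inv_mul_mem_LG [Finite F] {a b : Matrix.ProjGenLinGroup (Fin 2) F}
    (ha : a ∉ (piG F).range) (hb : b ∉ (piG F).range) : a⁻¹ * b ∈ (piG F).range := by
  induction a using Matrix.ProjGenLinGroup.induction_on with | mk g₁ =>
  induction b using Matrix.ProjGenLinGroup.induction_on with | mk g₂ =>
  rw [mk_mem_LG_iff] at ha hb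
  rw [← map_inv, ← map_mul, mk_mem_LG_iff]
  have e : (g₁⁻¹ * g₂).val.det = (g₁.val.det)⁻¹ * g₂.val.det := by
    rw [Units.val_mul, Matrix.det_mul, Matrix.GeneralLinearGroup.coe_inv,
      Matrix.det_nonsing_inv, Ring.inverse_eq_inv']
  rw [e]
  exact sq_dichotomy (gl_det_ne_zero g₁) (gl_det_ne_zero g₂) ha hb

theorem wE_mul_self [Fintype F] : (wE : Matrix.SpecialLinearGroup (Fin 2) F) * wE = -1 :=
  mul_self_of_tr_zero (by unfold tr; rw [wE00, wE11]; ring)

theorem jE_mul_self [Fintype F] (α β : F) (h : α ^ 2 + β ^ 2 = -1) :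
    jE α β h * jE α β h = -1 :=
  mul_self_of_tr_zero (by unfold tr; rw [jE00, jE11]; ring)

theorem wE_jE_anti (α β : F) (h : α ^ 2 + β ^ 2 = -1) :
    wE * jE α β h = -(jE α β h * wE) := by
  apply ext4 <;>
    simp only [mul00, mul01, mul10, mul11, neg00, neg01, neg10, neg11, wE00, wE01, wE10, wE11,
      jE00, jE01, jE10, jE11] <;> ring

theorem wE_not_mem_Ze : (wE : Matrix.SpecialLinearGroup (Fin 2) F) ∉ (Ze : Subgroup _) := by
  intro h
  have := (mem_Ze.1 h).1
  rw [wE10] at this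
  exact one_ne_zero (neg_eq_zero.1 this)

theorem jE_not_mem_Ze (h2 : (2 : F) ≠ 0) (α β : F) (h : α ^ 2 + β ^ 2 = -1) :
    jE α β h ∉ (Ze : Subgroup _) := by
  intro hZ
  obtain ⟨h10, h01, h00⟩ := mem_Ze.1 hZ
  rw [jE10] at h10
  rw [jE00, jE11] at h00
  have hα0 : α = 0 := by
    have : 2 * α = 0 := by linear_combination h00
    rcases mul_eq_zero.1 this with h | h
    · exact absurd h h2
    · exact h
  rw [hα0, h10] at h
  norm_num at h

theorem uT_one_not_mem_Ze : (uT (1 : F)) ∉ (Ze : Subgroup _) := by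
  intro h
  have h01 := (mem_Ze.1 h).2.1
  rw [uT01] at h01
  exact one_ne_zero h01

theorem orderOf_piG_uT (p : ℕ) [Fact p.Prime] [CharP F p] : orderOf (piG F (uT (1 : F))) = p := by
  apply orderOf_eq_prime
  · rw [← map_pow, uT_pow, mul_one, CharP.cast_eq_zero, uT_zero, map_one]
  · intro h
    exact uT_one_not_mem_Ze (piG_eq_one_iff.1 h)

/-- The `S₄` case in normal form. -/
theorem s4_core [Fintype F] (p : ℕ) [Fact p.Prime] [CharP F p] (hodd : Odd (Fintype.card F))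
    (h3 : 3 < Fintype.card F)
    (M : Subgroup (Matrix.ProjGenLinGroup (Fin 2) F)) (hM : IsCoatom M)
    (hML : ¬ (piG F).range ≤ M)
    (hpM : ¬ p ∣ Nat.card M)
    (hpow : ∀ m ∈ M, m ^ 2 = 1 ∨ m ^ 3 = 1 ∨ m ^ 4 = 1)
    (hnsq : ¬ IsSquare (2 : F))
    (α β : F) (hα : α ∈ frobSub F p 1) (hβ : β ∈ frobSub F p 1) (hαβ : α ^ 2 + β ^ 2 = -1)
    (hw : piG F wE ∈ M) (hj : piG F (jE α β hαβ) ∈ M)
    (hnorm : ∀ m ∈ M,
      (m * piG F wE * m⁻¹ = piG F wE ∨ m * piG F wE * m⁻¹ = piG F (jE α β hαβ) ∨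
        m * piG F wE * m⁻¹ = piG F wE * piG F (jE α β hαβ)) ∧
      (m * piG F (jE α β hαβ) * m⁻¹ = piG F wE ∨
        m * piG F (jE α β hαβ) * m⁻¹ = piG F (jE α β hαβ) ∨
        m * piG F (jE α β hαβ) * m⁻¹ = piG F wE * piG F (jE α β hαβ))) :
    Fintype.card F = p := by
  classical
  haveI := finite_PGL (F := F)
  have h2 : (2 : F) ≠ 0 := Cfsg.Agent.H44.two_ne_zero_of_odd hodd
  obtain ⟨A, hA⟩ : ∃ A, A = piG F wE := ⟨_, rfl⟩
  obtain ⟨B, hB⟩ : ∃ B, B = piG F (jE α β hαβ) := ⟨_, rfl⟩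
  rw [← hA, ← hB] at hnorm
  rw [← hA] at hw
  rw [← hB] at hj
  have hA2 : A * A = 1 := by
    rw [hA, ← map_mul, wE_mul_self]; exact piG_eq_one_iff.2 neg_one_mem_Ze
  have hB2 : B * B = 1 := by
    rw [hB, ← map_mul, jE_mul_self]; exact piG_eq_one_iff.2 neg_one_mem_Ze
  have hA1 : A ≠ 1 := fun h => wE_not_mem_Ze (piG_eq_one_iff.1 (hA ▸ h))
  have hB1 : B ≠ 1 := fun h => jE_not_mem_Ze h2 α β hαβ (piG_eq_one_iff.1 (hB ▸ h))
  have hAB : A * B = B * A := by
    rw [hA, hB, ← map_mul, ← map_mul, wE_jE_anti, piG_neg]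
  have hne : A ≠ B := by
    intro h
    rw [hA, hB] at h
    rcases piG_eq_cases h with h | h
    · have h01 := congrArg (fun x : Matrix.SpecialLinearGroup (Fin 2) F => x.1 0 1) h
      have h10 := congrArg (fun x : Matrix.SpecialLinearGroup (Fin 2) F => x.1 1 0) h
      simp only [jE01, jE10, wE01, wE10] at h01 h10
      apply h2; linear_combination h10 - h01
    · have h01 := congrArg (fun x : Matrix.SpecialLinearGroup (Fin 2) F => x.1 0 1) h
      have h10 := congrArg (fun x : Matrix.SpecialLinearGroup (Fin 2) F => x.1 1 0) h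
      simp only [jE01, jE10, neg01, neg10, wE01, wE10] at h01 h10
      apply h2; linear_combination h01 - h10
  have hIP : Cfsg.Agent.H18.InvPair A B :=
    ⟨orderOf_eq_prime (by rw [pow_two]; exact hA2) hA1,
      orderOf_eq_prime (by rw [pow_two]; exact hB2) hB1, hne, hAB⟩
  have hAV : A ∈ Cfsg.Agent.H18.pairSubgroup A B hIP :=
    (Cfsg.Agent.H18.mem_pairSubgroup A B hIP A).2 (Or.inr (Or.inl rfl))
  have hBV : B ∈ Cfsg.Agent.H18.pairSubgroup A B hIP :=
    (Cfsg.Agent.H18.mem_pairSubgroup A B hIP B).2 (Or.inr (Or.inr (Or.inl rfl)))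
  have hABV : A * B ∈ Cfsg.Agent.H18.pairSubgroup A B hIP :=
    (Cfsg.Agent.H18.mem_pairSubgroup A B hIP _).2 (Or.inr (Or.inr (Or.inr rfl)))
  have hAL : A ∈ (piG F).range := ⟨_, hA.symm⟩
  have hBL : B ∈ (piG F).range := ⟨_, hB.symm⟩
  have hVL : Cfsg.Agent.H18.pairSubgroup A B hIP ≤ (piG F).range := by
    intro n hn
    rcases (Cfsg.Agent.H18.mem_pairSubgroup A B hIP n).1 hn with rfl | rfl | rfl | rfl
    · exact Subgroup.one_mem _
    · exact hAL
    · exact hBL
    · exact Subgroup.mul_mem _ hAL hBL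
  have hVM : Cfsg.Agent.H18.pairSubgroup A B hIP ≤ M := by
    intro n hn
    rcases (Cfsg.Agent.H18.mem_pairSubgroup A B hIP n).1 hn with rfl | rfl | rfl | rfl
    · exact Subgroup.one_mem _
    · exact hw
    · exact hj
    · exact Subgroup.mul_mem _ hw hj
  have hVne : Cfsg.Agent.H18.pairSubgroup A B hIP ≠ ⊥ := by
    intro h
    have h5 := hAV
    rw [h, Subgroup.mem_bot] at h5
    exact hA1 h5
  have hnormV : M ≤ Subgroup.normalizer ((Cfsg.Agent.H18.pairSubgroup A B hIP : Subgroup _) :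
      Set (Matrix.ProjGenLinGroup (Fin 2) F)) := by
    intro m hm
    apply Subgroup.mem_normalizer_fintype
    intro n hn
    obtain ⟨hmA, hmB⟩ := hnorm m hm
    have hAV' : m * A * m⁻¹ ∈ Cfsg.Agent.H18.pairSubgroup A B hIP := by
      rcases hmA with h | h | h <;> rw [h]
      · exact hAV
      · exact hBV
      · exact hABV
    have hBV' : m * B * m⁻¹ ∈ Cfsg.Agent.H18.pairSubgroup A B hIP := by
      rcases hmB with h | h | h <;> rw [h]
      · exact hAV
      · exact hBV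
      · exact hABV
    rcases (Cfsg.Agent.H18.mem_pairSubgroup A B hIP n).1 hn with rfl | rfl | rfl | rfl
    · rw [mul_one, mul_inv_cancel]; exact Subgroup.one_mem _
    · exact hAV'
    · exact hBV'
    · have e : m * (A * B) * m⁻¹ = (m * A * m⁻¹) * (m * B * m⁻¹) := by group
      rw [e]; exact Subgroup.mul_mem _ hAV' hBV'
  have hNeq := normalizer_eq_of_coatom (by omega) hM hVL hVne (fun h => hML (h.trans hVM)) hnormV
  have hdet0 : (!![1, 1; -1, 1] : Matrix (Fin 2) (Fin 2) F).det ≠ 0 := by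
    rw [Matrix.det_fin_two_of]
    intro h; apply h2; linear_combination h
  obtain ⟨n₀, hn₀⟩ : ∃ n₀ : GL (Fin 2) F, n₀ = GeneralLinearGroup.mkOfDetNeZero _ hdet0 :=
    ⟨_, rfl⟩
  have hn₀v : n₀.1 = !![1, 1; -1, 1] := by rw [hn₀]; rfl
  have hm₀A : Matrix.ProjGenLinGroup.mk n₀ * A * (Matrix.ProjGenLinGroup.mk n₀)⁻¹ = A := by
    rw [hA]
    apply conj_of_lift
    rw [hn₀v]
    ext i j
    fin_cases i <;> fin_cases j <;> simp [wE, Matrix.mul_apply, Fin.sum_univ_two]
  have hm₀B : Matrix.ProjGenLinGroup.mk n₀ * B * (Matrix.ProjGenLinGroup.mk n₀)⁻¹ = A * B := by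
    rw [hA, hB, ← map_mul]
    apply conj_of_lift
    rw [hn₀v, Matrix.SpecialLinearGroup.coe_mul]
    ext i j
    fin_cases i <;> fin_cases j <;>
      simp [wE, jE, Matrix.mul_apply, Fin.sum_univ_two] <;> ring
  have hm₀M : Matrix.ProjGenLinGroup.mk n₀ ∈ M := by
    rw [← hNeq]
    apply Subgroup.mem_normalizer_fintype
    intro n hn
    rcases (Cfsg.Agent.H18.mem_pairSubgroup A B hIP n).1 hn with rfl | rfl | rfl | rfl
    · rw [mul_one, mul_inv_cancel]; exact Subgroup.one_mem _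
    · rw [hm₀A]; exact hAV
    · rw [hm₀B]; exact hABV
    · have e : Matrix.ProjGenLinGroup.mk n₀ * (A * B) * (Matrix.ProjGenLinGroup.mk n₀)⁻¹ =
          (Matrix.ProjGenLinGroup.mk n₀ * A * (Matrix.ProjGenLinGroup.mk n₀)⁻¹) *
          (Matrix.ProjGenLinGroup.mk n₀ * B * (Matrix.ProjGenLinGroup.mk n₀)⁻¹) := by group
      rw [e, hm₀A, hm₀B]; exact Subgroup.mul_mem _ hAV hABV
  have hm₀L : Matrix.ProjGenLinGroup.mk n₀ ∉ (piG F).range := by
    rw [mk_mem_LG_iff]
    have e : n₀.val.det = 2 := by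
      rw [hn₀v, Matrix.det_fin_two_of]; ring
    rw [e]; exact hnsq
  have hw' : (wE : Matrix.SpecialLinearGroup (Fin 2) F) ∈ M.comap (piG F) := by
    rw [Subgroup.mem_comap, ← hA]; exact hw
  have hj' : jE α β hαβ ∈ M.comap (piG F) := by
    rw [Subgroup.mem_comap, ← hB]; exact hj
  have htrK : ∀ x ∈ M.comap (piG F), tr x ∈ frobSub F p 1 := by
    intro x hx
    have hxM : piG F x ∈ M := hx
    have hZ : ∀ n : ℕ, (piG F x) ^ n = 1 → x ^ n ∈ (Ze : Subgroup _) := fun n h =>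
      piG_eq_one_iff.1 (by rw [map_pow]; exact h)
    rcases hpow _ hxM with h | h | h
    · exact tr_mem_of_pow23 _ (Or.inl (hZ 2 h))
    · exact tr_mem_of_pow23 _ (Or.inr (hZ 3 h))
    · by_cases hxZ : x ∈ (Ze : Subgroup _)
      · exact tr_mem_of_pow23 _ (Or.inl (Subgroup.pow_mem _ hxZ 2))
      · rcases tr_of_pow4_mem_Ze hxZ (hZ 4 h) with h0 | h0
        · rw [h0]; exact Subfield.zero_mem _
        · exact absurd ⟨tr x, h0.symm⟩ hnsq
  have hstd : M.comap (piG F) ≤ stdSub (frobSub F p 1) := by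
    intro x hx
    have e := entries_of_traces h2 (frobSub F p 1) hα hβ hαβ x 1
      (by rw [one_mul]; exact htrK x hx)
      (by rw [one_mul]; exact htrK _ (Subgroup.mul_mem _ hx hw'))
      (by rw [one_mul]; exact htrK _ (Subgroup.mul_mem _ hx hj'))
      (by rw [one_mul]; exact htrK _ (Subgroup.mul_mem _ (Subgroup.mul_mem _ hx hw') hj'))
    simp only [mul_one] at e
    exact e
  have hMG : M ≤ GamK (frobSub F p 1) := by
    intro m hm
    have hm₀G : Matrix.ProjGenLinGroup.mk n₀ ∈ GamK (frobSub F p 1) := by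
      apply mk_mem_GamK _ _ 1 one_ne_zero
      intro i j
      rw [one_mul, hn₀v]
      fin_cases i <;> fin_cases j <;> simp [Subfield.one_mem, Subfield.neg_mem]
    have key : ∀ l ∈ M, l ∈ (piG F).range → l ∈ GamK (frobSub F p 1) := by
      rintro l hl ⟨x, rfl⟩
      exact piG_mem_GamK _ (hstd hl)
    by_cases hmL : m ∈ (piG F).range
    · exact key m hm hmL
    · have h5 := inv_mul_mem_LG hm₀L hmL
      have h6 := key _ (M.mul_mem (M.inv_mem hm₀M) hm) h5
      have e : m = Matrix.ProjGenLinGroup.mk n₀ * ((Matrix.ProjGenLinGroup.mk n₀)⁻¹ * m) := by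
        group
      rw [e]; exact Subgroup.mul_mem _ hm₀G h6
  have hu : piG F (uT 1) ∈ GamK (frobSub F p 1) := by
    apply piG_mem_GamK
    refine ⟨?_, ?_, ?_, ?_⟩ <;> simp [Subfield.one_mem, Subfield.zero_mem]
  by_cases hG : GamK (frobSub F p 1) = ⊤
  · exact card_of_frob_one p (GamK_top_imp _ hG)
  · exfalso
    have hMeq : M = GamK (frobSub F p 1) := by
      by_contra hne'
      exact hG (hM.2 _ (lt_of_le_of_ne hMG hne'))
    rw [← hMeq] at hu
    apply hpM
    rw [← orderOf_piG_uT (F := F) p]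
    exact Subgroup.orderOf_dvd_natCard M hu

end Cfsg.Agent.H18.Pg
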