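import Mathlib
import Cfsg.Agent.H18.Pgl4

/-!
# Maximal subgroups of `PGL(2, q)`, `q` odd: the `S₄` case (helper18)
-/

set_option autoImplicit false
set_option linter.unusedSectionVars false
set_option linter.unusedVariables false
set_option linter.deprecated false
set_option linter.unusedSimpArgs false
set_option linter.style.haveILetI false
set_option linter.unnecessarySeqFocus false

namespace Cfsg.Agent.H18.Pg

open Matrix Cfsg.Agent.H65.SL2 Cfsg.Agent.H29.Dk Cfsg.Agent.H18.Dk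

theorem s4_conj_a : ∀ σ : Equiv.Perm (Fin 4),
    σ * s4a * σ⁻¹ = s4a ∨ σ * s4a * σ⁻¹ = s4b ∨ σ * s4a * σ⁻¹ = s4a * s4b := by decide

theorem s4_conj_b : ∀ σ : Equiv.Perm (Fin 4),
    σ * s4b * σ⁻¹ = s4a ∨ σ * s4b * σ⁻¹ = s4b ∨ σ * s4b * σ⁻¹ = s4a * s4b := by decide

theorem s4_sq_a : ∃ c : Equiv.Perm (Fin 4), c * c = s4a := by decide

theorem s4_sq_b : ∃ c : Equiv.Perm (Fin 4), c * c = s4b := by decide

theorem mod8_of_not_dvd (q c : ℕ) (hodd : Odd q) (h : 2 * c = q * (q ^ 2 - 1)) (h8 : ¬ 8 ∣ c) :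
    q % 8 = 3 ∨ q % 8 = 5 := by
  by_contra hcon
  have hr : q % 8 = 1 ∨ q % 8 = 7 := by
    have := Nat.odd_iff.1 hodd
    omega
  apply h8
  rcases hr with hr | hr
  · obtain ⟨j, hj⟩ : ∃ j, q = 8 * j + 1 := ⟨q / 8, by omega⟩
    have e : q ^ 2 - 1 = 16 * (j * (4 * j + 1)) := by
      have : q ^ 2 = 16 * (j * (4 * j + 1)) + 1 := by rw [hj]; ring
      omega
    rw [e] at h
    refine ⟨q * (j * (4 * j + 1)), ?_⟩
    have : q * (16 * (j * (4 * j + 1))) = 2 * (8 * (q * (j * (4 * j + 1)))) := by ring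
    omega
  · obtain ⟨j, hj⟩ : ∃ j, q = 8 * j + 7 := ⟨q / 8, by omega⟩
    have e : q ^ 2 - 1 = 16 * (4 * j * j + 7 * j + 3) := by
      have : q ^ 2 = 16 * (4 * j * j + 7 * j + 3) + 1 := by rw [hj]; ring
      omega
    rw [e] at h
    refine ⟨q * (4 * j * j + 7 * j + 3), ?_⟩
    have : q * (16 * (4 * j * j + 7 * j + 3)) = 2 * (8 * (q * (4 * j * j + 7 * j + 3))) := by ring
    omega

variable {F : Type*} [Field F] [Fintype F]

theorem klein_mod8 (hodd : Odd (Fintype.card F))
    (V : Subgroup (Matrix.ProjectiveSpecialLinearGroup (Fin 2) F)) (hV : Nat.card V = 4)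
    (hN : Nat.card (Subgroup.normalizer
      (V : Set (Matrix.ProjectiveSpecialLinearGroup (Fin 2) F))) ∣ 12) :
    Fintype.card F % 8 = 3 ∨ Fintype.card F % 8 = 5 := by
  classical
  haveI : Fact (Nat.Prime 2) := ⟨Nat.prime_two⟩
  apply mod8_of_not_dvd _ _ hodd (card_PSL2_odd hodd)
  intro hdvd
  have hV' : Nat.card V = 2 ^ 2 := by rw [hV]; norm_num
  have hdvd' : 2 ^ (2 + 1) ∣ Nat.card (Matrix.ProjectiveSpecialLinearGroup (Fin 2) F) := hdvd
  obtain ⟨K, hK, hVK⟩ := Sylow.exists_subgroup_card_pow_succ hdvd' hV'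
  have hidx : (V.subgroupOf K).index = 2 := by
    have h1 := Subgroup.card_mul_index (V.subgroupOf K)
    have h2 : Nat.card (V.subgroupOf K) = Nat.card V :=
      Nat.card_congr (Subgroup.subgroupOfEquivOfLe hVK).toEquiv
    rw [h2, hV, hK] at h1
    omega
  haveI := Subgroup.normal_of_index_eq_two hidx
  have hKN : K ≤ Subgroup.normalizer (V : Set _) :=
    Subgroup.le_normalizer_of_normal_subgroupOf hVK
  have h5 := Subgroup.card_dvd_of_le hKN
  rw [hK] at h5
  have h6 := h5.trans hN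
  norm_num at h6

theorem not_dvd_of_hss (p : ℕ) [Fact p.Prime] [CharP F p] (hodd : Odd (Fintype.card F))
    (M : Subgroup (Matrix.ProjGenLinGroup (Fin 2) F)) (hMnL : ¬ M ≤ (piG F).range)
    (hss : ∀ x ∈ M.comap (piG F), x ∉ (Ze : Subgroup _) → tr x ^ 2 ≠ 4) :
    ¬ p ∣ Nat.card M := by
  have h2 : (2 : F) ≠ 0 := Cfsg.Agent.H44.two_ne_zero_of_odd hodd
  have hp : p.Prime := Fact.out
  have hp2 : p ≠ 2 := by
    rintro rfl
    exact h2 CharTwo.two_eq_zero
  have hcard := card_of_not_le hodd M hMnL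
  have hZ := Ze_le_comap_piG M
  have h5 := card_map_piG hodd hZ
  rw [map_comap_piG] at h5
  have h6 := card_map_mkP hZ
  have hZ2 : Nat.card (Ze : Subgroup (Matrix.SpecialLinearGroup (Fin 2) F)) = 2 := by
    rw [card_Ze]
    obtain ⟨j, hj⟩ := hodd
    rw [hj, Nat.add_sub_cancel]
    simp
  rw [hZ2] at h6
  have h7 := not_dvd_card_of_semi p h2 _ hZ hss
  have h8 : Nat.card ↥((M.comap (piG F)).map (mkP F)) =
      Nat.card (M ⊓ (piG F).range : Subgroup _) := by omega
  rw [h8] at h7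
  rw [hcard]
  intro hdvd
  rcases (Nat.Prime.dvd_mul hp).1 hdvd with h | h
  · exact hp2 ((Nat.prime_dvd_prime_iff_eq hp Nat.prime_two).1 h)
  · exact h7 h

/-- **The `S₄` case.** -/
theorem s4_pgl (p : ℕ) [Fact p.Prime] [CharP F p] (hodd : Odd (Fintype.card F))
    (h3 : 3 < Fintype.card F)
    (M : Subgroup (Matrix.ProjGenLinGroup (Fin 2) F)) (hM : IsCoatom M)
    (hML : ¬ (piG F).range ≤ M)
    (hss : ∀ x ∈ M.comap (piG F), x ∉ (Ze : Subgroup _) → tr x ^ 2 ≠ 4)
    (f : M ≃* Equiv.Perm (Fin 4)) :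
    Fintype.card F = p ∧ (Fintype.card F % 8 = 3 ∨ Fintype.card F % 8 = 5) := by
  classical
  haveI := finite_PGL (F := F)
  have h2 : (2 : F) ≠ 0 := Cfsg.Agent.H44.two_ne_zero_of_odd hodd
  have hMnL := not_le_LG hodd hM hML
  have hcard := card_of_not_le hodd M hMnL
  have hcardM : Nat.card M = 24 := (Nat.card_congr f.toEquiv).trans card_S4
  have hpM := not_dvd_of_hss p hodd M hMnL hss
  obtain ⟨φ, hφ⟩ : ∃ φ : Equiv.Perm (Fin 4) →* Matrix.ProjGenLinGroup (Fin 2) F,
      φ = M.subtype.comp f.symm.toMonoidHom := ⟨_, rfl⟩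
  have hφinj : Function.Injective φ := by
    intro x y h
    rw [hφ] at h
    exact f.symm.injective (Subtype.ext h)
  have hφM : ∀ σ, φ σ ∈ M := fun σ => by rw [hφ]; exact (f.symm σ).2
  have hφf : ∀ m (hm : m ∈ M), φ (f ⟨m, hm⟩) = m := by
    intro m hm
    rw [hφ]
    show ((f.symm (f ⟨m, hm⟩) : M) : Matrix.ProjGenLinGroup (Fin 2) F) = m
    rw [MulEquiv.symm_apply_apply]
  obtain ⟨h1, h2', h3', h4, h5', h6, -, -⟩ := s4_pair
  have hIP0 : Cfsg.Agent.H18.InvPair s4a s4b := invPair_of ⟨h1, h2', h3', h4, h5', h6⟩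
  have hIP : Cfsg.Agent.H18.InvPair (φ s4a) (φ s4b) := invPair_map φ hφinj hIP0
  obtain ⟨a, ha⟩ : ∃ a, a = φ s4a := ⟨_, rfl⟩
  obtain ⟨b, hb⟩ : ∃ b, b = φ s4b := ⟨_, rfl⟩
  rw [← ha, ← hb] at hIP
  have haM : a ∈ M := by rw [ha]; exact hφM _
  have hbM : b ∈ M := by rw [hb]; exact hφM _
  have haL : a ∈ (piG F).range := by
    obtain ⟨c, hc⟩ := s4_sq_a
    have e : a = φ c * φ c := by rw [ha, ← map_mul, hc]
    rw [e]; exact sq_mem_LG _
  have hbL : b ∈ (piG F).range := by
    obtain ⟨c, hc⟩ := s4_sq_b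
    have e : b = φ c * φ c := by rw [hb, ← map_mul, hc]
    rw [e]; exact sq_mem_LG _
  have ha1 : a ≠ 1 := by
    intro h
    rw [ha] at h
    exact h1 (hφinj (by rw [h, map_one]))
  have hb1 : b ≠ 1 := by
    intro h
    rw [hb] at h
    exact h2' (hφinj (by rw [h, map_one]))
  have hab_ne : a ≠ b := fun h => h3' (hφinj (by rw [← ha, ← hb]; exact h))
  have haa : a * a = 1 := by rw [ha, ← map_mul, h4, map_one]
  have hbb : b * b = 1 := by rw [hb, ← map_mul, h5', map_one]
  have habc : a * b = b * a := by rw [ha, hb, ← map_mul, ← map_mul, h6]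
  have hconjM : ∀ m ∈ M, (m * a * m⁻¹ = a ∨ m * a * m⁻¹ = b ∨ m * a * m⁻¹ = a * b) ∧
      (m * b * m⁻¹ = a ∨ m * b * m⁻¹ = b ∨ m * b * m⁻¹ = a * b) := by
    intro m hm
    have e : ∀ σ, m * φ σ * m⁻¹ = φ (f ⟨m, hm⟩ * σ * (f ⟨m, hm⟩)⁻¹) := by
      intro σ; rw [map_mul, map_mul, map_inv, hφf]
    constructor
    · rw [ha, e]
      rcases s4_conj_a (f ⟨m, hm⟩) with h | h | h <;> rw [h]
      · left; rfl
      · right; left; exact hb.symm
      · right; right; rw [map_mul, hb]
    · rw [hb, e]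
      rcases s4_conj_b (f ⟨m, hm⟩) with h | h | h <;> rw [h]
      · left; exact ha.symm
      · right; left; rfl
      · right; right; rw [map_mul, ha]
  have hAV : a ∈ Cfsg.Agent.H18.pairSubgroup a b hIP :=
    (Cfsg.Agent.H18.mem_pairSubgroup a b hIP a).2 (Or.inr (Or.inl rfl))
  have hBV : b ∈ Cfsg.Agent.H18.pairSubgroup a b hIP :=
    (Cfsg.Agent.H18.mem_pairSubgroup a b hIP b).2 (Or.inr (Or.inr (Or.inl rfl)))
  have hABV : a * b ∈ Cfsg.Agent.H18.pairSubgroup a b hIP :=
    (Cfsg.Agent.H18.mem_pairSubgroup a b hIP _).2 (Or.inr (Or.inr (Or.inr rfl)))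
  have hVL : Cfsg.Agent.H18.pairSubgroup a b hIP ≤ (piG F).range := by
    intro n hn
    rcases (Cfsg.Agent.H18.mem_pairSubgroup a b hIP n).1 hn with rfl | rfl | rfl | rfl
    · exact Subgroup.one_mem _
    · exact haL
    · exact hbL
    · exact Subgroup.mul_mem _ haL hbL
  have hVM : Cfsg.Agent.H18.pairSubgroup a b hIP ≤ M := by
    intro n hn
    rcases (Cfsg.Agent.H18.mem_pairSubgroup a b hIP n).1 hn with rfl | rfl | rfl | rfl
    · exact Subgroup.one_mem _
    · exact haM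
    · exact hbM
    · exact Subgroup.mul_mem _ haM hbM
  have hVne : Cfsg.Agent.H18.pairSubgroup a b hIP ≠ ⊥ := by
    intro h
    have h5 := hAV
    rw [h, Subgroup.mem_bot] at h5
    exact ha1 h5
  have hnormV : M ≤ Subgroup.normalizer ((Cfsg.Agent.H18.pairSubgroup a b hIP : Subgroup _) :
      Set (Matrix.ProjGenLinGroup (Fin 2) F)) := by
    intro m hm
    apply Subgroup.mem_normalizer_fintype
    intro n hn
    obtain ⟨hmA, hmB⟩ := hconjM m hm
    have hAV' : m * a * m⁻¹ ∈ Cfsg.Agent.H18.pairSubgroup a b hIP := by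
      rcases hmA with h | h | h <;> rw [h]
      · exact hAV
      · exact hBV
      · exact hABV
    have hBV' : m * b * m⁻¹ ∈ Cfsg.Agent.H18.pairSubgroup a b hIP := by
      rcases hmB with h | h | h <;> rw [h]
      · exact hAV
      · exact hBV
      · exact hABV
    rcases (Cfsg.Agent.H18.mem_pairSubgroup a b hIP n).1 hn with rfl | rfl | rfl | rfl
    · rw [mul_one, mul_inv_cancel]; exact Subgroup.one_mem _
    · exact hAV'
    · exact hBV'
    · have e : m * (a * b) * m⁻¹ = (m * a * m⁻¹) * (m * b * m⁻¹) := by group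
      rw [e]; exact Subgroup.mul_mem _ hAV' hBV'
  have hNeq := normalizer_eq_of_coatom (by omega) hM hVL hVne (fun h => hML (h.trans hVM)) hnormV
  -- `q mod 8`
  have hmod : Fintype.card F % 8 = 3 ∨ Fintype.card F % 8 = 5 := by
    have hinj := Matrix.ProjectiveSpecialLinearGroup.toPGL_injective (n := Fin 2) (R := F)
    have hVr : Cfsg.Agent.H18.pairSubgroup a b hIP ≤
        (Matrix.ProjectiveSpecialLinearGroup.toPGL (n := Fin 2) (R := F)).range := by
      rw [← piG_range]; exact hVL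
    have hV'card : Nat.card ((Cfsg.Agent.H18.pairSubgroup a b hIP).comap
        (Matrix.ProjectiveSpecialLinearGroup.toPGL (n := Fin 2) (R := F))) = 4 := by
      rw [← Cfsg.Agent.H18.card_pairSubgroup a b hIP]
      have e := ((Cfsg.Agent.H18.pairSubgroup a b hIP).comap
        (Matrix.ProjectiveSpecialLinearGroup.toPGL (n := Fin 2) (R := F))).equivMapOfInjective
          _ hinj
      rw [Nat.card_congr e.toEquiv, Subgroup.map_comap_eq_self hVr]
    apply klein_mod8 hodd _ hV'card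
    have hle : (Subgroup.normalizer (((Cfsg.Agent.H18.pairSubgroup a b hIP).comap
        (Matrix.ProjectiveSpecialLinearGroup.toPGL (n := Fin 2) (R := F)) : Subgroup _) :
        Set (Matrix.ProjectiveSpecialLinearGroup (Fin 2) F))).map
        (Matrix.ProjectiveSpecialLinearGroup.toPGL (n := Fin 2) (R := F)) ≤
        M ⊓ (piG F).range := by
      rintro _ ⟨x, hx, rfl⟩
      refine ⟨?_, by rw [piG_range]; exact ⟨x, rfl⟩⟩
      rw [← hNeq]
      apply Subgroup.mem_normalizer_fintype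
      intro n hn
      obtain ⟨n', rfl⟩ := hVr hn
      have h1 : x * n' * x⁻¹ ∈ (Cfsg.Agent.H18.pairSubgroup a b hIP).comap
          (Matrix.ProjectiveSpecialLinearGroup.toPGL (n := Fin 2) (R := F)) :=
        (Subgroup.mem_normalizer_iff.1 hx n').1 hn
      rw [Subgroup.mem_comap, map_mul, map_mul, map_inv] at h1
      exact h1
    have h12 : Nat.card (M ⊓ (piG F).range : Subgroup _) = 12 := by omega
    have e := (Subgroup.normalizer (((Cfsg.Agent.H18.pairSubgroup a b hIP).comap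
        (Matrix.ProjectiveSpecialLinearGroup.toPGL (n := Fin 2) (R := F)) : Subgroup _) :
        Set (Matrix.ProjectiveSpecialLinearGroup (Fin 2) F))).equivMapOfInjective _ hinj
    rw [Nat.card_congr e.toEquiv, ← h12]
    exact Subgroup.card_dvd_of_le hle
  have hnsq : ¬ IsSquare (2 : F) := by
    rw [FiniteField.isSquare_two_iff]; omega
  -- lifts
  obtain ⟨I, hI⟩ := haL
  obtain ⟨J, hJ⟩ := hbL
  have hIZ : I ∉ (Ze : Subgroup _) := fun h => ha1 (by rw [← hI]; exact piG_eq_one_iff.2 h)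
  have hJZ : J ∉ (Ze : Subgroup _) := fun h => hb1 (by rw [← hJ]; exact piG_eq_one_iff.2 h)
  have hI2 : I * I = -1 := by
    apply mul_self_of_tr_zero
    apply tr_of_sq_mem_Ze hIZ
    rw [pow_two]
    apply piG_eq_one_iff.1
    rw [map_mul, hI]; exact haa
  have hJ2 : J * J = -1 := by
    apply mul_self_of_tr_zero
    apply tr_of_sq_mem_Ze hJZ
    rw [pow_two]
    apply piG_eq_one_iff.1
    rw [map_mul, hJ]; exact hbb
  have hIJ : I * J = -(J * I) := by
    have h7 : piG F (I * J) = piG F (J * I) := by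
      rw [map_mul, map_mul, hI, hJ]; exact habc
    rcases piG_eq_cases h7 with h | h
    · exfalso
      have h8 : (I * J) * (I * J) = 1 := by
        calc (I * J) * (I * J) = I * (J * I) * J := by group
          _ = I * (I * J) * J := by rw [h]
          _ = (I * I) * (J * J) := by group
          _ = 1 := by rw [hI2, hJ2]; simp
      have h9 := mem_Ze_of_mul_self h2 h8
      have h10 : a * b = 1 := by
        rw [← hI, ← hJ, ← map_mul]; exact piG_eq_one_iff.2 h9
      apply hab_ne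
      calc a = a * (b * b) := by rw [hbb, mul_one]
        _ = (a * b) * b := by group
        _ = b := by rw [h10, one_mul]
    · rw [h, neg_neg]
  obtain ⟨α, β, hα, hβ, hαβ⟩ := exists_sq_add_sq (F := F) p
  obtain ⟨P, hP, hPI, hPJ⟩ := exists_canon h2 hI2 hJ2 hIJ hαβ
  obtain ⟨c, hc⟩ : ∃ c, c = Matrix.ProjGenLinGroup.mk (GeneralLinearGroup.mkOfDetNeZero P hP) :=
    ⟨_, rfl⟩
  have hcI : c * a * c⁻¹ = piG F wE := by rw [← hPI, piG_conjHom, hI, hc]
  have hcJ : c * b * c⁻¹ = piG F (jE α β hαβ) := by rw [← hPJ, piG_conjHom, hJ, hc]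
  have hM' := Cfsg.Agent.H64.MX.isCoatom_map (MulAut.conj c) hM
  have hML' := not_le_conj hML c
  have hcard' : Nat.card (M.map (MulAut.conj c).toMonoidHom) = Nat.card M := card_map_conj M c
  have hq := s4_core p hodd h3 (M.map (MulAut.conj c).toMonoidHom) hM' hML'
    (by rw [hcard']; exact hpM) ?_ hnsq α β hα hβ hαβ ?_ ?_ ?_
  · exact ⟨hq, hmod⟩
  · rintro m' ⟨m, hm, rfl⟩
    have key : ∀ n : ℕ, (f ⟨m, hm⟩) ^ n = 1 → ((MulAut.conj c).toMonoidHom m) ^ n = 1 := by
      intro n h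
      rw [← map_pow]
      have h5 : m ^ n = 1 := by
        have h6 := congrArg f.symm h
        rw [map_pow, MulEquiv.symm_apply_apply, map_one] at h6
        have h7 := congrArg Subtype.val h6
        simpa using h7
      rw [h5, map_one]
    rcases s4_pow (f ⟨m, hm⟩) with h | h | h
    · left; exact key 2 h
    · right; left; exact key 3 h
    · right; right; exact key 4 h
  · rw [← hcI]; exact mem_conj_of_mem c haM
  · rw [← hcJ]; exact mem_conj_of_mem c hbM
  · rintro m' ⟨m, hm, rfl⟩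
    have e : ∀ y, (c * m * c⁻¹) * (c * y * c⁻¹) * (c * m * c⁻¹)⁻¹ = c * (m * y * m⁻¹) * c⁻¹ := by
      intro y; group
    have e2 : (MulAut.conj c).toMonoidHom m = c * m * c⁻¹ := rfl
    obtain ⟨hA, hB⟩ := hconjM m hm
    rw [← hcI, ← hcJ, e2, e, e]
    constructor
    · rcases hA with h | h | h <;> rw [h]
      · left; rfl
      · right; left; rfl
      · right; right; group
    · rcases hB with h | h | h <;> rw [h]
      · left; rfl
      · right; left; rfl
      · right; right; group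

end Cfsg.Agent.H18.Pg
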