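import Mathlib
import Cfsg.Agent.H18.Pgl5

/-!
# Maximal subgroups of `PGL(2, q)`, `q` odd: the Borel case and `A₅` in characteristic `3`
(helper18)
-/

set_option autoImplicit false
set_option linter.unusedSectionVars false
set_option linter.unusedVariables false
set_option linter.deprecated false
set_option linter.unusedSimpArgs false
set_option linter.style.haveILetI false
set_option linter.unnecessarySeqFocus false

namespace Cfsg.Agent.H18.Pg

open Matrix Cfsg.Agent.H65.SL2 Cfsg.Agent.H29.Dk Cfsg.Agent.H18.Dk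

variable {F : Type*} [Field F]

theorem mat_eq_entries {G X Y : Matrix (Fin 2) (Fin 2) F} (h : G * X = Y * G) :
    G 0 0 * X 0 0 + G 0 1 * X 1 0 = Y 0 0 * G 0 0 + Y 0 1 * G 1 0 ∧
    G 0 0 * X 0 1 + G 0 1 * X 1 1 = Y 0 0 * G 0 1 + Y 0 1 * G 1 1 ∧
    G 1 0 * X 0 0 + G 1 1 * X 1 0 = Y 1 0 * G 0 0 + Y 1 1 * G 1 0 ∧
    G 1 0 * X 0 1 + G 1 1 * X 1 1 = Y 1 0 * G 0 1 + Y 1 1 * G 1 1 := by
  refine ⟨?_, ?_, ?_, ?_⟩
  · have := congrFun (congrFun h 0) 0
    simpa [Matrix.mul_apply, Fin.sum_univ_two] using this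
  · have := congrFun (congrFun h 0) 1
    simpa [Matrix.mul_apply, Fin.sum_univ_two] using this
  · have := congrFun (congrFun h 1) 0
    simpa [Matrix.mul_apply, Fin.sum_univ_two] using this
  · have := congrFun (congrFun h 1) 1
    simpa [Matrix.mul_apply, Fin.sum_univ_two] using this

/-- Conjugating an element of `M ∩ PSL₂` by an element of `M`, on the level of matrices. -/
theorem exists_lift_conj (M : Subgroup (Matrix.ProjGenLinGroup (Fin 2) F))
    (g : GL (Fin 2) F) (hg : Matrix.ProjGenLinGroup.mk g ∈ M)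
    (x : Matrix.SpecialLinearGroup (Fin 2) F) (hx : piG F x ∈ M) :
    ∃ y' ∈ M.comap (piG F), g.1 * x.1 = y'.1 * g.1 := by
  have h1 : Matrix.ProjGenLinGroup.mk g * piG F x * (Matrix.ProjGenLinGroup.mk g)⁻¹ ∈ M :=
    M.mul_mem (M.mul_mem hg hx) (M.inv_mem hg)
  have h2 : Matrix.ProjGenLinGroup.mk g * piG F x * (Matrix.ProjGenLinGroup.mk g)⁻¹ ∈
      (piG F).range := (conj_mem_LG_iff _ _).2 ⟨x, rfl⟩
  obtain ⟨y, hy⟩ := h2
  obtain ⟨y', hy', heq⟩ := lift_conj g x y hy.symm
  refine ⟨y', ?_, heq⟩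
  rw [Subgroup.mem_comap]
  rcases hy' with rfl | rfl
  · rw [hy]; exact h1
  · rw [piG_neg, hy]; exact h1

theorem gl_det_eq (g : GL (Fin 2) F) : g.1.det = g.1 0 0 * g.1 1 1 - g.1 0 1 * g.1 1 0 :=
  Matrix.det_fin_two g.1

section Fin

variable [Fintype F]

/-- **The Borel case.** -/
theorem borel_pgl (hodd : Odd (Fintype.card F)) (h3 : 3 < Fintype.card F)
    (M : Subgroup (Matrix.ProjGenLinGroup (Fin 2) F)) (hM : IsCoatom M)
    (hML : ¬ (piG F).range ≤ M) (h1 : piG F (uT 1) ∈ M)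
    (hB : M.comap (piG F) ≤ (Bo : Subgroup _)) :
    Nat.card M = Fintype.card F * (Fintype.card F - 1) := by
  classical
  haveI := finite_PGL (F := F)
  have hMnL := not_le_LG hodd hM hML
  have hcard := card_of_not_le hodd M hMnL
  have hup : ∀ g : GL (Fin 2) F, Matrix.ProjGenLinGroup.mk g ∈ M → g.1 1 0 = 0 := by
    intro g hg
    obtain ⟨y', hy', heq⟩ := exists_lift_conj M g hg (uT 1) h1
    have hy10 : y'.1 1 0 = 0 := mem_Bo.1 (hB hy')
    obtain ⟨-, -, e3, e4⟩ := mat_eq_entries heq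
    simp only [uT00, uT01, uT10, uT11, hy10] at e3 e4
    by_contra hc
    have h5 : y'.1 1 1 = 1 := by
      have : g.1 1 0 * (1 - y'.1 1 1) = 0 := by linear_combination e3
      rcases mul_eq_zero.1 this with h | h
      · exact absurd h hc
      · linear_combination -h
    rw [h5] at e4
    apply hc
    linear_combination e4
  have hUnorm : M ≤ Subgroup.normalizer (((Un : Subgroup _).map (piG F) : Subgroup _) :
      Set (Matrix.ProjGenLinGroup (Fin 2) F)) := by
    intro m hm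
    induction m using Matrix.ProjGenLinGroup.induction_on with | mk g =>
    have hg10 := hup g hm
    have hdet := gl_det_ne_zero g
    rw [gl_det_eq, hg10, mul_zero, sub_zero] at hdet
    have hg11 : g.1 1 1 ≠ 0 := right_ne_zero_of_mul hdet
    apply Subgroup.mem_normalizer_fintype
    rintro n ⟨u, hu, rfl⟩
    have hu' := eq_uT_of_mem_Un hu
    have e : Matrix.ProjGenLinGroup.mk g * piG F u * (Matrix.ProjGenLinGroup.mk g)⁻¹ =
        piG F (uT (u.1 0 1 * g.1 0 0 / g.1 1 1)) := by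
      apply conj_of_lift
      rw [hu']
      ext i j
      fin_cases i <;> fin_cases j <;>
        simp [uT, Matrix.mul_apply, Fin.sum_univ_two, hg10]
      field_simp
      ring
    rw [SetLike.mem_coe, e]
    exact Subgroup.mem_map_of_mem _ (uT_mem_Un _)
  have hU_le : (Un : Subgroup _).map (piG F) ≤ (piG F).range := by
    rintro n ⟨u, hu, rfl⟩; exact ⟨u, rfl⟩
  have hU_ne : (Un : Subgroup (Matrix.SpecialLinearGroup (Fin 2) F)).map (piG F) ≠ ⊥ := by
    intro h
    have h5 : piG F (uT (1 : F)) ∈ (Un : Subgroup _).map (piG F) :=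
      Subgroup.mem_map_of_mem _ (uT_mem_Un _)
    rw [h, Subgroup.mem_bot] at h5
    exact uT_one_not_mem_Ze (piG_eq_one_iff.1 h5)
  have hU_nL : ¬ (piG F).range ≤ (Un : Subgroup _).map (piG F) := by
    intro h
    obtain ⟨a, ha, b, hb, hab⟩ := LG_noncomm (F := F)
    obtain ⟨u₁, hu₁, rfl⟩ := h ha
    obtain ⟨u₂, hu₂, rfl⟩ := h hb
    apply hab
    rw [← map_mul, ← map_mul, eq_uT_of_mem_Un hu₁, eq_uT_of_mem_Un hu₂, ← uT_add, ← uT_add,
      add_comm]
  have hNeq := normalizer_eq_of_coatom (by omega) hM hU_le hU_ne hU_nL hUnorm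
  have hBo : (Bo : Subgroup _) ≤ M.comap (piG F) := by
    intro x hx
    rw [Subgroup.mem_comap, ← hNeq]
    apply Subgroup.mem_normalizer_fintype
    rintro n ⟨u, hu, rfl⟩
    rw [SetLike.mem_coe, ← map_inv, ← map_mul, ← map_mul]
    exact Subgroup.mem_map_of_mem _ (conj_mem_Un hx hu)
  have hEq : M.comap (piG F) = Bo := le_antisymm hB hBo
  have h5 := card_map_piG hodd (Ze_le_comap_piG M)
  rw [map_comap_piG, hEq, card_Bo] at h5
  rw [hcard, ← h5]

theorem three_pow_mod4 (n : ℕ) (h5 : 5 ∣ 3 ^ n * ((3 ^ n) ^ 2 - 1)) : 3 ^ n % 4 = 1 := by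
  rcases Nat.even_or_odd' n with ⟨k, rfl | rfl⟩
  · rw [pow_mul, Nat.pow_mod]; norm_num
  · exfalso
    have h9 : ∀ k : ℕ, 9 ^ k % 5 = 1 ∨ 9 ^ k % 5 = 4 := by
      intro k
      induction k with
      | zero => left; norm_num
      | succ k ih =>
        rw [pow_succ, Nat.mul_mod]
        rcases ih with h | h <;> rw [h] <;> norm_num
    have hx : 3 ^ (2 * k + 1) % 5 = 3 ∨ 3 ^ (2 * k + 1) % 5 = 2 := by
      have e9 : (3 : ℕ) ^ (2 * k + 1) = 9 ^ k * 3 := by rw [pow_succ, pow_mul]; norm_num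
      rw [e9, Nat.mul_mod]
      rcases h9 k with h | h <;> rw [h] <;> norm_num
    obtain ⟨x, hxdef⟩ : ∃ x, x = 3 ^ (2 * k + 1) := ⟨_, rfl⟩
    rw [← hxdef] at hx h5
    have hx2 : x ^ 2 % 5 = 4 := by
      rw [Nat.pow_mod]
      rcases hx with h | h <;> rw [h] <;> norm_num
    rcases (Nat.Prime.dvd_mul (by norm_num : Nat.Prime 5)).1 h5 with h | h
    · omega
    · omega

/-- **No `A₅`-type maximal subgroups** in characteristic `3`. -/
theorem a5_pgl (hc3 : CharP F 3) (hodd : Odd (Fintype.card F)) (h3 : 3 < Fintype.card F)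
    (M : Subgroup (Matrix.ProjGenLinGroup (Fin 2) F)) (hM : IsCoatom M)
    (hML : ¬ (piG F).range ≤ M) (h1 : piG F (uT 1) ∈ M)
    (fA : ↥((M.comap (piG F)).map (mkP F)) ≃* alternatingGroup (Fin 5)) : False := by
  classical
  haveI := finite_PGL (F := F)
  haveI : Fact (Nat.Prime 3) := ⟨by norm_num⟩
  have h2 : (2 : F) ≠ 0 := Cfsg.Agent.H44.two_ne_zero_of_odd hodd
  have hMnL := not_le_LG hodd hM hML
  have hcard := card_of_not_le hodd M hMnL
  have hZ := Ze_le_comap_piG M
  have h5 := card_map_piG hodd hZ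
  rw [map_comap_piG] at h5
  have h6 := card_map_mkP hZ
  have hZ2 : Nat.card (Ze : Subgroup (Matrix.SpecialLinearGroup (Fin 2) F)) = 2 := by
    rw [card_Ze]
    obtain ⟨j, hj⟩ := hodd
    rw [hj, Nat.add_sub_cancel]
    simp
  rw [hZ2, Nat.card_congr fA.toEquiv, card_A5] at h6
  have hH60 : Nat.card (M ⊓ (piG F).range : Subgroup _) = 60 := by omega
  have hq4 : Fintype.card F % 4 = 1 := by
    obtain ⟨n, -, hn⟩ := FiniteField.card F 3
    have hL := card_LG (F := F) hodd
    have hdvd : Nat.card (M ⊓ (piG F).range : Subgroup _) ∣ Nat.card ↥((piG F).range) :=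
      Subgroup.card_dvd_of_le inf_le_right
    rw [hH60] at hdvd
    have h5' : 5 ∣ Fintype.card F * (Fintype.card F ^ 2 - 1) := by
      rw [← hL]; exact Dvd.dvd.mul_left ((by norm_num : 5 ∣ 60).trans hdvd) 2
    rw [hn] at h5' ⊢
    exact three_pow_mod4 n h5'
  have hsq : IsSquare (-1 : F) := by
    rw [FiniteField.isSquare_neg_one_iff]; omega
  apply hMnL
  intro m hm
  obtain ⟨u, hu⟩ : ∃ u, u = piG F (uT (1 : F)) := ⟨_, rfl⟩
  rw [← hu] at h1
  have huH : u ∈ M ⊓ (piG F).range := ⟨h1, ⟨_, hu.symm⟩⟩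
  have hvH : m * u * m⁻¹ ∈ M ⊓ (piG F).range :=
    ⟨M.mul_mem (M.mul_mem hm h1) (M.inv_mem hm), (conj_mem_LG_iff _ _).2 ⟨_, hu.symm⟩⟩
  have hou : orderOf u = 3 := by rw [hu]; exact orderOf_piG_uT 3
  have hov : orderOf (m * u * m⁻¹) = 3 := by
    apply orderOf_eq_prime
    · rw [conj_pow, ← hou, pow_orderOf_eq_one, mul_one, mul_inv_cancel]
    · intro h
      have e : u = 1 := by
        have e' : u = m⁻¹ * (m * u * m⁻¹) * m := by group
        rw [e', h]; group
      rw [e, orderOf_one] at hou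
      norm_num at hou
  have hR : Nat.card (Subgroup.zpowers (⟨u, huH⟩ : ↥(M ⊓ (piG F).range))) = 3 ^ 1 := by
    rw [Nat.card_zpowers, Subgroup.orderOf_mk, hou]; norm_num
  have hQ : Nat.card (Subgroup.zpowers (⟨m * u * m⁻¹, hvH⟩ : ↥(M ⊓ (piG F).range))) = 3 ^ 1 := by
    rw [Nat.card_zpowers, Subgroup.orderOf_mk, hov]; norm_num
  obtain ⟨g, hg⟩ := conj_of_card_sylow 3 (a := 1) (m := 20) (by rw [hH60]; norm_num) (by norm_num) _ _ hR hQ
  have hmem : (⟨m * u * m⁻¹, hvH⟩ : ↥(M ⊓ (piG F).range)) ∈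
      Subgroup.zpowers (⟨m * u * m⁻¹, hvH⟩ : ↥(M ⊓ (piG F).range)) := Subgroup.mem_zpowers _
  rw [hg, mem_map_conj_iff, ← mem_powers_iff_mem_zpowers] at hmem
  obtain ⟨n, hn⟩ := (Submonoid.mem_powers_iff _ _).1 hmem
  have hn' : u ^ n = (g : Matrix.ProjGenLinGroup (Fin 2) F)⁻¹ * (m * u * m⁻¹) *
      (g : Matrix.ProjGenLinGroup (Fin 2) F) := by
    have := congrArg Subtype.val hn
    simpa using this
  have key : (g : Matrix.ProjGenLinGroup (Fin 2) F)⁻¹ * m ∈ (piG F).range := by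
    have hconj : ((g : Matrix.ProjGenLinGroup (Fin 2) F)⁻¹ * m) * piG F (uT (1 : F)) *
        ((g : Matrix.ProjGenLinGroup (Fin 2) F)⁻¹ * m)⁻¹ = piG F (uT (n : F)) := by
      have e : uT (n : F) = uT (1 : F) ^ n := by rw [uT_pow, mul_one]
      rw [e, map_pow, ← hu, hn']; group
    revert hconj
    generalize (g : Matrix.ProjGenLinGroup (Fin 2) F)⁻¹ * m = m'
    intro hconj
    induction m' using Matrix.ProjGenLinGroup.induction_on with | mk g' =>
    obtain ⟨y', hy', heq⟩ := lift_conj g' (uT 1) (uT (n : F)) hconj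
    obtain ⟨e1, e2, e3, e4⟩ := mat_eq_entries heq
    rw [mk_mem_LG_iff]
    rcases hy' with rfl | rfl
    · simp only [uT00, uT01, uT10, uT11] at e1 e2 e3 e4
      have hc : g'.1 1 0 = 0 := by linear_combination e4
      have ha : g'.1 0 0 = (n : F) * g'.1 1 1 := by linear_combination e2
      rw [gl_det_eq, hc, ha, mul_zero, sub_zero]
      have hnsq : IsSquare ((n : F)) := by
        have h30 : ((3 : ℕ) : F) = 0 := CharP.cast_eq_zero F 3
        have e : (n : F) = ((n % 3 : ℕ) : F) := by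
          conv_lhs => rw [← Nat.div_add_mod n 3]
          rw [Nat.cast_add, Nat.cast_mul, h30, zero_mul, zero_add]
        rw [e]
        have h012 : n % 3 = 0 ∨ n % 3 = 1 ∨ n % 3 = 2 := by omega
        rcases h012 with h | h | h <;> rw [h]
        · exact ⟨0, by simp⟩
        · exact ⟨1, by simp⟩
        · have e2' : ((2 : ℕ) : F) = -1 := by
            have h30' : ((3 : ℕ) : F) = 0 := h30
            push_cast at h30' ⊢
            linear_combination h30'
          rw [e2']; exact hsq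
      obtain ⟨s, hs⟩ := hnsq
      exact ⟨s * g'.1 1 1, by rw [hs]; ring⟩
    · exfalso
      simp only [uT00, uT01, uT10, uT11, Matrix.SpecialLinearGroup.coe_neg,
        Matrix.neg_apply] at e1 e2 e3 e4
      have hc : g'.1 1 0 = 0 := by
        have : 2 * g'.1 1 0 = 0 := by linear_combination e3
        rcases mul_eq_zero.1 this with h | h
        · exact absurd h h2
        · exact h
      have hd : g'.1 1 1 = 0 := by
        have : 2 * g'.1 1 1 = 0 := by linear_combination e4 - hc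
        rcases mul_eq_zero.1 this with h | h
        · exact absurd h h2
        · exact h
      apply gl_det_ne_zero g'
      rw [gl_det_eq, hc, hd]; ring
  have e : m = (g : Matrix.ProjGenLinGroup (Fin 2) F) *
      ((g : Matrix.ProjGenLinGroup (Fin 2) F)⁻¹ * m) := by group
  rw [e]
  exact Subgroup.mul_mem _ g.2.2 key

end Fin

end Cfsg.Agent.H18.Pg
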