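import Mathlib
import Cfsg.Agent.H18.Pgl7

/-!
# Maximal subgroups of `PGL(2, q)`, `q` odd: assembly (helper18)
-/

set_option autoImplicit false
set_option linter.unusedSectionVars false
set_option linter.unusedVariables false
set_option linter.deprecated false
set_option linter.unusedSimpArgs false
set_option linter.style.haveILetI false
set_option linter.unnecessarySeqFocus false

namespace Cfsg.Agent.H18.Pg

open Matrix Cfsg.Agent.H65.SL2 Cfsg.Agent.H29.Dk Cfsg.Agent.H18.Dk

theorem pglMap_eq {K F : Type*} [Field K] [Field F] (f : K →+* F) :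
    Cfsg.Agent.S0805.pglMap f = Matrix.ProjGenLinGroup.map (n := Fin 2) f := by
  ext x
  induction x using Matrix.ProjGenLinGroup.induction_on with | mk g => rfl

variable {F : Type*} [Field F] [Fintype F]

/-- A subgroup of `PGL₂(F)` has a Dickson type relative to the quadratic extension of `F`. -/
theorem dickson_pgl (p : ℕ) [Fact p.Prime] [CharP F p] (hodd : Odd (Fintype.card F))
    (M : Subgroup (Matrix.ProjGenLinGroup (Fin 2) F)) :
    ∃ (E : Type) (_ : Field E) (_ : Fintype E) (_ : CharP E p),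
      Fintype.card E = Fintype.card F ^ 2 ∧ DkP E p ↥M := by
  classical
  obtain ⟨n, -, hn⟩ := FiniteField.card F p
  have hn0 : 2 * (n : ℕ) ≠ 0 := by
    have := n.pos; omega
  haveI : Fintype (GaloisField p (2 * n)) := Fintype.ofFinite _
  have hEcard : Fintype.card (GaloisField p (2 * n)) = Fintype.card F ^ 2 := by
    rw [← Nat.card_eq_fintype_card, GaloisField.card p _ hn0, hn, ← pow_mul, mul_comm]
  obtain ⟨ι⟩ := Cfsg.Agent.S0805.exists_field_hom (F := GaloisField p (2 * n)) (K := F) 2
    hEcard.symm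
  have hoddE : Odd (Fintype.card (GaloisField p (2 * n))) := by rw [hEcard]; exact hodd.pow
  have hsq : ∀ x : F, IsSquare (ι x) := fun x =>
    Cfsg.Agent.S0805.isSquare_of_even ι hoddE 2 (by norm_num) hEcard.symm x
  have hinj := pglMap_injective ι
  have hrange : (Matrix.ProjGenLinGroup.map (n := Fin 2) ι).range ≤
      (Matrix.ProjectiveSpecialLinearGroup.toPGL (n := Fin 2)
        (R := GaloisField p (2 * n))).range := by
    rw [← pglMap_eq]; exact Cfsg.Agent.S0805.pgl_range_le ι hsq
  refine ⟨GaloisField p (2 * n), inferInstance, inferInstance, inferInstance, hEcard, ?_⟩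
  have hle : M.map (Matrix.ProjGenLinGroup.map (n := Fin 2) ι) ≤
      (Matrix.ProjectiveSpecialLinearGroup.toPGL (n := Fin 2)
        (R := GaloisField p (2 * n))).range := by
    rintro _ ⟨x, -, rfl⟩; exact hrange ⟨x, rfl⟩
  have e1 := M.equivMapOfInjective _ hinj
  have e2 := ((M.map (Matrix.ProjGenLinGroup.map (n := Fin 2) ι)).comap
    (Matrix.ProjectiveSpecialLinearGroup.toPGL (n := Fin 2)
      (R := GaloisField p (2 * n)))).equivMapOfInjective _
    Matrix.ProjectiveSpecialLinearGroup.toPGL_injective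
  rw [Subgroup.map_comap_eq_self hle] at e2
  exact DkP_congr p (e2.trans e1.symm) (dickson p _)

theorem index_subgroupOf_LG (hodd : Odd (Fintype.card F))
    (X : Subgroup (Matrix.ProjGenLinGroup (Fin 2) F)) (hX : ¬ X ≤ (piG F).range) :
    (((piG F).range).subgroupOf X).index = 2 := by
  haveI := LG_normal (F := F)
  have h1 : ((piG F).range).relIndex X ∣ 2 := by
    have := Subgroup.relIndex_dvd_index_of_normal ((piG F).range) X
    rwa [index_LG hodd] at this
  have h2 : ((piG F).range).relIndex X ≠ 1 := by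
    intro h; exact hX (Subgroup.relIndex_eq_one.1 h)
  rcases (Nat.dvd_prime Nat.prime_two).1 h1 with h | h
  · exact absurd h h2
  · exact h

theorem alt_type_false (hodd : Odd (Fintype.card F))
    (M : Subgroup (Matrix.ProjGenLinGroup (Fin 2) F)) (hMnL : ¬ M ≤ (piG F).range) (m : ℕ)
    (f : M ≃* alternatingGroup (Fin m)) : False := by
  have h1 := index_subgroupOf_LG hodd M hMnL
  apply alt_no_index_two m ((((piG F).range).subgroupOf M).comap f.symm.toMonoidHom)
  rw [Subgroup.index_comap_of_surjective _ f.symm.surjective]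
  exact h1

/-- **Maximal subgroups of `PGL(2, q)`, `q` odd.** -/
theorem main_5891 (hodd : Odd (Fintype.card F)) (h3 : 3 < Fintype.card F)
    (M : Subgroup (Matrix.ProjGenLinGroup (Fin 2) F)) (hM : IsCoatom M)
    (hML : ¬ (piG F).range ≤ M) :
    Nat.card M = Fintype.card F * (Fintype.card F - 1) ∨
    (Fintype.card F ≠ 5 ∧ Nonempty (M ≃* DihedralGroup (Fintype.card F - 1))) ∨
    Nonempty (M ≃* DihedralGroup (Fintype.card F + 1)) ∨
    ((Fintype.card F).Prime ∧ (Fintype.card F % 8 = 3 ∨ Fintype.card F % 8 = 5) ∧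
      Nonempty (M ≃* Equiv.Perm (Fin 4))) ∨
    (∃ (F₀ : Type) (_ : Field F₀) (_ : Fintype F₀) (r : ℕ), r.Prime ∧ Odd r ∧
        Fintype.card F = Fintype.card F₀ ^ r ∧
        Nonempty (M ≃* Matrix.ProjGenLinGroup (Fin 2) F₀)) := by
  classical
  obtain ⟨p, hp⟩ := CharP.exists F
  haveI : Fact p.Prime := ⟨CharP.char_is_prime F p⟩
  have h2 : (2 : F) ≠ 0 := Cfsg.Agent.H44.two_ne_zero_of_odd hodd
  have hpr : p.Prime := Fact.out
  have hp2 : p ≠ 2 := by
    rintro rfl
    exact h2 CharTwo.two_eq_zero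
  haveI := finite_PGL (F := F)
  have hMnL := not_le_LG hodd hM hML
  by_cases hss : ∀ x ∈ M.comap (piG F), x ∉ (Ze : Subgroup _) → tr x ^ 2 ≠ 4
  · have hnd := not_dvd_of_hss p hodd M hMnL hss
    obtain ⟨E, iE, iEf, iEc, hEcard, hD⟩ := dickson_pgl p hodd M
    have hpq : p ∣ Fintype.card E := by
      obtain ⟨n, -, hn⟩ := FiniteField.card F p
      rw [hEcard, hn]
      exact Dvd.dvd.pow (dvd_pow_self p (by positivity)) (by norm_num)
    rcases hD with ⟨k, hk, ⟨hc, hcard⟩ | ⟨⟨f⟩⟩⟩ | ⟨P, K, hK, ⟨f⟩⟩ | ⟨⟨f⟩⟩ | ⟨⟨f⟩⟩ | ⟨⟨f⟩⟩ |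
      ⟨K, i1, i2, m, hm, ⟨⟨f⟩⟩ | ⟨⟨f⟩⟩⟩
    · exfalso
      haveI := hc
      exact abelian_false hodd h3 M hM hML hss
        (fun a ha b hb => congrArg Subtype.val (mul_comm' (⟨a, ha⟩ : M) ⟨b, hb⟩))
    · rcases dih_pgl hodd h3 M hM hML hss k f with h | h
      · right; left; exact h
      · right; right; left; exact h
    · exfalso
      have hcK : Nat.card K = Nat.card M := (Nat.card_congr f.toEquiv).symm
      have hab := abelian_of_normalizer_sylow p P K hK (by rw [hcK]; exact hnd)
      apply abelian_false hodd h3 M hM hML hss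
      intro a ha b hb
      have h5 : f ⟨a, ha⟩ * f ⟨b, hb⟩ = f ⟨b, hb⟩ * f ⟨a, ha⟩ :=
        Subtype.ext (hab _ (f ⟨a, ha⟩).2 _ (f ⟨b, hb⟩).2)
      rw [← map_mul, ← map_mul] at h5
      exact congrArg Subtype.val (f.injective h5)
    · exact (alt_type_false hodd M hMnL 4 f).elim
    · obtain ⟨hq, h8⟩ := s4_pgl p hodd h3 M hM hML hss f
      right; right; right; left
      exact ⟨by rw [hq]; exact hpr, h8, ⟨f⟩⟩
    · exact (alt_type_false hodd M hMnL 5 f).elim
    · exfalso
      apply hnd
      have hpK : p ∣ Fintype.card K := by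
        rw [← hm] at hpq
        exact hpr.dvd_of_dvd_pow hpq
      have hc := card_PSL2_mul (F := K)
      have h3' : p ∣ Nat.gcd 2 (Fintype.card K - 1) *
          Nat.card (Matrix.ProjectiveSpecialLinearGroup (Fin 2) K) := by
        rw [hc]; exact Dvd.dvd.mul_right hpK _
      rw [Nat.card_congr f.toEquiv]
      rcases (Nat.Prime.dvd_mul hpr).1 h3' with h | h
      · exfalso
        have h4 : p ∣ 2 := h.trans (Nat.gcd_dvd_left _ _)
        exact hp2 ((Nat.prime_dvd_prime_iff_eq hpr Nat.prime_two).1 h4)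
      · exact h
    · exfalso
      apply hnd
      have hpK : p ∣ Fintype.card K := by
        rw [← hm] at hpq
        exact hpr.dvd_of_dvd_pow hpq
      rw [Nat.card_congr f.toEquiv, Cfsg.Agent.S0806.card_PGL2' K]
      exact Dvd.dvd.mul_right hpK _
  · rcases unip_pgl p hodd h3 M hM hML hss with h | h
    · left; exact h
    · right; right; right; right; exact h

end Cfsg.Agent.H18.Pg
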