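import Mathlib
import Cfsg.Agent.H18.Pgl8

/-!
# Maximal subgroups of `PGL(2, q)` meet `PSL(2, q)` maximally: transport, Borel and dihedral
cases (helper18)
-/

set_option autoImplicit false
set_option linter.unusedSectionVars false
set_option linter.unusedVariables false
set_option linter.deprecated false
set_option linter.unusedSimpArgs false
set_option linter.style.haveILetI false
set_option linter.unnecessarySeqFocus false
set_option linter.unreachableTactic false
set_option linter.unusedTactic false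

namespace Cfsg.Agent.H18.Pg

open Matrix Cfsg.Agent.H65.SL2 Cfsg.Agent.H29.Dk Cfsg.Agent.H18.Dk

theorem coatom_subgroupOf_top {G : Type*} [Group G] (M L : Subgroup G) (hL : L = ⊤)
    (hM : IsCoatom M) : IsCoatom ((M ⊓ L).subgroupOf L) := by
  subst hL
  constructor
  · intro h
    apply hM.1
    rw [eq_top_iff]
    intro x _
    have h1 : (⟨x, trivial⟩ : ↥(⊤ : Subgroup G)) ∈ (M ⊓ ⊤).subgroupOf ⊤ := by rw [h]; trivial
    exact (Subgroup.mem_subgroupOf.1 h1).1
  · intro N hN
    have h1 : M < N.map (⊤ : Subgroup G).subtype := by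
      constructor
      · intro x hx
        exact ⟨⟨x, trivial⟩, hN.le (Subgroup.mem_subgroupOf.2 ⟨hx, trivial⟩), rfl⟩
      · intro hle
        obtain ⟨n, hnN, hnM⟩ := SetLike.exists_of_lt hN
        apply hnM
        rw [Subgroup.mem_subgroupOf]
        exact ⟨hle ⟨n, hnN, rfl⟩, trivial⟩
    have h2 := hM.2 _ h1
    rw [eq_top_iff]
    intro n _
    have h3 : (n : G) ∈ N.map (⊤ : Subgroup G).subtype := by rw [h2]; trivial
    obtain ⟨n', hn', hnn'⟩ := h3
    have h4 : n' = n := Subtype.ext hnn'
    rw [← h4]; exact hn'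

variable {F : Type*} [Field F]

/-- Maximality of `M ∩ PSL₂` in `PSL₂` from maximality of the preimage in `SL₂`. -/
theorem coatom_transport (M : Subgroup (Matrix.ProjGenLinGroup (Fin 2) F))
    (h : IsCoatom (M.comap (piG F))) :
    IsCoatom ((M ⊓ (piG F).range).subgroupOf (piG F).range) := by
  constructor
  · intro htop
    apply h.1
    rw [eq_top_iff]
    intro x _
    have h1 : (⟨piG F x, ⟨x, rfl⟩⟩ : ↥(piG F).range) ∈
        (M ⊓ (piG F).range).subgroupOf (piG F).range := by rw [htop]; trivial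
    rw [Subgroup.mem_subgroupOf] at h1
    exact h1.1
  · intro N hN
    have hle : M.comap (piG F) ≤ (N.map (piG F).range.subtype).comap (piG F) := by
      intro x hx
      rw [Subgroup.mem_comap]
      refine ⟨⟨piG F x, ⟨x, rfl⟩⟩, hN.le ?_, rfl⟩
      rw [Subgroup.mem_subgroupOf]; exact ⟨hx, ⟨x, rfl⟩⟩
    have hne : M.comap (piG F) ≠ (N.map (piG F).range.subtype).comap (piG F) := by
      intro heq
      obtain ⟨n, hnN, hnH⟩ := SetLike.exists_of_lt hN
      obtain ⟨x, hx⟩ := n.2
      have h1 : x ∈ (N.map (piG F).range.subtype).comap (piG F) := by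
        rw [Subgroup.mem_comap]; exact ⟨n, hnN, hx.symm⟩
      rw [← heq] at h1
      apply hnH
      rw [Subgroup.mem_subgroupOf]
      refine ⟨?_, n.2⟩
      rw [← hx]; exact h1
    have htop := h.2 _ (lt_of_le_of_ne hle hne)
    rw [eq_top_iff]
    intro n _
    obtain ⟨x, hx⟩ := n.2
    have h1 : x ∈ (N.map (piG F).range.subtype).comap (piG F) := by rw [htop]; trivial
    obtain ⟨n', hn', hn'x⟩ := h1
    have h4 : n' = n := Subtype.ext (by rw [← hx]; exact hn'x)
    rw [← h4]; exact hn'

/-- Maximality of the preimage in `SL₂` is invariant under conjugation in `PGL₂`. -/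
theorem coatom_comap_conj (M : Subgroup (Matrix.ProjGenLinGroup (Fin 2) F))
    (c : Matrix.ProjGenLinGroup (Fin 2) F)
    (h : IsCoatom ((M.map (MulAut.conj c).toMonoidHom).comap (piG F))) :
    IsCoatom (M.comap (piG F)) := by
  have hex : ∀ y, ∃ x, piG F x = c * piG F y * c⁻¹ := fun y =>
    (conj_mem_LG_iff c _).2 ⟨y, rfl⟩
  have hex' : ∀ x, ∃ y, piG F x = c * piG F y * c⁻¹ := by
    intro x
    have h1 := (conj_mem_LG_iff c⁻¹ (piG F x)).2 ⟨x, rfl⟩
    rw [inv_inv] at h1
    obtain ⟨y, hy⟩ := h1
    refine ⟨y, ?_⟩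
    rw [hy]; group
  have hmemA : ∀ x y, piG F x = c * piG F y * c⁻¹ →
      (x ∈ (M.map (MulAut.conj c).toMonoidHom).comap (piG F) ↔ y ∈ M.comap (piG F)) := by
    intro x y hxy
    rw [Subgroup.mem_comap, mem_map_conj_iff, hxy, Subgroup.mem_comap]
    have e : c⁻¹ * (c * piG F y * c⁻¹) * c = piG F y := by group
    rw [e]
  constructor
  · intro htop
    apply h.1
    rw [eq_top_iff]
    intro x _
    obtain ⟨y, hxy⟩ := hex' x
    rw [hmemA x y hxy, htop]; trivial
  · intro N hN
    have hZN : (Ze : Subgroup _) ≤ N := (Ze_le_comap_piG M).trans hN.le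
    have hmemN' : ∀ x y, piG F x = c * piG F y * c⁻¹ →
        (x ∈ ((N.map (piG F)).map (MulAut.conj c).toMonoidHom).comap (piG F) ↔ y ∈ N) := by
      intro x y hxy
      rw [Subgroup.mem_comap, mem_map_conj_iff, hxy]
      have e : c⁻¹ * (c * piG F y * c⁻¹) * c = piG F y := by group
      rw [e, mem_map_piG hZN]
    have hle : (M.map (MulAut.conj c).toMonoidHom).comap (piG F) ≤
        ((N.map (piG F)).map (MulAut.conj c).toMonoidHom).comap (piG F) := by
      intro x hx
      obtain ⟨y, hxy⟩ := hex' x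
      rw [hmemN' x y hxy]; exact hN.le ((hmemA x y hxy).1 hx)
    have hne : (M.map (MulAut.conj c).toMonoidHom).comap (piG F) ≠
        ((N.map (piG F)).map (MulAut.conj c).toMonoidHom).comap (piG F) := by
      intro heq
      obtain ⟨n, hnN, hnB⟩ := SetLike.exists_of_lt hN
      obtain ⟨x, hx⟩ := hex n
      have h1 := (hmemN' x n hx).2 hnN
      rw [← heq] at h1
      exact hnB ((hmemA x n hx).1 h1)
    have htop := h.2 _ (lt_of_le_of_ne hle hne)
    rw [eq_top_iff]
    intro y _
    obtain ⟨x, hx⟩ := hex y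
    have h1 : x ∈ ((N.map (piG F)).map (MulAut.conj c).toMonoidHom).comap (piG F) := by
      rw [htop]; trivial
    exact (hmemN' x y hx).1 h1

/-- In even characteristic the image of `SL₂` is everything. -/
theorem LG_top_of_even [Fintype F] (he : Even (Fintype.card F)) : (piG F).range = ⊤ := by
  have h2 : (2 : F) = 0 := Cfsg.Agent.H64.MX.two_eq_zero he
  haveI : CharP F 2 := CharTwo.of_one_ne_zero_of_two_eq_zero one_ne_zero h2
  rw [eq_top_iff]
  intro y _
  induction y using Matrix.ProjGenLinGroup.induction_on with | mk g =>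
  rw [mk_mem_LG_iff]
  exact FiniteField.isSquare_of_char_two (ringChar.eq F 2) _

/-- The Borel subgroup of `SL₂` is maximal. -/
theorem Bo_coatom [Fintype F] : IsCoatom (Bo : Subgroup (Matrix.SpecialLinearGroup (Fin 2) F)) := by
  constructor
  · intro h
    have h1 : lT (1 : F) ∈ (Bo : Subgroup _) := by rw [h]; trivial
    rw [mem_Bo, lT10] at h1
    exact one_ne_zero h1
  · intro N hN
    obtain ⟨g, hgN, hgB⟩ := SetLike.exists_of_lt hN
    have hg10 : g.1 1 0 ≠ 0 := fun h => hgB (mem_Bo.2 h)
    have hu : ∀ s : F, uT s ∈ N := fun s => hN.le (Un_le_Bo (uT_mem_Un s))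
    have key : ∀ x ∈ N, x.1 1 0 ≠ 0 → lT (x.1 1 0) ∈ N := by
      intro x hx hc
      have hd := det_eq x
      have e : lT (x.1 1 0) = uT ((1 - x.1 0 0) / x.1 1 0) * x * uT ((1 - x.1 1 1) / x.1 1 0) := by
        apply ext4 <;>
          simp only [mul00, mul01, mul10, mul11, uT00, uT01, uT10, uT11, lT00, lT01, lT10, lT11]
        · field_simp; ring
        · field_simp; linear_combination hd
        · ring
        · field_simp; ring
      rw [e]
      exact N.mul_mem (N.mul_mem (hu _) hx) (hu _)
    apply sl2_gen N hu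
    intro s
    by_cases hs : s = 0
    · rw [hs, lT_zero]; exact N.one_mem
    · have ht : s / g.1 1 0 ≠ 0 := div_ne_zero hs hg10
      have hy : g * boEl 0 (Units.mk0 _ ht) ∈ N :=
        N.mul_mem hgN (hN.le (by rw [mem_Bo, boEl10]))
      have h10 : (g * boEl 0 (Units.mk0 _ ht)).1 1 0 = s := by
        rw [mul10, boEl00, boEl10, mul_zero, add_zero, Units.val_mk0]
        field_simp
      have h5 := key _ hy (by rw [h10]; exact hs)
      rwa [h10] at h5

end Cfsg.Agent.H18.Pg
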