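import Mathlib
import Cfsg.Agent.H18.Pgl10

/-!
# Maximal subgroups of `PGL(2, q)` meet `PSL(2, q)` maximally: the subfield and unipotent cases
(helper18)
-/

set_option autoImplicit false
set_option linter.unusedSectionVars false
set_option linter.unusedVariables false
set_option linter.deprecated false
set_option linter.unusedSimpArgs false
set_option linter.style.haveILetI false
set_option linter.unnecessarySeqFocus false
set_option linter.unreachableTactic false
set_option linter.unusedTactic false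

namespace Cfsg.Agent.H18.Pg

open Matrix Cfsg.Agent.H65.SL2 Cfsg.Agent.H29.Dk Cfsg.Agent.H18.Dk

theorem pow_odd_mod4 (k r : ℕ) (hk : Odd k) (hr : Odd r) : k ^ r % 4 = k % 4 := by
  obtain ⟨j, rfl⟩ := hr
  obtain ⟨i, rfl⟩ := hk
  have h1 : (2 * i + 1) ^ 2 % 4 = 1 := by
    have : (2 * i + 1) ^ 2 = 4 * (i * (i + 1)) + 1 := by ring
    rw [this]; omega
  rw [pow_succ, pow_mul, Nat.mul_mod, Nat.pow_mod, h1, Nat.one_pow]
  norm_num

variable {F : Type*} [Field F]

section Fin

variable [Fintype F]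

/-- **The subfield case** in normal form. -/
theorem field_struct (p : ℕ) [Fact p.Prime] [CharP F p] (hodd : Odd (Fintype.card F))
    (h3 : 3 < Fintype.card F)
    (M : Subgroup (Matrix.ProjGenLinGroup (Fin 2) F)) (hM : IsCoatom M)
    (hML : ¬ (piG F).range ≤ M) (K : Subfield F)
    (hK1 : ∀ k ∈ K, uT k ∈ M.comap (piG F) ∧ lT k ∈ M.comap (piG F))
    (hK2 : ∀ x ∈ M.comap (piG F), ∃ ν : F, ν ≠ 0 ∧ x.1 0 0 * ν ∈ K ∧ x.1 0 1 * ν ∈ K ∧
      x.1 1 0 * ν ∈ K ∧ x.1 1 1 * ν ∈ K) :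
    M = GamK K ∧ K ≠ ⊤ ∧ (∀ K' : Subfield F, K ≤ K' → K' ≠ ⊤ → K' ≤ K) ∧
      ∃ r : ℕ, Odd r ∧ Fintype.card F = Nat.card K ^ r := by
  classical
  haveI := finite_PGL (F := F)
  have h2 : (2 : F) ≠ 0 := Cfsg.Agent.H44.two_ne_zero_of_odd hodd
  have hMnL := not_le_LG hodd hM hML
  have h2K : (2 : F) ∈ K := by
    have := K.add_mem K.one_mem K.one_mem
    rwa [one_add_one_eq_two] at this
  have hstd : ∀ y ∈ M.comap (piG F), tr y = 2 → y ∈ stdSub K := by
    intro y hy htr
    obtain ⟨ν, hν, h00, h01, h10, h11⟩ := hK2 y hy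
    have h2ν : 2 * ν ∈ K := by
      have h5 := K.add_mem h00 h11
      have e : y.1 0 0 * ν + y.1 1 1 * ν = 2 * ν := by
        unfold tr at htr; linear_combination ν * htr
      rwa [e] at h5
    have hνK : ν ∈ K := by
      have h5 := K.mul_mem (K.inv_mem h2K) h2ν
      rwa [← mul_assoc, inv_mul_cancel₀ h2, one_mul] at h5
    have hinv := K.inv_mem hνK
    refine ⟨?_, ?_, ?_, ?_⟩
    · have := K.mul_mem h00 hinv
      rwa [mul_assoc, mul_inv_cancel₀ hν, mul_one] at this
    · have := K.mul_mem h01 hinv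
      rwa [mul_assoc, mul_inv_cancel₀ hν, mul_one] at this
    · have := K.mul_mem h10 hinv
      rwa [mul_assoc, mul_inv_cancel₀ hν, mul_one] at this
    · have := K.mul_mem h11 hinv
      rwa [mul_assoc, mul_inv_cancel₀ hν, mul_one] at this
  have hMG : M ≤ GamK K := by
    intro m hm
    induction m using Matrix.ProjGenLinGroup.induction_on with | mk g =>
    obtain ⟨y₁, hy₁, heq₁⟩ := exists_lift_conj M g hm (uT 1) (hK1 1 K.one_mem).1
    obtain ⟨y₂, hy₂, heq₂⟩ := exists_lift_conj M g hm (lT 1) (hK1 1 K.one_mem).2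
    obtain ⟨a1, a2, a3, a4⟩ := mat_eq_entries heq₁
    obtain ⟨b1, b2, b3, b4⟩ := mat_eq_entries heq₂
    simp only [uT00, uT01, uT10, uT11] at a1 a2 a3 a4
    simp only [lT00, lT01, lT10, lT11] at b1 b2 b3 b4
    have hD := gl_det_ne_zero g
    rw [gl_det_eq] at hD
    have i1 : g.1 0 0 * g.1 0 0 =
        (g.1 0 0 * g.1 1 1 - g.1 0 1 * g.1 1 0) * y₁.1 0 1 := by
      linear_combination g.1 0 0 * a2 - g.1 0 1 * a1
    have i2 : g.1 1 0 * g.1 1 0 =
        -((g.1 0 0 * g.1 1 1 - g.1 0 1 * g.1 1 0) * y₁.1 1 0) := by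
      linear_combination g.1 1 0 * a4 - g.1 1 1 * a3
    have i3 : g.1 0 0 * g.1 1 0 =
        (g.1 0 0 * g.1 1 1 - g.1 0 1 * g.1 1 0) * (y₁.1 1 1 - 1) := by
      linear_combination g.1 0 0 * a4 - g.1 0 1 * a3
    have i3' : g.1 0 0 * g.1 1 0 =
        (g.1 0 0 * g.1 1 1 - g.1 0 1 * g.1 1 0) * (1 - y₁.1 0 0) := by
      linear_combination g.1 1 0 * a2 - g.1 1 1 * a1
    have j1 : g.1 0 1 * g.1 0 1 =
        -((g.1 0 0 * g.1 1 1 - g.1 0 1 * g.1 1 0) * y₂.1 0 1) := by
      linear_combination g.1 0 1 * b1 - g.1 0 0 * b2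
    have j2 : g.1 1 1 * g.1 1 1 =
        (g.1 0 0 * g.1 1 1 - g.1 0 1 * g.1 1 0) * y₂.1 1 0 := by
      linear_combination g.1 1 1 * b3 - g.1 1 0 * b4
    have j3 : g.1 0 1 * g.1 1 1 =
        (g.1 0 0 * g.1 1 1 - g.1 0 1 * g.1 1 0) * (y₂.1 0 0 - 1) := by
      linear_combination g.1 1 1 * b1 - g.1 1 0 * b2
    have j3' : g.1 0 1 * g.1 1 1 =
        (g.1 0 0 * g.1 1 1 - g.1 0 1 * g.1 1 0) * (1 - y₂.1 1 1) := by
      linear_combination g.1 0 1 * b3 - g.1 0 0 * b4
    have htr₁ : tr y₁ = 2 := by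
      have h5 : (g.1 0 0 * g.1 1 1 - g.1 0 1 * g.1 1 0) * (y₁.1 0 0 + y₁.1 1 1 - 2) = 0 := by
        linear_combination i3' - i3
      rcases mul_eq_zero.1 h5 with h | h
      · exact absurd h hD
      · unfold tr; linear_combination h
    have htr₂ : tr y₂ = 2 := by
      have h5 : (g.1 0 0 * g.1 1 1 - g.1 0 1 * g.1 1 0) * (y₂.1 0 0 + y₂.1 1 1 - 2) = 0 := by
        linear_combination j3' - j3
      rcases mul_eq_zero.1 h5 with h | h
      · exact absurd h hD
      · unfold tr; linear_combination h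
    obtain ⟨s00, s01, s10, s11⟩ := hstd y₁ hy₁ htr₁
    obtain ⟨t00, t01, t10, t11⟩ := hstd y₂ hy₂ htr₂
    obtain ⟨μ, hμ, ha, hb, hc, hd⟩ := sn_field K (g.1 0 0) (g.1 0 1) (g.1 1 0) (g.1 1 1) hD
      (by rw [i1, mul_div_cancel_left₀ _ hD]; exact s01)
      (by rw [i3, mul_div_cancel_left₀ _ hD]; exact K.sub_mem s11 K.one_mem)
      (by rw [i2, neg_div, mul_div_cancel_left₀ _ hD]; exact K.neg_mem s10)
      (by rw [j1, neg_div, mul_div_cancel_left₀ _ hD]; exact K.neg_mem t01)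
      (by rw [j3, mul_div_cancel_left₀ _ hD]; exact K.sub_mem t00 K.one_mem)
      (by rw [j2, mul_div_cancel_left₀ _ hD]; exact t10)
    apply mk_mem_GamK K g μ hμ
    intro i j
    fin_cases i <;> fin_cases j
    · exact ha
    · exact hb
    · exact hc
    · exact hd
  have hKtop : K ≠ ⊤ := by
    intro h
    apply hML
    have htop : M.comap (piG F) = ⊤ :=
      sl2_gen _ (fun s => (hK1 s (by rw [h]; trivial)).1) (fun s => (hK1 s (by rw [h]; trivial)).2)
    rintro l ⟨x, rfl⟩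
    have hx : x ∈ M.comap (piG F) := by rw [htop]; trivial
    exact hx
  have hGtop : GamK K ≠ ⊤ := fun h => hKtop (GamK_top_imp K h)
  have hMeq : M = GamK K := by
    by_contra hne
    exact hGtop (hM.2 _ (lt_of_le_of_ne hMG hne))
  have hnoint : ∀ K' : Subfield F, K ≤ K' → K' ≠ ⊤ → K' ≤ K := by
    intro K' hKK' hK'
    have h5 : M ≤ GamK K' := hMG.trans (GamK_mono hKK')
    have h6 : M = GamK K' := by
      by_contra hne
      exact hK' (GamK_top_imp K' (hM.2 _ (lt_of_le_of_ne h5 hne)))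
    apply GamK_le_imp
    rw [← h6, hMeq]
  haveI : Fintype K := Fintype.ofFinite K
  obtain ⟨k, hkdef⟩ : ∃ k, k = Nat.card K := ⟨_, rfl⟩
  obtain ⟨r, hrdef⟩ : ∃ r, r = Module.finrank ↥K F := ⟨_, rfl⟩
  have hq : Fintype.card F = k ^ r := by
    rw [hkdef, hrdef, ← Nat.card_eq_fintype_card (α := F)]
    exact Module.natCard_eq_pow_finrank (K := ↥K) (V := F)
  have hk2 : 2 ≤ k := by
    rw [hkdef, Nat.card_eq_fintype_card]; exact Fintype.one_lt_card
  have hqF : 2 ≤ Fintype.card F := Fintype.one_lt_card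
  have hr0 : r ≠ 0 := by
    rintro rfl
    rw [pow_zero] at hq; omega
  have hr1 : r ≠ 1 := by
    rintro rfl
    rw [pow_one] at hq
    apply hKtop
    have hadd : K.toAddSubgroup = ⊤ := by
      apply AddSubgroup.eq_top_of_card_eq
      rw [Nat.card_eq_fintype_card (α := F), hq, hkdef]
      rfl
    rw [eq_top_iff]
    intro x _
    have : x ∈ K.toAddSubgroup := by rw [hadd]; exact AddSubgroup.mem_top x
    exact this
  have hrprime : r.Prime := by
    by_contra hnp
    have hr2 : 2 ≤ r := by omega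
    obtain ⟨a, b, ha, hb, hab⟩ := (Nat.not_prime_iff_exists_mul_eq hr2).1 hnp
    have ha2 : 2 ≤ a := by
      by_contra hcon
      have : a ≤ 1 := by omega
      have : a * b ≤ 1 * b := Nat.mul_le_mul_right b this
      omega
    have hb2 : 2 ≤ b := by
      by_contra hcon
      have : b ≤ 1 := by omega
      have : a * b ≤ a * 1 := Nat.mul_le_mul_left a this
      omega
    obtain ⟨K', hKK', ⟨y, hyK', hyK⟩, ⟨z, hz⟩⟩ := exists_intermediate' p K a b ha2 hb2
      (by rw [← hkdef, hab]; exact hq)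
    have hK'top : K' ≠ ⊤ := by
      intro h
      apply hz
      rw [h]; exact Subfield.mem_top z
    exact hyK (hnoint K' hKK' hK'top hyK')
  have hr2 : r ≠ 2 := by
    rintro rfl
    apply hMnL
    rw [hMeq]
    intro y hy
    induction y using Matrix.ProjGenLinGroup.induction_on with | mk g =>
    obtain ⟨μ, hμ, hμK⟩ := exists_of_mk_mem_GamK K g hy
    rw [mk_mem_LG_iff]
    have hdetK : μ * μ * g.1.det ∈ K := by
      rw [gl_det_eq]
      have h5 := K.sub_mem (K.mul_mem (hμK 0 0) (hμK 1 1)) (K.mul_mem (hμK 0 1) (hμK 1 0))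
      have e : μ * μ * (g.1 0 0 * g.1 1 1 - g.1 0 1 * g.1 1 0) =
          μ * g.1 0 0 * (μ * g.1 1 1) - μ * g.1 0 1 * (μ * g.1 1 0) := by ring
      rw [e]; exact h5
    have hcK : Fintype.card ↥K ^ 2 = Fintype.card F := by
      rw [hq, hkdef, Nat.card_eq_fintype_card]
    obtain ⟨s, hs⟩ := Cfsg.Agent.S0805.isSquare_of_even K.subtype hodd 2 (by norm_num) hcK
      ⟨_, hdetK⟩
    have hs' : μ * μ * g.1.det = s * s := hs
    refine ⟨s / μ, ?_⟩
    field_simp
    linear_combination hs'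
  have hrodd : Odd r := by
    rcases hrprime.eq_two_or_odd' with h | h
    · exact absurd h hr2
    · exact h
  exact ⟨hMeq, hKtop, hnoint, r, hrodd, by rw [← hkdef]; exact hq⟩


/-- **The subfield case**: the preimage in `SL₂` is maximal. -/
theorem field_coatom (p : ℕ) [Fact p.Prime] [CharP F p] (hodd : Odd (Fintype.card F))
    (h3 : 3 < Fintype.card F)
    (M : Subgroup (Matrix.ProjGenLinGroup (Fin 2) F)) (hM : IsCoatom M)
    (hML : ¬ (piG F).range ≤ M) (K : Subfield F)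
    (hK1 : ∀ k ∈ K, uT k ∈ M.comap (piG F) ∧ lT k ∈ M.comap (piG F))
    (hK2 : ∀ x ∈ M.comap (piG F), ∃ ν : F, ν ≠ 0 ∧ x.1 0 0 * ν ∈ K ∧ x.1 0 1 * ν ∈ K ∧
      x.1 1 0 * ν ∈ K ∧ x.1 1 1 * ν ∈ K) :
    IsCoatom (M.comap (piG F)) := by
  classical
  obtain ⟨hMeq, hKtop, hnoint, r, hrodd, hq⟩ := field_struct p hodd h3 M hM hML K hK1 hK2
  have h2 : (2 : F) ≠ 0 := Cfsg.Agent.H44.two_ne_zero_of_odd hodd
  have hp2 : p ≠ 2 := by
    rintro rfl
    exact h2 CharTwo.two_eq_zero
  have hr0 : r ≠ 0 := by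
    rintro rfl
    exact (Nat.not_odd_iff_even.2 (by norm_num)) hrodd
  have hkodd : Odd (Nat.card K) := by
    have hFodd := hodd
    rw [hq] at hFodd
    exact (Nat.odd_pow_iff hr0).1 hFodd
  -- rational elements with entries in `K` up to a scalar are standard
  have hrat : ∀ y : Matrix.SpecialLinearGroup (Fin 2) F, (∃ ν : F, ν ≠ 0 ∧ y.1 0 0 * ν ∈ K ∧
      y.1 0 1 * ν ∈ K ∧ y.1 1 0 * ν ∈ K ∧ y.1 1 1 * ν ∈ K) → y ∈ stdSub K := by
    rintro y ⟨ν, hν, h00, h01, h10, h11⟩
    have hνν : ν * ν ∈ K := by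
      have hd := det_eq y
      have : ν * ν = (y.1 0 0 * ν) * (y.1 1 1 * ν) - (y.1 0 1 * ν) * (y.1 1 0 * ν) := by
        linear_combination (-(ν * ν)) * hd
      rw [this]
      exact K.sub_mem (K.mul_mem h00 h11) (K.mul_mem h01 h10)
    have hνK : ν ∈ K := mem_of_sq_mem_odd h2 K r hrodd hkodd hq hν hνν
    have hinv := K.inv_mem hνK
    refine ⟨?_, ?_, ?_, ?_⟩
    · have := K.mul_mem h00 hinv
      rwa [mul_assoc, mul_inv_cancel₀ hν, mul_one] at this
    · have := K.mul_mem h01 hinv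
      rwa [mul_assoc, mul_inv_cancel₀ hν, mul_one] at this
    · have := K.mul_mem h10 hinv
      rwa [mul_assoc, mul_inv_cancel₀ hν, mul_one] at this
    · have := K.mul_mem h11 hinv
      rwa [mul_assoc, mul_inv_cancel₀ hν, mul_one] at this
  have hEq : M.comap (piG F) = stdSub K := by
    apply le_antisymm
    · intro x hx
      exact hrat x (hK2 x hx)
    · intro x hx
      rw [Subgroup.mem_comap, hMeq]
      exact piG_mem_GamK K hx
  have hZ : (Ze : Subgroup _) ≤ stdSub K := by rw [← hEq]; exact Ze_le_comap_piG M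
  have huK : ∀ k ∈ K, uT k ∈ stdSub K := fun k hk => by rw [← hEq]; exact (hK1 k hk).1
  have hlK : ∀ k ∈ K, lT k ∈ stdSub K := fun k hk => by rw [← hEq]; exact (hK1 k hk).2
  rw [hEq]
  constructor
  · intro htop
    apply hKtop
    rw [eq_top_iff]
    intro a _
    have h5 : uT a ∈ stdSub K := by rw [htop]; trivial
    have h6 := h5.2.1
    rwa [uT01] at h6
  · intro N hN
    have hZN : (Ze : Subgroup _) ≤ N := hZ.trans hN.le
    have h1N : uT (1 : F) ∈ N := hN.le (huK 1 K.one_mem)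
    rcases dk_unip_red' N p hp2 hZN h1N with hB | ⟨hp3, ⟨fA⟩⟩ | ⟨hLB, hcard⟩
    · exfalso
      have h5 : lT (1 : F) ∈ (Bo : Subgroup _) := hB (hN.le (hlK 1 K.one_mem))
      rw [mem_Bo, lT10] at h5
      exact one_ne_zero h5
    · exfalso
      subst hp3
      have h6 := card_map_mkP hZN
      have hZ2 : Nat.card (Ze : Subgroup (Matrix.SpecialLinearGroup (Fin 2) F)) = 2 := by
        rw [card_Ze]
        obtain ⟨j, hj⟩ := hodd
        rw [hj, Nat.add_sub_cancel]
        simp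
      rw [hZ2, Nat.card_congr fA.toEquiv, card_A5] at h6
      have hq4 : Fintype.card F % 4 = 1 := by
        obtain ⟨n, -, hn⟩ := FiniteField.card F 3
        have hL := card_PSL2_odd (F := F) hodd
        have hdvd : Nat.card ↥(N.map (mkP F)) ∣
            Nat.card (Matrix.ProjectiveSpecialLinearGroup (Fin 2) F) :=
          Subgroup.card_subgroup_dvd_card _
        rw [Nat.card_congr fA.toEquiv, card_A5] at hdvd
        have h5' : 5 ∣ Fintype.card F * (Fintype.card F ^ 2 - 1) := by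
          rw [← hL]; exact Dvd.dvd.mul_left ((by norm_num : 5 ∣ 60).trans hdvd) 2
        rw [hn] at h5' ⊢
        exact three_pow_mod4 n h5'
      have hk4 : Nat.card K % 4 = 1 := by
        rw [← pow_odd_mod4 _ r hkodd hrodd, ← hq]; exact hq4
      have hk5 : 5 ≤ Nat.card K := by
        have hk1 : 1 < Nat.card K := Finite.one_lt_card
        omega
      have hstd := card_stdSub K
      have hge : 120 ≤ Nat.card (stdSub K) := by
        rw [hstd]
        have h24 : 24 ≤ Nat.card K ^ 2 - 1 := by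
          have : 5 * 5 ≤ Nat.card K * Nat.card K := Nat.mul_le_mul hk5 hk5
          have e : Nat.card K ^ 2 = Nat.card K * Nat.card K := by ring
          omega
        calc 120 = 5 * 24 := by norm_num
          _ ≤ Nat.card K * (Nat.card K ^ 2 - 1) := Nat.mul_le_mul hk5 h24
      have hEqN := Subgroup.eq_of_le_of_card_ge hN.le (by rw [h6]; exact hge)
      exact hN.ne hEqN
    · obtain ⟨ω₀, K'', hK1'', hK2'', hK3''⟩ := Cfsg.Agent.H64.MX.struct_of_hcard N h1N hLB hcard
      have hKK'' : K ≤ K'' := by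
        intro k hk
        apply hK3''
        rw [mem_map_conj_iff]
        have e : (uT (-ω₀))⁻¹ * uT k * uT (-ω₀) = uT k := by
          have e1 : uT k * uT (-ω₀) = uT (-ω₀) * uT k := by
            rw [← uT_add, ← uT_add, add_comm]
          rw [mul_assoc, e1, ← mul_assoc, inv_mul_cancel, one_mul]
        rw [e]
        exact hN.le (huK k hk)
      by_cases hK''top : K'' = ⊤
      · have htop : N.map (MulAut.conj (uT (-ω₀))).toMonoidHom = ⊤ :=
          sl2_gen _ (fun s => (hK1'' s (by rw [hK''top]; trivial)).1)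
            (fun s => (hK1'' s (by rw [hK''top]; trivial)).2)
        rw [eq_top_iff]
        intro x _
        have h5 : uT (-ω₀) * x * (uT (-ω₀))⁻¹ ∈ N.map (MulAut.conj (uT (-ω₀))).toMonoidHom := by
          rw [htop]; trivial
        rw [mem_map_conj_iff] at h5
        have e : (uT (-ω₀))⁻¹ * (uT (-ω₀) * x * (uT (-ω₀))⁻¹) * uT (-ω₀) = x := by group
        rwa [e] at h5
      · exfalso
        have hK''K := hnoint K'' hKK'' hK''top
        have hle : N.map (MulAut.conj (uT (-ω₀))).toMonoidHom ≤ stdSub K := by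
          intro y hy
          obtain ⟨ν, hν, h00, h01, h10, h11⟩ := hK2'' y hy
          exact hrat y ⟨ν, hν, hK''K h00, hK''K h01, hK''K h10, hK''K h11⟩
        have h5 := Subgroup.card_le_of_le hle
        rw [card_map_conj] at h5
        exact hN.ne (Subgroup.eq_of_le_of_card_ge hN.le h5)

/-- **The unipotent case** in normal form: the preimage in `SL₂` is maximal. -/
theorem unip_core_coatom (p : ℕ) [Fact p.Prime] [CharP F p] (hodd : Odd (Fintype.card F))
    (h3 : 3 < Fintype.card F)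
    (M : Subgroup (Matrix.ProjGenLinGroup (Fin 2) F)) (hM : IsCoatom M)
    (hML : ¬ (piG F).range ≤ M) (h1 : piG F (uT 1) ∈ M) : IsCoatom (M.comap (piG F)) := by
  classical
  have h2 : (2 : F) ≠ 0 := Cfsg.Agent.H44.two_ne_zero_of_odd hodd
  have hp2 : p ≠ 2 := by
    rintro rfl
    exact h2 CharTwo.two_eq_zero
  have hZL := Ze_le_comap_piG M
  have h1' : uT (1 : F) ∈ M.comap (piG F) := h1
  rcases dk_unip_red' (M.comap (piG F)) p hp2 hZL h1' with hB | ⟨hp3, ⟨fA⟩⟩ | ⟨hLB, hcard⟩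
  · exact borel_coatom hodd h3 M hM hML h1 hB
  · exfalso
    subst hp3
    exact a5_pgl inferInstance hodd h3 M hM hML h1 fA
  · obtain ⟨ω₀, K, hK1, hK2, hK3⟩ := Cfsg.Agent.H64.MX.struct_of_hcard _ h1' hLB hcard
    have hM' := Cfsg.Agent.H64.MX.isCoatom_map (MulAut.conj (piG F (uT (-ω₀)))) hM
    have hML' := not_le_conj hML (piG F (uT (-ω₀)))
    have hcomap : (M.map (MulAut.conj (piG F (uT (-ω₀)))).toMonoidHom).comap (piG F) =
        (M.comap (piG F)).map (MulAut.conj (uT (-ω₀))).toMonoidHom := by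
      ext x
      rw [Subgroup.mem_comap, mem_map_conj_iff, mem_map_conj_iff, Subgroup.mem_comap, map_mul,
        map_mul, map_inv]
    apply coatom_comap_conj M (piG F (uT (-ω₀)))
    exact field_coatom p hodd h3 _ hM' hML' K (by rw [hcomap]; exact hK1)
      (by rw [hcomap]; exact hK2)

/-- **The unipotent case**: the preimage in `SL₂` is maximal. -/
theorem unip_coatom (p : ℕ) [Fact p.Prime] [CharP F p] (hodd : Odd (Fintype.card F))
    (h3 : 3 < Fintype.card F)
    (M : Subgroup (Matrix.ProjGenLinGroup (Fin 2) F)) (hM : IsCoatom M)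
    (hML : ¬ (piG F).range ≤ M)
    (hns : ¬ ∀ x ∈ M.comap (piG F), x ∉ (Ze : Subgroup _) → tr x ^ 2 ≠ 4) :
    IsCoatom (M.comap (piG F)) := by
  classical
  have hZL := Ze_le_comap_piG M
  push Not at hns
  obtain ⟨x₀, hx₀L, hx₀Z, htr⟩ := hns
  have key : ∃ u ∈ M.comap (piG F), tr u = 2 ∧ u ≠ 1 := by
    have h2' : (tr x₀ - 2) * (tr x₀ + 2) = 0 := by linear_combination htr
    rcases mul_eq_zero.1 h2' with h | h
    · refine ⟨x₀, hx₀L, by linear_combination h, fun h1 => hx₀Z ?_⟩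
      rw [h1]; exact Subgroup.one_mem _
    · refine ⟨-x₀, neg_mem_of_mem _ hZL hx₀L, by rw [tr_neg]; linear_combination -h, ?_⟩
      intro h1
      apply hx₀Z
      have h3 : x₀ = -1 := by rw [← h1, neg_neg]
      rw [h3]; exact neg_one_mem_Ze
  obtain ⟨u, huL, hutr, hu1⟩ := key
  obtain ⟨g, hg, hgu⟩ := exists_conj_uT u hutr hu1
  obtain ⟨c, hc⟩ : ∃ c, c = Matrix.ProjGenLinGroup.mk (GeneralLinearGroup.mkOfDetNeZero g hg) :=
    ⟨_, rfl⟩
  have hcu : piG F u = c * piG F (uT 1) * c⁻¹ := by rw [← hgu, piG_conjHom, hc]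
  have huM : piG F u ∈ M := huL
  have h1 : piG F (uT 1) ∈ M.map (MulAut.conj c⁻¹).toMonoidHom := by
    have e : piG F (uT (1 : F)) = c⁻¹ * piG F u * c⁻¹⁻¹ := by rw [hcu]; group
    rw [e]
    exact mem_conj_of_mem c⁻¹ huM
  have hM' := Cfsg.Agent.H64.MX.isCoatom_map (MulAut.conj c⁻¹) hM
  have hML' := not_le_conj hML c⁻¹
  apply coatom_comap_conj M c⁻¹
  exact unip_core_coatom p hodd h3 _ hM' hML' h1

end Fin

end Cfsg.Agent.H18.Pg
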