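import Mathlib
import Cfsg.Agent.H18.Pgl11

/-!
# Maximal subgroups of `PGL(2, q)` meet `PSL(2, q)` maximally: the `S₄` case and assembly
(helper18)
-/

set_option autoImplicit false
set_option linter.unusedSectionVars false
set_option linter.unusedVariables false
set_option linter.deprecated false
set_option linter.unusedSimpArgs false
set_option linter.style.haveILetI false
set_option linter.unnecessarySeqFocus false
set_option linter.unreachableTactic false
set_option linter.unusedTactic false

namespace Cfsg.Agent.H18.Pg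

open Matrix Cfsg.Agent.H65.SL2 Cfsg.Agent.H29.Dk Cfsg.Agent.H18.Dk

/-- Elements of order dividing `3` in a dihedral group commute. -/
theorem dih_cube_comm (k : ℕ) (g h : DihedralGroup k) (hg : g ^ 3 = 1) (hh : h ^ 3 = 1) :
    g * h = h * g := by
  rcases g with i | i
  · rcases h with j | j
    · rw [DihedralGroup.r_mul_r, DihedralGroup.r_mul_r, add_comm]
    · exfalso
      have e : (DihedralGroup.sr j) ^ 3 = DihedralGroup.sr j := by
        rw [pow_succ, pow_two, DihedralGroup.sr_mul_sr, sub_self, DihedralGroup.r_mul_sr]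
        simp
      rw [e, DihedralGroup.one_def] at hh
      cases hh
  · exfalso
    have e : (DihedralGroup.sr i) ^ 3 = DihedralGroup.sr i := by
      rw [pow_succ, pow_two, DihedralGroup.sr_mul_sr, sub_self, DihedralGroup.r_mul_sr]
      simp
    rw [e, DihedralGroup.one_def] at hg
    cases hg

theorem s4_noncomm3 : ∃ a b : Equiv.Perm (Fin 4), a ^ 3 = 1 ∧ b ^ 3 = 1 ∧ a * b ≠ b * a := by
  decide

theorem not_prime_pow_aux (p m r : ℕ) (hp : p.Prime) (hr : 2 ≤ r) (h : p = m ^ r) : False := by
  have h1 := (Nat.Prime.pow_eq_iff hp).1 h.symm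
  omega

variable {F : Type*} [Field F] [Fintype F]

theorem comap_toPGL_comap_mkP (M : Subgroup (Matrix.ProjGenLinGroup (Fin 2) F)) :
    (M.comap (Matrix.ProjectiveSpecialLinearGroup.toPGL (n := Fin 2) (R := F))).comap (mkP F) =
      M.comap (piG F) := by
  ext x
  rfl

/-- **The `S₄` case**: the preimage in `SL₂` is maximal. -/
theorem s4_coatom (p : ℕ) [Fact p.Prime] [CharP F p] (hodd : Odd (Fintype.card F))
    (h3 : 3 < Fintype.card F)
    (h40 : (Fintype.card F).Prime → Fintype.card F % 40 ∉ ({11, 19, 21, 29} : Finset ℕ))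
    (M : Subgroup (Matrix.ProjGenLinGroup (Fin 2) F)) (hM : IsCoatom M)
    (hML : ¬ (piG F).range ≤ M)
    (hss : ∀ x ∈ M.comap (piG F), x ∉ (Ze : Subgroup _) → tr x ^ 2 ≠ 4)
    (f : M ≃* Equiv.Perm (Fin 4)) : IsCoatom (M.comap (piG F)) := by
  classical
  haveI := finite_PGL (F := F)
  have hpr : p.Prime := Fact.out
  obtain ⟨hq, h8⟩ := s4_pgl p hodd h3 M hM hML hss f
  have hqpr : (Fintype.card F).Prime := by rw [hq]; exact hpr
  have h40' := h40 hqpr
  simp only [Finset.mem_insert, Finset.mem_singleton, not_or] at h40'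
  have h10 : ¬ (Fintype.card F % 10 = 1 ∨ Fintype.card F % 10 = 9) := by
    intro h
    omega
  have h5 : 5 ≤ Fintype.card F := by omega
  have hMnL := not_le_LG hodd hM hML
  have hcard := card_of_not_le hodd M hMnL
  have hcardM : Nat.card M = 24 := (Nat.card_congr f.toEquiv).trans card_S4
  have hinj := Matrix.ProjectiveSpecialLinearGroup.toPGL_injective (n := Fin 2) (R := F)
  -- the subgroup `H'` of `PSL₂`
  obtain ⟨H', hH'⟩ : ∃ H' : Subgroup (Matrix.ProjectiveSpecialLinearGroup (Fin 2) F),
      H' = M.comap (Matrix.ProjectiveSpecialLinearGroup.toPGL (n := Fin 2) (R := F)) := ⟨_, rfl⟩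
  have hmap : H'.map (Matrix.ProjectiveSpecialLinearGroup.toPGL (n := Fin 2) (R := F)) =
      M ⊓ (piG F).range := by
    rw [hH', Subgroup.map_comap_eq, piG_range, inf_comm]
  have hcardH : Nat.card H' = 12 := by
    have e1 := Nat.card_congr (H'.equivMapOfInjective _ hinj).toEquiv
    rw [hmap] at e1
    omega
  rw [← comap_toPGL_comap_mkP, ← hH']
  apply isCoatom_comap_mkP
  -- two non-commuting elements of order three in `H'`
  obtain ⟨a, b, ha, hb, hab⟩ := s4_noncomm3
  have key : ∀ c : Equiv.Perm (Fin 4), c ^ 3 = 1 →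
      ∃ x ∈ H', Matrix.ProjectiveSpecialLinearGroup.toPGL x = ((f.symm c : M) :
        Matrix.ProjGenLinGroup (Fin 2) F) ∧ x ^ 3 = 1 := by
    intro c hc
    have h1 : (f.symm c) ^ 3 = 1 := by rw [← map_pow, hc, map_one]
    have h2 : ((f.symm c : M) : Matrix.ProjGenLinGroup (Fin 2) F) ^ 3 = 1 := by
      have := congrArg (Subtype.val) h1
      simpa using this
    have h3' : ((f.symm c : M) : Matrix.ProjGenLinGroup (Fin 2) F) ∈ (piG F).range := by
      apply mem_LG_of_odd_order
      have hd : orderOf ((f.symm c : M) : Matrix.ProjGenLinGroup (Fin 2) F) ∣ 3 :=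
        orderOf_dvd_of_pow_eq_one h2
      rcases (Nat.dvd_prime Nat.prime_three).1 hd with h | h
      · rw [h]; exact odd_one
      · rw [h]; decide
    rw [piG_range] at h3'
    obtain ⟨x, hx⟩ := h3'
    refine ⟨x, ?_, hx, ?_⟩
    · rw [hH', Subgroup.mem_comap, hx]; exact (f.symm c).2
    · apply hinj
      rw [map_pow, hx, h2, map_one]
  obtain ⟨x, hxH, hxa, hx3⟩ := key a ha
  obtain ⟨y, hyH, hyb, hy3⟩ := key b hb
  have hxy : x * y ≠ y * x := by
    intro h
    apply hab
    have h1 := congrArg (Matrix.ProjectiveSpecialLinearGroup.toPGL (n := Fin 2) (R := F)) h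
    rw [map_mul, map_mul, hxa, hyb] at h1
    have h2 : f.symm a * f.symm b = f.symm b * f.symm a := Subtype.ext h1
    rw [← map_mul, ← map_mul] at h2
    exact f.symm.injective h2
  have hPSL := card_PSL2_odd (F := F) hodd
  constructor
  · intro htop
    have h1 : Nat.card H' = Nat.card (Matrix.ProjectiveSpecialLinearGroup (Fin 2) F) := by
      rw [htop, Subgroup.card_top]
    rw [hcardH] at h1
    rw [← h1] at hPSL
    have h24 : 24 ≤ Fintype.card F ^ 2 - 1 := by
      have : 5 * 5 ≤ Fintype.card F * Fintype.card F := Nat.mul_le_mul h5 h5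
      have e : Fintype.card F ^ 2 = Fintype.card F * Fintype.card F := by ring
      omega
    have : 5 * 24 ≤ Fintype.card F * (Fintype.card F ^ 2 - 1) := Nat.mul_le_mul h5 h24
    omega
  · intro X hX
    rcases eq_top_or_exists_le_coatom X with h | ⟨N, hN, hXN⟩
    · exact h
    · exfalso
      have hHN : H' ≤ N := hX.le.trans hXN
      have hdvd : Nat.card H' ∣ Nat.card N := Subgroup.card_dvd_of_le hHN
      rw [hcardH] at hdvd
      have dih_false : ∀ k : ℕ, Nonempty (N ≃* DihedralGroup k) → False := by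
        rintro k ⟨g⟩
        have h1 := dih_cube_comm k (g ⟨x, hHN hxH⟩) (g ⟨y, hHN hyH⟩)
          (by rw [← map_pow]
              have : (⟨x, hHN hxH⟩ : N) ^ 3 = 1 := Subtype.ext (by simpa using hx3)
              rw [this, map_one])
          (by rw [← map_pow]
              have : (⟨y, hHN hyH⟩ : N) ^ 3 = 1 := Subtype.ext (by simpa using hy3)
              rw [this, map_one])
        rw [← map_mul, ← map_mul] at h1
        have h2 := g.injective h1
        exact hxy (congrArg Subtype.val h2)
      rcases main_5892 p hodd h5 N hN with h | ⟨-, k, -, hk⟩ | ⟨-, -, k, -, hk⟩ |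
        ⟨F₀, i1, i2, hF₀, -⟩ | ⟨F₀, i1, i2, r, hr, -, hF₀, -⟩ | ⟨h, -⟩ | ⟨-, -, -, ⟨g⟩⟩ |
        ⟨-, h, -⟩
      · obtain ⟨c, hc⟩ := hdvd
        rw [hc] at h
        have h1 : (Fintype.card F * (Fintype.card F - 1)) % 8 = 0 := by
          rw [← h]; omega
        rw [Nat.mul_mod] at h1
        rcases h8 with h8 | h8
        · have h2 : (Fintype.card F - 1) % 8 = 2 := by omega
          rw [h8, h2] at h1
          norm_num at h1
        · have h2 : (Fintype.card F - 1) % 8 = 4 := by omega
          rw [h8, h2] at h1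
          norm_num at h1
      · exact dih_false k hk
      · exact dih_false k hk
      · exact not_prime_pow_aux p (Fintype.card F₀) 2 hpr le_rfl (by rw [← hq]; exact hF₀)
      · exact not_prime_pow_aux p (Fintype.card F₀) r hpr hr.two_le (by rw [← hq]; exact hF₀)
      · exact h10 h
      · have hcN : Nat.card N = 12 := (Nat.card_congr g.toEquiv).trans card_A4
        have hEq := Subgroup.eq_of_le_of_card_ge hHN (by rw [hcN, hcardH])
        rw [← hEq] at hXN
        exact absurd hX (not_lt_of_ge hXN)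
      · rw [← hq] at h
        omega

/-- **S5890**: a maximal subgroup of `PGL₂(F)` not containing `PSL₂(F)` meets it in a maximal
subgroup, away from the listed exceptions. -/
theorem main_5890 (h4 : 4 ≤ Fintype.card F) (h7 : Fintype.card F ≠ 7)
    (h9 : Fintype.card F ≠ 9) (h11 : Fintype.card F ≠ 11)
    (h40 : (Fintype.card F).Prime → Fintype.card F % 40 ∉ ({11, 19, 21, 29} : Finset ℕ))
    (M : Subgroup (Matrix.ProjGenLinGroup (Fin 2) F)) (hM : IsCoatom M)
    (hML : ¬ (piG F).range ≤ M) :
    IsCoatom ((M ⊓ (piG F).range).subgroupOf (piG F).range) := by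
  classical
  rcases Nat.even_or_odd (Fintype.card F) with he | hodd
  · exact coatom_subgroupOf_top M _ (LG_top_of_even he) hM
  have h3 : 3 < Fintype.card F := by
    rcases hodd with ⟨j, hj⟩
    omega
  apply coatom_transport
  obtain ⟨p, hp⟩ := CharP.exists F
  haveI : Fact p.Prime := ⟨CharP.char_is_prime F p⟩
  have h2 : (2 : F) ≠ 0 := Cfsg.Agent.H44.two_ne_zero_of_odd hodd
  have hpr : p.Prime := Fact.out
  have hp2 : p ≠ 2 := by
    rintro rfl
    exact h2 CharTwo.two_eq_zero
  haveI := finite_PGL (F := F)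
  have hMnL := not_le_LG hodd hM hML
  by_cases hss : ∀ x ∈ M.comap (piG F), x ∉ (Ze : Subgroup _) → tr x ^ 2 ≠ 4
  · have hnd := not_dvd_of_hss p hodd M hMnL hss
    obtain ⟨E, iE, iEf, iEc, hEcard, hD⟩ := dickson_pgl p hodd M
    have hpq : p ∣ Fintype.card E := by
      obtain ⟨n, -, hn⟩ := FiniteField.card F p
      rw [hEcard, hn]
      exact Dvd.dvd.pow (dvd_pow_self p (by positivity)) (by norm_num)
    rcases hD with ⟨k, hk, ⟨hc, hcard⟩ | ⟨⟨f⟩⟩⟩ | ⟨P, K, hK, ⟨f⟩⟩ | ⟨⟨f⟩⟩ | ⟨⟨f⟩⟩ | ⟨⟨f⟩⟩ |
      ⟨K, i1, i2, m, hm, ⟨⟨f⟩⟩ | ⟨⟨f⟩⟩⟩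
    · exfalso
      haveI := hc
      exact abelian_false hodd h3 M hM hML hss
        (fun a ha b hb => congrArg Subtype.val (mul_comm' (⟨a, ha⟩ : M) ⟨b, hb⟩))
    · exact dih_coatom hodd h3 h7 h9 h11 M hM hML hss k f
    · exfalso
      have hcK : Nat.card K = Nat.card M := (Nat.card_congr f.toEquiv).symm
      have hab := abelian_of_normalizer_sylow p P K hK (by rw [hcK]; exact hnd)
      apply abelian_false hodd h3 M hM hML hss
      intro a ha b hb
      have h5 : f ⟨a, ha⟩ * f ⟨b, hb⟩ = f ⟨b, hb⟩ * f ⟨a, ha⟩ :=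
        Subtype.ext (hab _ (f ⟨a, ha⟩).2 _ (f ⟨b, hb⟩).2)
      rw [← map_mul, ← map_mul] at h5
      exact congrArg Subtype.val (f.injective h5)
    · exact (alt_type_false hodd M hMnL 4 f).elim
    · exact s4_coatom p hodd h3 h40 M hM hML hss f
    · exact (alt_type_false hodd M hMnL 5 f).elim
    · exfalso
      apply hnd
      have hpK : p ∣ Fintype.card K := by
        rw [← hm] at hpq
        exact hpr.dvd_of_dvd_pow hpq
      have hc := card_PSL2_mul (F := K)
      have h3' : p ∣ Nat.gcd 2 (Fintype.card K - 1) *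
          Nat.card (Matrix.ProjectiveSpecialLinearGroup (Fin 2) K) := by
        rw [hc]; exact Dvd.dvd.mul_right hpK _
      rw [Nat.card_congr f.toEquiv]
      rcases (Nat.Prime.dvd_mul hpr).1 h3' with h | h
      · exfalso
        have h4 : p ∣ 2 := h.trans (Nat.gcd_dvd_left _ _)
        exact hp2 ((Nat.prime_dvd_prime_iff_eq hpr Nat.prime_two).1 h4)
      · exact h
    · exfalso
      apply hnd
      have hpK : p ∣ Fintype.card K := by
        rw [← hm] at hpq
        exact hpr.dvd_of_dvd_pow hpq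
      rw [Nat.card_congr f.toEquiv, Cfsg.Agent.S0806.card_PGL2' K]
      exact Dvd.dvd.mul_right hpK _
  · exact unip_coatom p hodd h3 M hM hML hss

end Cfsg.Agent.H18.Pg
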