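import Mathlib
import Cfsg.Agent.H2.PrqDefs

/-!
# S0998-ARITHB: the case `ε = -1` (`r = p - e`) is impossible (pure arithmetic)
-/

set_option autoImplicit false

namespace Cfsg.Agent.H18.Prq

theorem pow_two_mod_three (c : ℕ) : 2 ^ c % 3 = 1 ∨ 2 ^ c % 3 = 2 := by
  induction c with
  | zero => left; norm_num
  | succ c ih =>
    rw [pow_succ]
    rcases ih with h | h <;> omega

/-- A natural number `n ≥ 2` congruent to `±1` modulo `p` is at least `p - 1`. -/
theorem le_of_modEq_pm_one (p n : ℕ) (hn : 2 ≤ n)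
    (h : (n : ℤ) ≡ 1 [ZMOD p] ∨ (n : ℤ) ≡ -1 [ZMOD p]) : p - 1 ≤ n := by
  rcases h with h | h
  · have h1 : (p : ℤ) ∣ (n : ℤ) - 1 := h.symm.dvd
    have h2 := Int.le_of_dvd (by omega) h1
    omega
  · have h1 : (p : ℤ) ∣ (n : ℤ) - (-1) := h.symm.dvd
    have h2 := Int.le_of_dvd (by omega) h1
    omega

theorem arithB : Cfsg.Agent.H2.Prq.StmtArithB := by
  intro p r e b hp hr hr5 hrp he1 hep heb hmod hD
  have hp2 := hp.two_le
  have he0 : 0 < e := by
    rcases Nat.eq_zero_or_pos e with h | h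
    · subst h
      have := Nat.eq_zero_of_zero_dvd hep
      omega
    · exact h
  have hele : e ≤ p - 1 := Nat.le_of_dvd (by omega) hep
  -- step 1: `r + e = p`
  have hsum : r + e = p := by
    have h1 : (p : ℤ) ∣ ((r + e : ℕ) : ℤ) := by
      have h2 := hmod.symm.dvd
      have h3 : ((r + e : ℕ) : ℤ) = (r : ℤ) - -1 * (e : ℤ) := by push_cast; ring
      rw [h3]
      exact h2
    have h2 : p ∣ r + e := Int.natCast_dvd_natCast.mp h1
    obtain ⟨k, hk⟩ := h2
    rcases k with _ | _ | k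
    · omega
    · omega
    · exfalso
      have h3 : p * 2 ≤ p * (k + 1 + 1) := Nat.mul_le_mul_left p (by omega)
      omega
  -- step 2: `e = 2 ^ i`
  have hcop : Nat.Coprime e r := by
    rw [Nat.coprime_comm, Nat.Prime.coprime_iff_not_dvd hr]
    intro hre
    have h1 : r ∣ p := by
      rw [← hsum]
      exact Dvd.dvd.add (dvd_refl r) hre
    rcases (Nat.dvd_prime hp).mp h1 with h | h <;> omega
  have he2b : e ∣ 2 ^ b := hcop.dvd_of_dvd_mul_right heb
  obtain ⟨i, hib, rfl⟩ := (Nat.dvd_prime_pow Nat.prime_two).mp he2b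
  have hi1 : 1 ≤ i := by
    rcases i with _ | i
    · simp at he1
    · omega
  -- step 3: `2 ^ i ∣ r - 1`
  have hEr : 2 ^ i ∣ r - 1 := by
    have h1 : 2 ^ i ∣ (p - 1) - 2 ^ i := Nat.dvd_sub hep (dvd_refl _)
    have h2 : p - 1 - 2 ^ i = r - 1 := by omega
    rwa [h2] at h1
  -- step 4: the minimal `k` with `p - 1 ≤ 2 ^ k * 2 ^ i`
  have hex : ∃ k, p - 1 ≤ 2 ^ k * 2 ^ i := by
    refine ⟨p, ?_⟩
    have h1 := Nat.lt_two_pow_self (n := p)
    have h2 : 2 ^ p * 1 ≤ 2 ^ p * 2 ^ i := Nat.mul_le_mul_left _ Nat.one_le_two_pow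
    omega
  have hk : p - 1 ≤ 2 ^ (Nat.find hex) * 2 ^ i := Nat.find_spec hex
  have hmin : ∀ c, p - 1 ≤ 2 ^ c * 2 ^ i → Nat.find hex ≤ c := fun c hc => Nat.find_min' hex hc
  generalize Nat.find hex = k at hk hmin
  -- step 5: the premise of `hD` for `D = 2 ^ k`
  have hprem : ∀ d : ℕ, 2 ≤ d → d ∣ 2 ^ b * r →
      ((d : ℤ) ≡ 1 [ZMOD p] ∨ (d : ℤ) ≡ -1 [ZMOD p]) → 2 ^ k ∣ d := by
    intro d hd2 hdvd hdmod
    obtain ⟨d1, d2, h1, h2, rfl⟩ := (Nat.dvd_mul).mp hdvd
    obtain ⟨c, hcb, rfl⟩ := (Nat.dvd_prime_pow Nat.prime_two).mp h1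
    have hc1 : 1 ≤ 2 ^ c := Nat.one_le_two_pow
    have hi2 : 2 ≤ 2 ^ i := by
      calc 2 = 2 ^ 1 := by norm_num
        _ ≤ 2 ^ i := Nat.pow_le_pow_right (by norm_num) hi1
    rcases (Nat.dvd_prime hr).mp h2 with rfl | rfl
    · have h3 := le_of_modEq_pm_one p _ hd2 hdmod
      rw [mul_one] at h3
      have h4 : 2 ^ c * 1 ≤ 2 ^ c * 2 ^ i := Nat.mul_le_mul_left _ (by omega)
      have h5 := hmin c (by omega)
      exact Dvd.dvd.mul_right (pow_dvd_pow 2 h5) _
    · -- `d = 2 ^ c * r`, `n = 2 ^ c * 2 ^ i = 2 ^ c * p - d`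
      have hn_eq : ((2 ^ c * 2 ^ i : ℕ) : ℤ) = (2 : ℤ) ^ c * (p : ℤ) - ((2 ^ c * d2 : ℕ) : ℤ) := by
        rw [← hsum]
        push_cast
        ring
      have hnmod : (((2 ^ c * 2 ^ i : ℕ) : ℤ) ≡ 1 [ZMOD p]) ∨
          (((2 ^ c * 2 ^ i : ℕ) : ℤ) ≡ -1 [ZMOD p]) := by
        rcases hdmod with h | h
        · right
          obtain ⟨u, hu⟩ := h.dvd
          apply Int.ModEq.symm
          rw [Int.modEq_iff_dvd]
          refine ⟨u + 2 ^ c, ?_⟩
          rw [hn_eq]
          linear_combination hu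
        · left
          obtain ⟨u, hu⟩ := h.dvd
          apply Int.ModEq.symm
          rw [Int.modEq_iff_dvd]
          refine ⟨u + 2 ^ c, ?_⟩
          rw [hn_eq]
          linear_combination hu
      have hn2 : 2 ≤ 2 ^ c * 2 ^ i := by
        have : 1 * 2 ≤ 2 ^ c * 2 ^ i := Nat.mul_le_mul hc1 hi2
        omega
      have h3 := le_of_modEq_pm_one p _ hn2 hnmod
      have h5 := hmin c h3
      exact Dvd.dvd.mul_right (pow_dvd_pow 2 h5) _
  -- step 6
  have hDr : (2 ^ k : ℕ) ∣ r + 1 := by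
    have h := hD (2 ^ k) hprem
    have h1 : (-1 * (r : ℤ) - 1) = -((r + 1 : ℕ) : ℤ) := by push_cast; ring
    rw [h1, dvd_neg, Int.natCast_dvd_natCast] at h
    exact h
  have hk0 : 0 < 2 ^ k := Nat.pos_of_ne_zero (by positivity)
  -- the final contradiction
  have hfin : 3 ∣ r ∨ 3 ∣ p := by
    rcases Nat.lt_or_ge i 2 with hi | hi
    · -- `i = 1`
      have hi' : i = 1 := by omega
      subst hi'
      rw [pow_one] at hk hsum
      obtain ⟨m, hm⟩ := hDr
      have hm1 : 1 ≤ m := by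
        rcases Nat.eq_zero_or_pos m with h | h
        · subst h; omega
        · exact h
      have hm2 : m ≤ 2 := by
        by_contra hcon
        have h1 : 2 ^ k * 3 ≤ 2 ^ k * m := Nat.mul_le_mul_left _ (by omega)
        omega
      have hm' : m = 1 ∨ m = 2 := by omega
      rcases hm' with rfl | rfl
      · rcases pow_two_mod_three k with h | h
        · left; omega
        · right; omega
      · rcases pow_two_mod_three k with h | h
        · right; omega
        · left; omega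
    · -- `i ≥ 2`
      have h4 : 4 ∣ 2 ^ i := by
        have := pow_dvd_pow 2 hi
        norm_num at this
        exact this
      have h4r : 4 ∣ r - 1 := h4.trans hEr
      have hk1 : k ≤ 1 := by
        by_contra hcon
        have h1 : 4 ∣ 2 ^ k := by
          have := pow_dvd_pow 2 (show 2 ≤ k by omega)
          norm_num at this
          exact this
        have h2 : 4 ∣ r + 1 := h1.trans hDr
        omega
      have h2k : 2 ^ k ≤ 2 := by
        calc 2 ^ k ≤ 2 ^ 1 := Nat.pow_le_pow_right (by norm_num) hk1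
          _ = 2 := by norm_num
      have h5 : 2 ^ k * 2 ^ i ≤ 2 * 2 ^ i := Nat.mul_le_mul_right _ h2k
      have h6 : 2 ^ i ≤ r - 1 := Nat.le_of_dvd (by omega) hEr
      rcases pow_two_mod_three i with h | h
      · right; omega
      · left; omega
  rcases hfin with h | h
  · have := (Nat.prime_dvd_prime_iff_eq Nat.prime_three hr).mp h
    omega
  · have := (Nat.prime_dvd_prime_iff_eq Nat.prime_three hp).mp h
    omega

example : Cfsg.Agent.H2.Prq.StmtArithB := arithB

end Cfsg.Agent.H18.Prq
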