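import Mathlib
import Cfsg.Agent.H2.PrqDefs
import Cfsg.Agent.H21.BRSplit
import Cfsg.Agent.H81.Reg
import Cfsg.Agent.H18.PrqArithB

/-!
# S0998-PARB: inside `B0Data`, when `r = e`, the exceptional degree is `e` and the sign is `+1`
-/

set_option autoImplicit false

namespace Cfsg.Agent.H18.Prq

open Cfsg Cfsg.Agent.H21.BR

universe u

/-- A divisor `d ≥ 2` of `2^b p r` (`5 ≤ r < p` primes) with `d ≡ ±1 (mod p)` is even. -/
theorem even_of_dvd_of_modEq (p r b d : ℕ) (hp : p.Prime) (hr : r.Prime) (hr5 : 5 ≤ r)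
    (hrp : r < p) (hd2 : 2 ≤ d) (hdvd : d ∣ 2 ^ b * p * r)
    (hmod : (d : ℤ) ≡ 1 [ZMOD p] ∨ (d : ℤ) ≡ -1 [ZMOD p]) : Even d := by
  have hp2 := hp.two_le
  have hpd : ¬ p ∣ d := by
    intro h
    have h0 : (p : ℤ) ∣ (d : ℤ) := Int.natCast_dvd_natCast.mpr h
    have h2 : (p : ℤ) ∣ 1 := by
      rcases hmod with h1 | h1
      · have h3 : (p : ℤ) ∣ (d : ℤ) - 1 := h1.symm.dvd
        have h4 := dvd_sub h0 h3
        simpa using h4
      · have h3 : (p : ℤ) ∣ (d : ℤ) - (-1) := h1.symm.dvd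
        have h4 := dvd_sub h3 h0
        simpa using h4
    have h5 := Int.le_of_dvd (by norm_num) h2
    omega
  have hcop : Nat.Coprime d p := ((Nat.Prime.coprime_iff_not_dvd hp).mpr hpd).symm
  have hd' : d ∣ 2 ^ b * r := by
    have h1 : d ∣ (2 ^ b * r) * p := by
      rw [show 2 ^ b * r * p = 2 ^ b * p * r by ring]
      exact hdvd
    exact hcop.dvd_of_dvd_mul_right h1
  by_contra hodd
  rw [Nat.not_even_iff_odd] at hodd
  have hcop2 : Nat.Coprime d (2 ^ b) := Nat.Coprime.pow_right b (Nat.coprime_two_right.mpr hodd)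
  have hdr : d ∣ r := hcop2.dvd_of_dvd_mul_left hd'
  rcases (Nat.dvd_prime hr).mp hdr with h | h
  · omega
  · subst h
    have h1 := le_of_modEq_pm_one p d hd2 hmod
    have hpodd : p % 2 = 1 := (hp.eq_two_or_odd).resolve_left (by omega)
    have hrodd : d % 2 = 1 := (hr.eq_two_or_odd).resolve_left (by omega)
    omega

theorem parB : Cfsg.Agent.H2.Prq.StmtParB.{u} := by
  intro G _ _ p r b e hpF hr hr5 hrp hcard P X Y δ ε h f0 hf0 hrel hre
  classical
  have hp : p.Prime := hpF.out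
  have hp2 := hp.two_le
  subst hre
  have hevenX : ∀ χ ∈ X, χ ≠ one G → Even (charDegree (χ : G → ℂ)) := by
    intro χ hχ hne
    refine even_of_dvd_of_modEq p r b _ hp hr hr5 hrp (h.two_le_X χ hχ hne) ?_ ?_
    · rw [← hcard]
      exact Cfsg.Agent.H81.irr_charDegree_dvd χ
    · have h1 := h.deg_X χ hχ
      rcases h.δ_pm χ hχ with h2 | h2 <;> rw [h2] at h1
      · exact Or.inl h1
      · exact Or.inr h1
  have hdeg1 : charDegree ((one G : IrrCharacter G) : G → ℂ) = 1 := by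
    have h1 := (Cfsg.Agent.H81.irr_charDegree (one G)).1
    rw [Cfsg.Agent.H21.E2Block.triv_apply] at h1
    exact_mod_cast h1.symm
  have hoddsum : Odd (ε * (f0 : ℤ)) := by
    rw [hrel, ← Finset.add_sum_erase X _ h.one_mem, h.δ_one, hdeg1]
    have heven : Even (∑ χ ∈ X.erase (one G), δ χ * (charDegree (χ : G → ℂ) : ℤ)) := by
      apply Finset.even_sum
      intro χ hχ
      obtain ⟨hne, hχX⟩ := Finset.mem_erase.mp hχ
      exact Even.mul_left ((Int.even_coe_nat _).mpr (hevenX χ hχX hne)) _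
    simpa using heven.one_add
  have hf0odd : Odd f0 := by
    have h1 : Odd (f0 : ℤ) := by
      rcases h.ε_pm with h2 | h2 <;> rw [h2] at hoddsum
      · simpa using hoddsum
      · simpa using hoddsum
    exact (Int.odd_coe_nat f0).mp h1
  have hYne : Y.Nonempty := by
    rw [← Finset.card_pos]
    have h1 := h.cardY
    by_contra hcon
    have h0 : Y.card = 0 := by omega
    rw [h0] at h1
    omega
  obtain ⟨θ, hθ⟩ := hYne
  have hf0deg := hf0 θ hθ
  have hf0dvd : f0 ∣ 2 ^ b * p * r := by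
    rw [← hf0deg, ← hcard]
    exact Cfsg.Agent.H81.irr_charDegree_dvd θ
  have hf02 : 2 ≤ f0 := by
    rw [← hf0deg]
    exact h.two_le_Y θ hθ
  have hf0mod : (f0 : ℤ) ≡ ε * (r : ℤ) [ZMOD p] := by
    rw [← hf0deg]
    exact h.deg_Y θ hθ
  have hpf0 : ¬ p ∣ f0 := by
    intro hdvd
    have h0 : (p : ℤ) ∣ (f0 : ℤ) := Int.natCast_dvd_natCast.mpr hdvd
    have h1 : (p : ℤ) ∣ ε * (r : ℤ) := by
      have h2 := hf0mod.dvd
      have h3 := dvd_add h2 h0
      simpa using h3
    have h2 : (p : ℤ) ∣ (r : ℤ) := by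
      rcases h.ε_pm with h3 | h3 <;> rw [h3] at h1
      · simpa using h1
      · simpa using h1
    have h3 : p ∣ r := Int.natCast_dvd_natCast.mp h2
    have h4 := Nat.le_of_dvd (by omega) h3
    omega
  have hcop : Nat.Coprime f0 p := ((Nat.Prime.coprime_iff_not_dvd hp).mpr hpf0).symm
  have hf0' : f0 ∣ 2 ^ b * r := by
    have h1 : f0 ∣ (2 ^ b * r) * p := by
      rw [show 2 ^ b * r * p = 2 ^ b * p * r by ring]
      exact hf0dvd
    exact hcop.dvd_of_dvd_mul_right h1
  have hcop2 : Nat.Coprime f0 (2 ^ b) :=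
    Nat.Coprime.pow_right b (Nat.coprime_two_right.mpr hf0odd)
  have hf0r : f0 ∣ r := hcop2.dvd_of_dvd_mul_left hf0'
  have hf0eq : f0 = r := by
    rcases (Nat.dvd_prime hr).mp hf0r with h1 | h1
    · omega
    · exact h1
  refine ⟨?_, hf0eq⟩
  rcases h.ε_pm with h1 | h1
  · exact h1
  · exfalso
    rw [h1, hf0eq] at hf0mod
    have h2 := hf0mod.dvd
    have h3 : (p : ℤ) ∣ ((2 * r : ℕ) : ℤ) := by
      have h4 : (-1 * (r : ℤ) - r) = -((2 * r : ℕ) : ℤ) := by push_cast; ring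
      rw [h4, dvd_neg] at h2
      exact h2
    have h4 : p ∣ 2 * r := Int.natCast_dvd_natCast.mp h3
    rcases (Nat.Prime.dvd_mul hp).mp h4 with h5 | h5
    · have h6 := Nat.le_of_dvd (by norm_num) h5
      omega
    · have h6 := Nat.le_of_dvd (by omega) h5
      omega

example : Cfsg.Agent.H2.Prq.StmtParB.{u} := parB

end Cfsg.Agent.H18.Prq
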