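import Mathlib
import Cfsg.Agent.H52.SmDefs
import Cfsg.Agent.S3385

/-!
# S2772 team project (helper52): piece SM-SIMS (helper18)

By Sims' theorem (S3385) applied to the primitive action of `H` on `H ⧸ G`, the order of `G` is
`2 ^ k * 3` with `k ≤ 4`.
-/

set_option autoImplicit false

namespace Cfsg.Agent.H18.Sm

open Cfsg.Agent.H52.Sm

universe u

/-- **SM-SIMS**. -/
theorem sims : StSims.{u} := by
  intro H _ _ _ G Q S t hG htG hyp
  obtain ⟨f, hfs, hfker⟩ := hyp.dih
  have hGne : G ≠ ⊤ := hG.1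
  -- `|G| = 3 |S|`
  have hcardG : Nat.card ↥G = 3 * Nat.card ↥S := by
    have h1 := Subgroup.card_mul_index f.ker
    rw [Subgroup.index_ker, MonoidHom.range_eq_top.mpr hfs, Subgroup.card_top,
      DihedralGroup.nat_card] at h1
    have h2 : Nat.card f.ker = Nat.card Q := by
      have hQG : Q ≤ G := hyp.QS.trans hyp.SM
      have h3 : f.ker = Q.subgroupOf G := by
        ext m
        rw [MonoidHom.mem_ker, hfker, Subgroup.mem_subgroupOf]
      rw [h3]
      exact Nat.card_congr (Subgroup.subgroupOfEquivOfLe hQG).toEquiv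
    rw [h2] at h1
    have h4 := hyp.card
    omega
  have hSpos : 0 < Nat.card ↥S := Nat.card_pos
  -- the action on the cosets of `G` is faithful and primitive
  have hnc : G.normalCore = ⊥ := by
    rcases (Subgroup.normalCore_normal G).eq_bot_or_eq_top with h | h
    · exact h
    · exact absurd (top_le_iff.mp (h ▸ Subgroup.normalCore_le G)) hGne
  have hfaith : FaithfulSMul H (H ⧸ G) := by
    refine ⟨fun {m₁ m₂} h => ?_⟩
    have h1 : MulAction.toPermHom H (H ⧸ G) m₁ = MulAction.toPermHom H (H ⧸ G) m₂ :=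
      Equiv.ext h
    have h2 : Function.Injective (MulAction.toPermHom H (H ⧸ G)) := by
      rw [← MonoidHom.ker_eq_bot_iff, ← Subgroup.normalCore_eq_ker, hnc]
    exact h2 h1
  have hnt : Nontrivial (H ⧸ G) :=
    ⟨⟨((1 : H) : H ⧸ G), ((t : H) : H ⧸ G), fun h => htG (by
      rw [QuotientGroup.eq, inv_one, one_mul] at h
      exact h)⟩⟩
  have hstab : MulAction.stabilizer H ((1 : H) : H ⧸ G) = G := MulAction.stabilizer_quotient G
  have hprim : MulAction.IsPreprimitive H (H ⧸ G) := by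
    rw [← MulAction.isCoatom_stabilizer_iff_preprimitive H ((1 : H) : H ⧸ G), hstab]
    exact hG
  -- the point `b = t⁻¹ G`
  obtain ⟨b, hb⟩ : ∃ b : H ⧸ G, b = ((t⁻¹ : H) : H ⧸ G) := ⟨_, rfl⟩
  have hsmul : ∀ g : ↥G, g • b = b ↔ t * (g : H) * t⁻¹ ∈ G := by
    intro g
    rw [hb]
    show ((g : H) • ((t⁻¹ : H) : H ⧸ G) = ((t⁻¹ : H) : H ⧸ G)) ↔ _
    rw [MulAction.Quotient.smul_mk, QuotientGroup.eq, smul_eq_mul]
    have h1 : ((g : H) * t⁻¹)⁻¹ * t⁻¹ = (t * (g : H) * t⁻¹)⁻¹ := by group
    rw [h1, Subgroup.inv_mem_iff]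
  -- its stabilizer in `G` is proper
  have hDne : MulAction.stabilizer ↥G b ≠ ⊤ := by
    intro htop
    have hall : ∀ g ∈ G, t * g * t⁻¹ ∈ G := by
      intro g hg
      have h1 : (⟨g, hg⟩ : ↥G) ∈ MulAction.stabilizer ↥G b := by
        rw [htop]
        trivial
      exact (hsmul ⟨g, hg⟩).mp (MulAction.mem_stabilizer_iff.mp h1)
    have hinj : Function.Injective (fun g : ↥G => (⟨t * g * t⁻¹, hall g g.2⟩ : ↥G)) := by
      intro g g' h
      have h1 : t * (g : H) * t⁻¹ = t * (g' : H) * t⁻¹ := congrArg Subtype.val h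
      exact Subtype.ext (mul_left_cancel (mul_right_cancel h1))
    have hsurj := Finite.injective_iff_surjective.mp hinj
    have htn : t ∈ Subgroup.normalizer (G : Set H) := by
      rw [Subgroup.mem_normalizer_iff]
      intro h
      constructor
      · exact hall h
      · intro hh
        obtain ⟨g, hg⟩ := hsurj ⟨t * h * t⁻¹, hh⟩
        have h1 : t * (g : H) * t⁻¹ = t * h * t⁻¹ := congrArg Subtype.val hg
        have h2 : (g : H) = h := mul_left_cancel (mul_right_cancel h1)
        rw [← h2]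
        exact g.2
    have hlt : G < Subgroup.normalizer (G : Set H) :=
      lt_of_le_of_ne Subgroup.le_normalizer (fun h => htG (h ▸ htn))
    have htop' := hG.2 _ hlt
    have hGn : G.Normal := Subgroup.normalizer_eq_top_iff.mp htop'
    rcases hGn.eq_bot_or_eq_top with h | h
    · rw [h, Subgroup.card_bot] at hcardG
      omega
    · exact hGne h
  have hSle : S.subgroupOf G ≤ MulAction.stabilizer ↥G b := by
    intro s hs
    rw [MulAction.mem_stabilizer_iff, hsmul]
    exact hyp.SM (hyp.tS _ (Subgroup.mem_subgroupOf.mp hs))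
  have hcS : Nat.card (S.subgroupOf G) = Nat.card S :=
    Nat.card_congr (Subgroup.subgroupOfEquivOfLe hyp.SM).toEquiv
  have hd1 : Nat.card (S.subgroupOf G) ∣ Nat.card (MulAction.stabilizer ↥G b) :=
    Subgroup.card_dvd_of_le hSle
  have hd2 : Nat.card (MulAction.stabilizer ↥G b) ∣ Nat.card ↥G :=
    Subgroup.card_subgroup_dvd_card _
  have hcardD : Nat.card (MulAction.stabilizer ↥G b) = Nat.card S := by
    rw [hcS] at hd1
    obtain ⟨j, hj⟩ := hd1
    rw [hj, hcardG] at hd2
    have hj3 : j ∣ 3 := by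
      have h1 : Nat.card ↥S * j ∣ Nat.card ↥S * 3 := by
        rw [Nat.mul_comm (Nat.card ↥S) 3]
        exact hd2
      exact (Nat.mul_dvd_mul_iff_left hSpos).mp h1
    rcases (Nat.dvd_prime Nat.prime_three).mp hj3 with h | h
    · rw [hj, h, mul_one]
    · exfalso
      apply hDne
      apply Subgroup.eq_top_of_card_eq
      rw [hj, h, hcardG, Nat.mul_comm]
  have h3G : Nat.card (MulAction.orbit ↥G b) = 3 := by
    have h1 := Subgroup.card_mul_index (MulAction.stabilizer ↥G b)
    rw [MulAction.index_stabilizer, hcardD, hcardG, ← Nat.card_coe_set_eq] at h1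
    have h2 : Nat.card ↥S * Nat.card ↥(MulAction.orbit ↥G b) = Nat.card ↥S * 3 := by
      rw [h1, Nat.mul_comm]
    exact Nat.eq_of_mul_eq_mul_left hSpos h2
  have h3 : Nat.card (MulAction.orbit (MulAction.stabilizer H ((1 : H) : H ⧸ G)) b) = 3 := by
    rw [hstab]
    exact h3G
  obtain ⟨k, hk, hk2⟩ := Cfsg.Agent.S3385.result hprim ((1 : H) : H ⧸ G) b h3
  rw [hstab] at hk2
  exact ⟨k, hk, hk2⟩

example : Cfsg.Agent.H52.Sm.StSims.{u} := Cfsg.Agent.H18.Sm.sims

end Cfsg.Agent.H18.Sm
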