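import Mathlib
import Cfsg.Agent.H97.Sp4Defs

/-!
# Piece C1C of helper97's S2460 project (helper18): Gauss decomposition in `Sp₄`.
-/

set_option autoImplicit false
set_option linter.unusedVariables false
set_option linter.unusedSimpArgs false
set_option linter.unnecessarySeqFocus false
set_option linter.unreachableTactic false
set_option linter.unusedTactic false
set_option linter.unusedSectionVars false

namespace Cfsg.Agent.H18.Sp4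

open Matrix Cfsg.Agent.H97.Sp4

variable {F : Type*} [Field F]

theorem gauss {A B C D M₁ M₂ : Matrix (Fin 2) (Fin 2) F}
    (hb : fromBlocks A B C D ∈ symplecticGroup (Fin 2) F) (hA : A = M₁ * M₂)
    (h1 : M₁.det ≠ 0) (h2 : M₂.det ≠ 0) :
    ∃ S₁ S₂ : Matrix (Fin 2) (Fin 2) F, S₁ᵀ = S₁ ∧ S₂ᵀ = S₂ ∧
      fromBlocks A B C D =
        fromBlocks M₁ 0 (S₁ * M₁) (M₁⁻¹)ᵀ * fromBlocks M₂ (M₂ * S₂) 0 (M₂⁻¹)ᵀ := by
  have hdet : IsUnit A.det := by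
    rw [hA, Matrix.det_mul]
    exact (mul_ne_zero h1 h2).isUnit
  have hdetT : IsUnit Aᵀ.det := by rw [Matrix.det_transpose]; exact hdet
  -- the block identities
  have e1 := (SymplecticGroup.mem_iff).1 hb
  have e2 := (SymplecticGroup.mem_iff').1 hb
  rw [Matrix.J, fromBlocks_transpose, fromBlocks_multiply, fromBlocks_multiply,
    fromBlocks_inj] at e1 e2
  obtain ⟨e11, -, -, -⟩ := e1
  obtain ⟨e21, e22, -, -⟩ := e2
  simp only [mul_zero, mul_one, zero_add, add_zero, mul_neg, neg_mul] at e11 e21 e22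
  -- e11 : B * Aᵀ + -(A * Bᵀ) = 0 ;  e21 : Cᵀ * A + -(Aᵀ * C) = 0 ; e22 : Cᵀ * B + -(Aᵀ * D) = -1
  have k1 : A * Bᵀ = B * Aᵀ := by
    have := e11
    rw [add_neg_eq_zero] at this
    exact this.symm
  have k2 : Cᵀ * A = Aᵀ * C := by
    have := e21
    rw [add_neg_eq_zero] at this
    exact this
  have k3 : Aᵀ * D = 1 + Cᵀ * B := by
    have h : Cᵀ * B + -(Aᵀ * D) + (Aᵀ * D + 1) = -1 + (Aᵀ * D + 1) := by rw [e22]
    have h' : Cᵀ * B + 1 = Aᵀ * D := by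
      have l : Cᵀ * B + -(Aᵀ * D) + (Aᵀ * D + 1) = Cᵀ * B + 1 := by abel
      have r : -1 + (Aᵀ * D + 1) = Aᵀ * D := by abel
      rw [l, r] at h
      exact h
    rw [← h', add_comm]
  -- symmetry
  have s2 : (A⁻¹ * B)ᵀ = A⁻¹ * B := by
    rw [Matrix.transpose_mul, Matrix.transpose_nonsing_inv]
    calc Bᵀ * (Aᵀ)⁻¹ = A⁻¹ * (A * Bᵀ) * (Aᵀ)⁻¹ := by
          rw [← Matrix.mul_assoc, Matrix.nonsing_inv_mul _ hdet, Matrix.one_mul]
      _ = A⁻¹ * (B * Aᵀ) * (Aᵀ)⁻¹ := by rw [k1]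
      _ = A⁻¹ * B := by
          rw [Matrix.mul_assoc, Matrix.mul_assoc, Matrix.mul_nonsing_inv _ hdetT, Matrix.mul_one]
  have s1 : (C * A⁻¹)ᵀ = C * A⁻¹ := by
    rw [Matrix.transpose_mul, Matrix.transpose_nonsing_inv]
    calc (Aᵀ)⁻¹ * Cᵀ = (Aᵀ)⁻¹ * (Cᵀ * A) * A⁻¹ := by
          rw [Matrix.mul_assoc, Matrix.mul_assoc, Matrix.mul_nonsing_inv _ hdet, Matrix.mul_one]
      _ = (Aᵀ)⁻¹ * (Aᵀ * C) * A⁻¹ := by rw [k2]
      _ = C * A⁻¹ := by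
          rw [← Matrix.mul_assoc, Matrix.nonsing_inv_mul _ hdetT, Matrix.one_mul]
  have s1' : (Aᵀ)⁻¹ * Cᵀ = C * A⁻¹ := by
    rw [← s1, Matrix.transpose_mul, Matrix.transpose_nonsing_inv]
  have hD : D = C * A⁻¹ * B + (A⁻¹)ᵀ := by
    calc D = (Aᵀ)⁻¹ * (Aᵀ * D) := by
          rw [← Matrix.mul_assoc, Matrix.nonsing_inv_mul _ hdetT, Matrix.one_mul]
      _ = (Aᵀ)⁻¹ * (1 + Cᵀ * B) := by rw [k3]
      _ = (Aᵀ)⁻¹ + (Aᵀ)⁻¹ * Cᵀ * B := by rw [Matrix.mul_add, Matrix.mul_one, Matrix.mul_assoc]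
      _ = C * A⁻¹ * B + (A⁻¹)ᵀ := by
          rw [s1', Matrix.transpose_nonsing_inv, add_comm]
  have hinv : (M₁⁻¹)ᵀ * (M₂⁻¹)ᵀ = (A⁻¹)ᵀ := by
    rw [← Matrix.transpose_mul, ← Matrix.mul_inv_rev, ← hA]
  refine ⟨C * A⁻¹, A⁻¹ * B, s1, s2, ?_⟩
  rw [fromBlocks_multiply, fromBlocks_inj]
  refine ⟨?_, ?_, ?_, ?_⟩
  · rw [Matrix.mul_zero, add_zero, hA]
  · rw [Matrix.zero_mul, add_zero, ← Matrix.mul_assoc, ← hA, ← Matrix.mul_assoc,
      Matrix.mul_nonsing_inv _ hdet, Matrix.one_mul]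
  · rw [Matrix.mul_zero, add_zero, Matrix.mul_assoc, ← hA, Matrix.mul_assoc,
      Matrix.nonsing_inv_mul _ hdet, Matrix.mul_one]
  · rw [hinv, hD]
    congr 1
    calc C * A⁻¹ * B = C * A⁻¹ * (A * (A⁻¹ * B)) := by
          rw [← Matrix.mul_assoc A, Matrix.mul_nonsing_inv _ hdet, Matrix.one_mul]
      _ = C * A⁻¹ * M₁ * (M₂ * (A⁻¹ * B)) := by
          rw [hA]; simp only [Matrix.mul_assoc]

end Cfsg.Agent.H18.Sp4
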