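import Mathlib
import Cfsg.Agent.H97.Sp4Defs

/-!
# Piece F1 of helper97's S2460 project (helper18): `HAlt 0 δ` over a finite field of odd
characteristic.
-/

set_option autoImplicit false
set_option linter.unusedVariables false
set_option linter.unusedSimpArgs false
set_option linter.unnecessarySeqFocus false
set_option linter.unreachableTactic false
set_option linter.unusedTactic false

namespace Cfsg.Agent.H18.Sp4

open Matrix Cfsg.Agent.H97.Sp4

variable {F : Type*} [Field F]

theorem exists_sq_add_mul_sq [Fintype F] (h2 : (2 : F) ≠ 0) {δ : F} (hδ : δ ≠ 0) :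
    ∃ a b : F, a ^ 2 + δ * b ^ 2 = -δ := by
  open Polynomial in
  have hchar : ringChar F ≠ 2 := by
    intro h
    apply h2
    have := (ringChar.spec F 2).2 (by rw [h])
    exact_mod_cast this
  obtain ⟨a, b, hab⟩ := FiniteField.exists_root_sum_quadratic (R := F)
    (f := (X : F[X]) ^ 2) (g := C δ * (X : F[X]) ^ 2 + C 0 * X + C δ)
    (degree_X_pow 2) (degree_quadratic hδ) (FiniteField.odd_card_of_char_ne_two hchar)
  refine ⟨a, b, ?_⟩
  simp at hab
  linear_combination hab

theorem halt_tau_zero [Fintype F] (h2 : (2 : F) ≠ 0) {δ : F} (hδ : δ ≠ 0) : HAlt 0 δ := by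
  intro r hr
  obtain ⟨a, b, hab⟩ := exists_sq_add_mul_sq h2 hδ
  refine ⟨!![-δ * a / r, δ * b / r; δ * b / r, a / r], !![0, -δ; 1, 0], !![-a, δ * b; b, a],
    ?_, ?_, ⟨?_, ?_, ?_⟩, ⟨?_, ?_, ?_⟩⟩
  · ext i j
    fin_cases i <;> fin_cases j <;> simp
  · ext i j
    fin_cases i <;> fin_cases j <;>
      simp [Matrix.mul_apply, Fin.sum_univ_two] <;> field_simp
  · simp [Matrix.trace, Fin.sum_univ_two]
  · rw [Matrix.det_fin_two]
    simp
  · intro c hc
    have h10 := congrFun (congrFun hc 1) 0
    simp at h10
  · simp [Matrix.trace, Fin.sum_univ_two]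
  · rw [Matrix.det_fin_two]
    simp
    linear_combination -hab
  · intro c hc
    have h00 := congrFun (congrFun hc 0) 0
    have h11 := congrFun (congrFun hc 1) 1
    have h10 := congrFun (congrFun hc 1) 0
    simp at h00 h11 h10
    have ha : a = 0 := by
      have : (2 : F) * a = 0 := by linear_combination h11 - h00
      rcases mul_eq_zero.1 this with h | h
      · exact absurd h h2
      · exact h
    rw [ha, h10] at hab
    apply hδ
    linear_combination hab

end Cfsg.Agent.H18.Sp4
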