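import Mathlib
import Cfsg.Agent.H97.Sp4Defs

/-!
# Piece F2 of helper97's S2460 project (helper18): the field with three elements, explicit
witnesses for `HAlt (-1) (-1)` and `HT3 (-1) (-1)`.
-/

set_option autoImplicit false
set_option linter.unusedVariables false
set_option linter.unusedSimpArgs false
set_option linter.unnecessarySeqFocus false
set_option linter.unreachableTactic false
set_option linter.unusedTactic false
set_option linter.unusedSectionVars false

namespace Cfsg.Agent.H18.Sp4

open Matrix Cfsg.Agent.H97.Sp4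

variable {F : Type*} [Field F]

theorem mk2_congr {a b c d a' b' c' d' : F} (h1 : a = a') (h2 : b = b') (h3 : c = c')
    (h4 : d = d') : !![a, b; c, d] = !![a', b'; c', d'] := by
  subst h1 h2 h3 h4
  rfl

/-- The generic verification of a `Target (-1) (-1)` witness in characteristic 3. -/
theorem target_three (h3 : (3 : F) = 0) (s₁ s₂ s₃ a b c d a' b' c' d' w x y z : F)
    (e1 : s₁ * w + s₂ * y = a * a' + b * c') (e2 : s₁ * x + s₂ * z = a * b' + b * d')
    (e3 : s₂ * w + s₃ * y = c * a' + d * c') (e4 : s₂ * x + s₃ * z = c * b' + d * d')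
    (t1 : a + d = -1) (d1 : a * d - b * c = -1) (n1 : c ≠ 0)
    (t2 : a' + d' = -1) (d2 : a' * d' - b' * c' = -1) (n2 : c' ≠ 0) :
    Target (-1 : F) (-1) !![w, x; y, z] := by
  refine ⟨!![s₁, s₂; s₂, s₃], !![a, b; c, d], !![a', b'; c', d'], ?_, ?_, ⟨?_, ?_, ?_⟩,
    ⟨?_, ?_, ?_⟩⟩
  · ext i j
    fin_cases i <;> fin_cases j <;> rfl
  · rw [Matrix.mul_fin_two, Matrix.mul_fin_two]
    exact mk2_congr e1 e2 e3 e4
  · rw [Matrix.trace_fin_two_of]; exact t1
  · rw [Matrix.det_fin_two_of]; exact d1
  · intro k hk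
    have h10 := congrFun (congrFun hk 1) 0
    simp at h10
    exact n1 h10
  · rw [Matrix.trace_fin_two_of]; exact t2
  · rw [Matrix.det_fin_two_of]; exact d2
  · intro k hk
    have h10 := congrFun (congrFun hk 1) 0
    simp at h10
    exact n2 h10

theorem halt_ht3_three (h3 : (3 : F) = 0) (hF : ∀ x : F, x = 0 ∨ x = 1 ∨ x = -1) :
    HAlt (-1 : F) (-1) ∧ HT3 (-1 : F) (-1) := by
  constructor
  · intro r hr
    rcases hF r with rfl | rfl | rfl
    · exact absurd rfl hr
    · -- r = 1
      refine target_three h3 (1) (0) (1) (1) (-1) (1) (1) (1) (-1) (1) (1) _ _ _ _ ?_ ?_ ?_ ?_ ?_ ?_ ?_ ?_ ?_ ?_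
      all_goals first | exact one_ne_zero | exact neg_ne_zero.mpr one_ne_zero | (first | linear_combination (0 : F) * h3 | linear_combination (1 : F) * h3 | linear_combination (-1 : F) * h3 | linear_combination (2 : F) * h3 | linear_combination (-2 : F) * h3)
    · -- r = -1
      refine target_three h3 (1) (0) (1) (1) (1) (-1) (1) (1) (1) (-1) (1) _ _ _ _ ?_ ?_ ?_ ?_ ?_ ?_ ?_ ?_ ?_ ?_
      all_goals first | exact one_ne_zero | exact neg_ne_zero.mpr one_ne_zero | (first | linear_combination (0 : F) * h3 | linear_combination (1 : F) * h3 | linear_combination (-1 : F) * h3 | linear_combination (2 : F) * h3 | linear_combination (-2 : F) * h3)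
  · intro c q₀ hc hq
    rcases hF c with rfl | rfl | rfl
    · rcases hF q₀ with rfl | rfl | rfl
      · exact absurd rfl hq
      · refine ⟨0, ?_⟩
        refine target_three h3 (0) (1) (0) (0) (-1) (-1) (-1) (0) (-1) (-1) (-1) _ _ _ _ ?_ ?_ ?_ ?_ ?_ ?_ ?_ ?_ ?_ ?_
        all_goals first | exact one_ne_zero | exact neg_ne_zero.mpr one_ne_zero | (first | linear_combination (0 : F) * h3 | linear_combination (1 : F) * h3 | linear_combination (-1 : F) * h3 | linear_combination (2 : F) * h3 | linear_combination (-2 : F) * h3)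
      · refine ⟨0, ?_⟩
        refine target_three h3 (0) (1) (0) (-1) (1) (1) (0) (-1) (1) (1) (0) _ _ _ _ ?_ ?_ ?_ ?_ ?_ ?_ ?_ ?_ ?_ ?_
        all_goals first | exact one_ne_zero | exact neg_ne_zero.mpr one_ne_zero | (first | linear_combination (0 : F) * h3 | linear_combination (1 : F) * h3 | linear_combination (-1 : F) * h3 | linear_combination (2 : F) * h3 | linear_combination (-2 : F) * h3)
    · rcases hF q₀ with rfl | rfl | rfl
      · exact absurd rfl hq
      · refine ⟨0, ?_⟩
        refine target_three h3 (1) (0) (1) (0) (1) (1) (-1) (-1) (1) (1) (0) _ _ _ _ ?_ ?_ ?_ ?_ ?_ ?_ ?_ ?_ ?_ ?_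
        all_goals first | exact one_ne_zero | exact neg_ne_zero.mpr one_ne_zero | (first | linear_combination (0 : F) * h3 | linear_combination (1 : F) * h3 | linear_combination (-1 : F) * h3 | linear_combination (2 : F) * h3 | linear_combination (-2 : F) * h3)
      · refine ⟨0, ?_⟩
        refine target_three h3 (1) (1) (-1) (0) (-1) (-1) (-1) (1) (1) (-1) (1) _ _ _ _ ?_ ?_ ?_ ?_ ?_ ?_ ?_ ?_ ?_ ?_
        all_goals first | exact one_ne_zero | exact neg_ne_zero.mpr one_ne_zero | (first | linear_combination (0 : F) * h3 | linear_combination (1 : F) * h3 | linear_combination (-1 : F) * h3 | linear_combination (2 : F) * h3 | linear_combination (-2 : F) * h3)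
    · exact absurd (by linear_combination (-1 : F) * h3) hc

end Cfsg.Agent.H18.Sp4
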