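import Mathlib
import Cfsg.Agent.H97.Sp4Defs

/-!
# Piece F3 of helper97's S2460 project (helper18): `HT3 τ δ` over every field with an element
`ε ≠ 0, ±1`.
-/

set_option autoImplicit false
set_option linter.unusedVariables false
set_option linter.unusedSimpArgs false
set_option linter.unnecessarySeqFocus false
set_option linter.unreachableTactic false
set_option linter.unusedTactic false

namespace Cfsg.Agent.H18.Sp4

open Matrix Cfsg.Agent.H97.Sp4

variable {F : Type*} [Field F]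

theorem ht3_of_eps (ε τ δ : F) (hε : ε ≠ 0) (hε2 : ε ^ 2 ≠ 1) : HT3 τ δ := by
  intro c q₀ hc hq
  have h1 : 1 - ε ^ 2 ≠ 0 := by
    intro h
    apply hε2
    linear_combination -h
  have h2 : ε + 1 ≠ 0 := by
    intro h
    apply hε2
    have : ε = -1 := by linear_combination h
    rw [this]; ring
  have h3 : 2 - c ≠ 0 := by
    intro h
    apply hc
    linear_combination -h
  obtain ⟨α, hαeq⟩ : ∃ α : F, ε ^ 2 * (α + c - 1) = α + 1 :=
    ⟨(ε ^ 2 * (c - 1) - 1) / (1 - ε ^ 2), by field_simp; ring⟩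
  obtain ⟨n₁, hn₁eq⟩ : ∃ n₁ : F, n₁ * (ε + 1) = τ := ⟨τ / (ε + 1), by field_simp⟩
  obtain ⟨ε', hε'⟩ : ∃ ε' : F, ε * ε' = 1 := ⟨ε⁻¹, mul_inv_cancel₀ hε⟩
  obtain ⟨d, hd⟩ : ∃ d : F, (q₀ ^ 2 * (2 - c)) * d = 1 :=
    ⟨(q₀ ^ 2 * (2 - c))⁻¹, mul_inv_cancel₀ (mul_ne_zero (pow_ne_zero 2 hq) h3)⟩
  have hε'0 : ε' ≠ 0 := by
    intro h
    rw [h, mul_zero] at hε'
    exact zero_ne_one hε'
  refine ⟨α, !![d * (ε * δ * (q₀ * (α ^ 2 + α * c + 1))), d * (-(ε * δ * (q₀ * (α + c - 1))));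
      d * (-(δ * ε' * (q₀ * (α + 1)))), d * (δ * ε' * q₀)],
    !![ε * n₁, ε * (n₁ * (τ - n₁) - δ); ε', (τ - n₁) * ε'],
    !![τ - n₁, -(n₁ * (τ - n₁) - δ); -1, n₁],
    ?_, ?_, ⟨?_, ?_, ?_⟩, ⟨?_, ?_, ?_⟩⟩
  · ext i j
    fin_cases i <;> fin_cases j
    · rfl
    · show d * (-(δ * ε' * (q₀ * (α + 1)))) = d * (-(ε * δ * (q₀ * (α + c - 1))))
      linear_combination (d * δ * q₀ * ε') * hαeq - (d * δ * q₀ * (α + c - 1) * ε) * hε'
    · show d * (-(ε * δ * (q₀ * (α + c - 1)))) = d * (-(δ * ε' * (q₀ * (α + 1))))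
      linear_combination -(d * δ * q₀ * ε') * hαeq + (d * δ * q₀ * (α + c - 1) * ε) * hε'
    · rfl
  · ext i j
    fin_cases i <;> fin_cases j <;>
      simp [Matrix.mul_apply, Fin.sum_univ_two]
    · linear_combination (ε * δ) * hd
    · linear_combination (0 : F) * hd
    · linear_combination (0 : F) * hd
    · linear_combination (δ * ε') * hd
  · simp [Matrix.trace, Fin.sum_univ_two]
    linear_combination (1 - ε') * hn₁eq + n₁ * hε'
  · rw [Matrix.det_fin_two]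
    simp
    linear_combination (δ) * hε'
  · intro c' hc'
    have h10 := congrFun (congrFun hc' 1) 0
    simp at h10
    exact hε'0 h10
  · simp [Matrix.trace, Fin.sum_univ_two]
  · rw [Matrix.det_fin_two]
    simp
    ring
  · intro c' hc'
    have h10 := congrFun (congrFun hc' 1) 0
    simp at h10

end Cfsg.Agent.H18.Sp4
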