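import Mathlib
import Cfsg.Agent.H56.SqDefs
import Cfsg.Agent.H50.AutPSLSylow

/-!
# S4625-PSL: the upper unitriangular group of `SL_n(F)` (char 2) is generated by involutions,
hence `PSL_n(F)` is `GoodSyl`.
-/

set_option autoImplicit false

namespace Cfsg.Agent.H18.Sq

open Cfsg Cfsg.Agent.H56.Sq Cfsg.Agent.H50.AutPSL

variable {n : ℕ} {F : Type*} [Field F]

/-- The strictly upper part of row `k` of `x`. -/
def rowN (x : Matrix (Fin n) (Fin n) F) (k : Fin n) : Matrix (Fin n) (Fin n) F :=
  fun i j => if i = k ∧ k < j then x k j else 0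

/-- `x` with row `k` replaced by the `k`-th row of the identity. -/
def rowStd (x : Matrix (Fin n) (Fin n) F) (k : Fin n) : Matrix (Fin n) (Fin n) F :=
  fun i j => if i = k then (1 : Matrix (Fin n) (Fin n) F) i j else x i j

theorem rowN_mul_self (x : Matrix (Fin n) (Fin n) F) (k : Fin n) :
    rowN x k * rowN x k = 0 := by
  ext i j
  rw [Matrix.mul_apply]
  apply Finset.sum_eq_zero
  intro l _
  unfold rowN
  by_cases h1 : i = k ∧ k < l
  · have h2 : ¬ (l = k ∧ k < j) := fun h => absurd h.1 (ne_of_gt h1.2)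
    rw [if_neg h2, mul_zero]
  · rw [if_neg h1, zero_mul]

theorem isUT_one_add_rowN (x : Matrix (Fin n) (Fin n) F) (k : Fin n) :
    IsUT (1 + rowN x k) := by
  constructor
  · intro i j hji
    rw [Matrix.add_apply, Matrix.one_apply_ne (ne_of_gt hji)]
    unfold rowN
    rw [if_neg, add_zero]
    rintro ⟨rfl, h⟩
    exact absurd h (not_lt.mpr hji.le)
  · intro i
    rw [Matrix.add_apply, Matrix.one_apply_eq]
    unfold rowN
    rw [if_neg, add_zero]
    rintro ⟨rfl, h⟩
    exact lt_irrefl _ h

theorem one_add_rowN_sq [CharP F 2] (x : Matrix (Fin n) (Fin n) F) (k : Fin n) :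
    (1 + rowN x k) * (1 + rowN x k) = 1 := by
  have h2 : rowN x k + rowN x k = 0 := by
    ext i j
    exact CharTwo.add_self_eq_zero _
  rw [mul_add, add_mul, add_mul, one_mul, mul_one, one_mul, rowN_mul_self, add_zero,
    add_assoc, h2, add_zero]

theorem isUT_rowStd {x : Matrix (Fin n) (Fin n) F} (hx : IsUT x) (k : Fin n) :
    IsUT (rowStd x k) := by
  constructor
  · intro i j hji
    unfold rowStd
    by_cases h : i = k
    · rw [if_pos h, Matrix.one_apply_ne (ne_of_gt hji)]
    · rw [if_neg h]
      exact hx.1 i j hji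
  · intro i
    unfold rowStd
    by_cases h : i = k
    · rw [if_pos h, Matrix.one_apply_eq]
    · rw [if_neg h]
      exact hx.2 i

theorem rowStd_mul (x : Matrix (Fin n) (Fin n) F) (hx : IsUT x) (k : Fin n)
    (hstd : ∀ i j : Fin n, i < k → x i j = (1 : Matrix (Fin n) (Fin n) F) i j) :
    rowStd x k * (1 + rowN x k) = x := by
  ext i j
  rw [mul_add, mul_one, Matrix.add_apply, Matrix.mul_apply, Finset.sum_eq_single k]
  · unfold rowStd rowN
    by_cases hik : i = k
    · subst hik
      rw [if_pos rfl, if_pos rfl, Matrix.one_apply_eq, one_mul]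
      rcases lt_trichotomy i j with h | h | h
      · rw [if_pos ⟨rfl, h⟩, Matrix.one_apply_ne (ne_of_lt h), zero_add]
      · subst h
        rw [if_neg (fun h => lt_irrefl _ h.2), Matrix.one_apply_eq, add_zero, hx.2]
      · rw [if_neg (fun h' => absurd h'.2 (not_lt.mpr h.le)), Matrix.one_apply_ne (ne_of_gt h),
          add_zero, hx.1 i j h]
    · rw [if_neg hik, if_neg hik]
      have h0 : x i k = 0 := by
        rcases lt_or_gt_of_ne hik with h | h
        · rw [hstd i k h, Matrix.one_apply_ne hik]
        · exact hx.1 i k h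
      rw [h0, zero_mul, add_zero]
  · intro l _ hl
    unfold rowN
    rw [if_neg (fun h => hl h.1), mul_zero]
  · intro h
    exact absurd (Finset.mem_univ k) h

/-- An upper unitriangular matrix as an element of `SL_n(F)`. -/
def mkSL (x : Matrix (Fin n) (Fin n) F) (hx : IsUT x) : Matrix.SpecialLinearGroup (Fin n) F :=
  ⟨x, hx.det⟩

/-- The upper unitriangular group in characteristic 2 is generated by its involutions. -/
theorem uni_le_closure [Fintype F] [CharP F 2] :
    Uni n F ≤ Subgroup.closure
      {t : Matrix.SpecialLinearGroup (Fin n) F | t ∈ Uni n F ∧ t ^ 2 = 1} := by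
  have key : ∀ d, d ≤ n → ∀ x : Matrix (Fin n) (Fin n) F, ∀ hx : IsUT x,
      (∀ i j : Fin n, (i : ℕ) < n - d → x i j = (1 : Matrix (Fin n) (Fin n) F) i j) →
      mkSL x hx ∈ Subgroup.closure
        {t : Matrix.SpecialLinearGroup (Fin n) F | t ∈ Uni n F ∧ t ^ 2 = 1} := by
    intro d
    induction d with
    | zero =>
      intro _ x hx hstd
      have h1 : x = 1 := by
        ext i j
        exact hstd i j (by simp)
      have h2 : mkSL x hx = 1 := Subtype.ext h1
      rw [h2]
      exact Subgroup.one_mem _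
    | succ d ih =>
      intro hd x hx hstd
      have hk : n - (d + 1) < n := by omega
      have hstd' : ∀ i j : Fin n, i < (⟨n - (d + 1), hk⟩ : Fin n) →
          x i j = (1 : Matrix (Fin n) (Fin n) F) i j := fun i j h => hstd i j h
      have hmul := rowStd_mul x hx ⟨n - (d + 1), hk⟩ hstd'
      have hx1 := isUT_rowStd hx ⟨n - (d + 1), hk⟩
      have hr := isUT_one_add_rowN x ⟨n - (d + 1), hk⟩
      have e : mkSL x hx =
          mkSL (rowStd x ⟨n - (d + 1), hk⟩) hx1 * mkSL (1 + rowN x ⟨n - (d + 1), hk⟩) hr :=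
        Subtype.ext hmul.symm
      rw [e]
      apply Subgroup.mul_mem
      · apply ih (by omega) _ hx1
        intro i j hi
        unfold rowStd
        by_cases hik : i = ⟨n - (d + 1), hk⟩
        · rw [if_pos hik]
        · rw [if_neg hik]
          apply hstd i j
          have h3 : (i : ℕ) ≠ n - (d + 1) := fun h => hik (Fin.ext h)
          omega
      · apply Subgroup.subset_closure
        refine ⟨hr, ?_⟩
        apply Subtype.ext
        rw [pow_two]
        exact one_add_rowN_sq x ⟨n - (d + 1), hk⟩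
  intro s hs
  exact key n le_rfl s.1 hs (fun i j h => absurd h (by simp))

theorem psl : Cfsg.Agent.H56.Sq.PSLStmt := by
  intro F _ _ _ n hn _ _
  obtain ⟨f, hp, hF⟩ := FiniteField.card F 2
  have hfact : Fact (Nat.Prime 2) := ⟨Nat.prime_two⟩
  have hU : IsPGroup 2 (Uni n F) :=
    IsPGroup.of_card (n := f * ∑ j : Fin n, (j : ℕ)) (by rw [card_Uni, hF, ← pow_mul])
  have hidx : ¬ 2 ∣ (Uni n F).index := not_dvd_index hF f.pos (by omega)
  have h := goodSyl_of_invol (Uni n F) hU hidx uni_le_closure
  exact h.quotient (Subgroup.center _)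

example : Cfsg.Agent.H56.Sq.PSLStmt := psl

end Cfsg.Agent.H18.Sq
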