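import Mathlib
import Cfsg.Agent.H17.TgDefs

/-!
# S1904 team project (helper17): piece TG-D1INV (helper18)

Case D1, `|Z(X)| = 4`: every involution is central.
-/

set_option autoImplicit false

universe u

namespace Cfsg.Agent.H18.Tg

open Cfsg.Agent.H17.Tg

/-- In case D1 the centre has exponent 2 (from D1EXPT / D1EXPN by cases). -/
theorem d1_center_exp (hT : StD1ExpT.{u}) (hN : StD1ExpN.{u}) (X : Type u) [Group X] [Finite X]
    (A : Subgroup (MulAut X)) (hyp : Hyp X A) (hna : ¬ ∀ a b : X, a * b = b * a)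
    (hD1 : ∀ B : Subgroup X, NAI A B → B ≤ Subgroup.center X) :
    ∀ z ∈ Subgroup.center X, z ^ 2 = 1 := by
  by_cases h : ∀ φ ∈ A, ∀ v ∈ Subgroup.center X, v ^ 2 = 1 → φ v = v
  · exact hT X A hyp hD1 h
  · push Not at h
    obtain ⟨φ, hφ, v, hv, hv2, hne⟩ := h
    exact hN X A hyp hna hD1 ⟨φ, hφ, v, hv, hv2, hne⟩

/-- The subgroup `Z ∪ tZ` for an involution `t`. -/
def ztSub {X : Type u} [Group X] (t : X) (htt : t * t = 1) : Subgroup X where
  carrier := {x | x ∈ Subgroup.center X ∨ t * x ∈ Subgroup.center X}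
  one_mem' := Or.inl (Subgroup.one_mem _)
  mul_mem' := by
    have hcen : ∀ z ∈ Subgroup.center X, ∀ g : X, g * z = z * g :=
      fun z hz g => Subgroup.mem_center_iff.mp hz g
    rintro x y (hx | hx) (hy | hy)
    · exact Or.inl (Subgroup.mul_mem _ hx hy)
    · right
      have h1 : t * (x * y) = x * (t * y) := by
        rw [← mul_assoc, hcen x hx t, mul_assoc]
      rw [h1]
      exact Subgroup.mul_mem _ hx hy
    · right
      rw [← mul_assoc]
      exact Subgroup.mul_mem _ hx hy
    · left
      have h1 := hcen (t * x) hx t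
      have h2 : x * y = (t * x) * (t * y) := by
        calc x * y = (t * t) * x * y := by rw [htt, one_mul]
          _ = t * (t * x) * y := by simp only [mul_assoc]
          _ = (t * x) * t * y := by rw [h1]
          _ = (t * x) * (t * y) := by simp only [mul_assoc]
      rw [h2]
      exact Subgroup.mul_mem _ hx hy
  inv_mem' := by
    have hcen : ∀ z ∈ Subgroup.center X, ∀ g : X, g * z = z * g :=
      fun z hz g => Subgroup.mem_center_iff.mp hz g
    rintro x (hx | hx)
    · exact Or.inl (Subgroup.inv_mem _ hx)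
    · right
      have ht' : t⁻¹ = t := inv_eq_of_mul_eq_one_right htt
      have h1 := hcen (t * x)⁻¹ (Subgroup.inv_mem _ hx) t
      rw [mul_inv_rev, ht'] at h1
      have h2 : t * x⁻¹ = (t * x)⁻¹ := by
        rw [mul_inv_rev, ht']
        have h3 : t * x⁻¹ * t = x⁻¹ * t * t := by
          rw [mul_assoc]
          exact h1
        exact mul_right_cancel h3
      rw [h2]
      exact Subgroup.inv_mem _ hx

theorem mem_ztSub {X : Type u} [Group X] (t : X) (htt : t * t = 1) (x : X) :
    x ∈ ztSub t htt ↔ x ∈ Subgroup.center X ∨ t * x ∈ Subgroup.center X := Iff.rfl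

/-- **TG-D1INV**. -/
theorem d1Inv (hQ : StD1Quot.{u}) (hT : StD1ExpT.{u}) (hN : StD1ExpN.{u}) : StD1Inv.{u} := by
  intro X _ _ A hyp hna hD1 hcard t ht
  by_contra htZ
  obtain ⟨hsq, hcomm⟩ := hQ X A hyp hD1
  have hexp := d1_center_exp hT hN X A hyp hna hD1
  have htt : t * t = 1 := by
    rw [← pow_two]
    exact ht
  have ht' : t⁻¹ = t := inv_eq_of_mul_eq_one_right htt
  have hcen : ∀ z ∈ Subgroup.center X, ∀ g : X, g * z = z * g :=
    fun z hz g => Subgroup.mem_center_iff.mp hz g
  -- exponent 2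
  have hE2 : ∀ a ∈ ztSub t htt, a ^ 2 = 1 := by
    rintro a (ha | ha)
    · exact hexp a ha
    · have h1 := hexp (t * a) ha
      rw [pow_two] at h1 ⊢
      have h2 := hcen (t * a) ha t
      have h3 : a = t * (t * a) := by
        rw [← mul_assoc, htt, one_mul]
      calc a * a = t * (t * a) * (t * (t * a)) := by rw [← h3]
        _ = t * ((t * a) * t) * (t * a) := by simp only [mul_assoc]
        _ = t * (t * (t * a)) * (t * a) := by rw [← h2]
        _ = (t * t) * ((t * a) * (t * a)) := by simp only [mul_assoc]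
        _ = 1 := by rw [htt, h1, one_mul]
  -- abelian
  have hEc : ∀ a ∈ ztSub t htt, ∀ b ∈ ztSub t htt, a * b = b * a := by
    intro a ha b hb
    have h1 := hE2 a ha
    have h2 := hE2 b hb
    have h3 := hE2 (a * b) (Subgroup.mul_mem _ ha hb)
    rw [pow_two] at h1 h2 h3
    have h4 : a⁻¹ = a := inv_eq_of_mul_eq_one_right h1
    have h5 : b⁻¹ = b := inv_eq_of_mul_eq_one_right h2
    have h6 : (a * b)⁻¹ = a * b := inv_eq_of_mul_eq_one_right h3
    rw [mul_inv_rev, h4, h5] at h6
    exact h6.symm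
  -- normal
  have hEn : (ztSub t htt).Normal := by
    constructor
    rintro a (ha | ha) g
    · left
      have h1 : g * a * g⁻¹ = a := by
        rw [hcen a ha g, mul_assoc, mul_inv_cancel, mul_one]
      rw [h1]
      exact ha
    · right
      have h1 := hcomm t g
      rw [ht'] at h1
      have h3 : a = t * (t * a) := by
        rw [← mul_assoc, htt, one_mul]
      have h4 : t * (g * a * g⁻¹) = (t * g * t * g⁻¹) * (t * a) := by
        have h5 := hcen (t * a) ha g⁻¹
        calc t * (g * a * g⁻¹) = t * (g * (t * (t * a)) * g⁻¹) := by rw [← h3]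
          _ = t * g * t * ((t * a) * g⁻¹) := by simp only [mul_assoc]
          _ = t * g * t * (g⁻¹ * (t * a)) := by rw [← h5]
          _ = (t * g * t * g⁻¹) * (t * a) := by simp only [mul_assoc]
      rw [h4]
      exact Subgroup.mul_mem _ h1 ha
  have hle := hyp.rank (ztSub t htt) hEn hEc (ztSub t htt) le_rfl hE2
  -- but `Z < E`
  have hZE : (Subgroup.center X : Set X) ⊂ (ztSub t htt : Set X) := by
    refine ⟨fun x hx => Or.inl hx, fun h => htZ ?_⟩
    have h1 : t ∈ (ztSub t htt : Set X) := by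
      right
      rw [htt]
      exact Subgroup.one_mem _
    exact h h1
  have hlt : Nat.card (Subgroup.center X) < Nat.card (ztSub t htt) := by
    rw [← SetLike.coe_sort_coe, ← SetLike.coe_sort_coe (ztSub t htt), Nat.card_coe_set_eq,
      Nat.card_coe_set_eq]
    exact Set.ncard_lt_ncard hZE (Set.toFinite _)
  omega

example (hQ : Cfsg.Agent.H17.Tg.StD1Quot.{u}) (hT : Cfsg.Agent.H17.Tg.StD1ExpT.{u})
    (hN : Cfsg.Agent.H17.Tg.StD1ExpN.{u}) : Cfsg.Agent.H17.Tg.StD1Inv.{u} :=
  Cfsg.Agent.H18.Tg.d1Inv hQ hT hN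

end Cfsg.Agent.H18.Tg
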