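import Mathlib
import Cfsg.Agent.H17.TgDefs
import Cfsg.Agent.H18.TgD1Inv

/-!
# S1904 team project (helper17): piece TG-D1COMM (helper18)

Case D1: `X' = Z(X)`.
-/

set_option autoImplicit false

universe u

namespace Cfsg.Agent.H18.Tg

open Cfsg.Agent.H17.Tg
open scoped commutatorElement

/-- **TG-D1COMM**. -/
theorem d1Comm (hFix : StFix.{u}) (hFour : StFour.{u}) (hQ : StD1Quot.{u}) (hT : StD1ExpT.{u})
    (hN : StD1ExpN.{u}) : StD1Comm.{u} := by
  intro X _ _ A hyp hna hD1
  obtain ⟨hsq, hcomm⟩ := hQ X A hyp hD1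
  have hexp := d1_center_exp hT hN X A hyp hna hD1
  have hcen : ∀ z ∈ Subgroup.center X, ∀ g : X, g * z = z * g :=
    fun z hz g => Subgroup.mem_center_iff.mp hz g
  -- `X' ≤ Z`
  have hle : commutator X ≤ Subgroup.center X := by
    rw [commutator_def, Subgroup.commutator_le]
    intro a _ b _
    rw [commutatorElement_def]
    exact hcomm a b
  -- `X' ≠ ⊥`
  have hne : commutator X ≠ ⊥ := by
    intro h
    apply hna
    intro a b
    have h1 : ⁅a, b⁆ ∈ commutator X := by
      rw [commutator_def]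
      exact Subgroup.commutator_mem_commutator (Subgroup.mem_top a) (Subgroup.mem_top b)
    rw [h, Subgroup.mem_bot, commutatorElement_def] at h1
    exact mul_inv_eq_iff_eq_mul.mp (mul_inv_eq_one.mp h1)
  -- `A`-invariance
  have hAZ : AInv A (Subgroup.center X) := by
    intro φ _ z hz
    rw [Subgroup.mem_center_iff]
    intro g
    have h1 := hcen z hz (φ.symm g)
    have h2 := congrArg φ h1
    rw [map_mul, map_mul, MulEquiv.apply_symm_apply] at h2
    exact h2
  have hAC : AInv A (commutator X) := by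
    intro φ _ h hh
    have h1 : (commutator X).map φ.toMonoidHom = commutator X :=
      (Subgroup.characteristic_iff_map_eq.mp inferInstance) φ
    rw [← h1]
    exact Subgroup.mem_map_of_mem _ hh
  apply le_antisymm hle
  by_cases htriv : ∀ φ ∈ A, ∀ z ∈ Subgroup.center X, φ z = z
  · intro z hz
    apply hFix X A hyp (commutator X) inferInstance le_rfl z
    intro φ hφ
    rw [htriv φ hφ z hz, inv_mul_cancel]
    exact Subgroup.one_mem _
  · push Not at htriv
    obtain ⟨φ, hφ, z, hz, hzne⟩ := htriv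
    have hcardle : Nat.card (Subgroup.center X) ≤ 4 :=
      hyp.rank (Subgroup.center X) inferInstance (fun a _ b hb => hcen b hb a)
        (Subgroup.center X) le_rfl hexp
    obtain ⟨-, -, -, -, h5⟩ := hFour X A hyp.odd (Subgroup.center X) hAZ hexp hcardle
      ⟨φ, hφ, z, hz, hzne⟩
    rcases h5 (commutator X) hle hAC with h | h
    · exact absurd h hne
    · rw [h]

example (hFix : Cfsg.Agent.H17.Tg.StFix.{u}) (hFour : Cfsg.Agent.H17.Tg.StFour.{u})
    (hQ : Cfsg.Agent.H17.Tg.StD1Quot.{u}) (hT : Cfsg.Agent.H17.Tg.StD1ExpT.{u})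
    (hN : Cfsg.Agent.H17.Tg.StD1ExpN.{u}) : Cfsg.Agent.H17.Tg.StD1Comm.{u} :=
  Cfsg.Agent.H18.Tg.d1Comm hFix hFour hQ hT hN

end Cfsg.Agent.H18.Tg
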