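import Mathlib
import Cfsg.Agent.H17.TgDefs

/-!
# S1904 team project (helper17): piece TG-E32 (helper18)

`|Z(X)| = 2`, `X / Z(X)` of exponent 2, `|X| = 32`, no two commuting non-central involutions
independent modulo the centre: exactly 11 involutions.
-/

set_option autoImplicit false

universe u

namespace Cfsg.Agent.H18.Tg

open Cfsg.Agent.H17.Tg

section E32

variable {X : Type u} [Group X]

/-- A centre of order 2 is `{1, z}`. -/
theorem e32_center (hZ : Nat.card (Subgroup.center X) = 2) :
    ∃ z : X, z ∈ Subgroup.center X ∧ z ≠ 1 ∧ z * z = 1 ∧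
      ∀ y ∈ Subgroup.center X, y = 1 ∨ y = z := by
  obtain ⟨⟨z, hz⟩, hz1, huniq⟩ := (Nat.card_eq_two_iff' (1 : Subgroup.center X)).mp hZ
  have hz1' : z ≠ 1 := by
    intro h
    apply hz1
    exact Subtype.ext h
  have hall : ∀ y ∈ Subgroup.center X, y = 1 ∨ y = z := by
    intro y hy
    by_cases hy1 : y = 1
    · exact Or.inl hy1
    · right
      have h1 := huniq ⟨y, hy⟩ (fun h => hy1 (congrArg Subtype.val h))
      exact congrArg Subtype.val h1
  refine ⟨z, hz, hz1', ?_, hall⟩
  rcases hall (z * z) (Subgroup.mul_mem _ hz hz) with h | h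
  · exact h
  · exfalso
    exact hz1' (by simpa using h)

/-- Commutators are central, so two elements commute or anticommute (up to `z`). -/
theorem e32_comm (z : X) (_hz : z ∈ Subgroup.center X) (_hzz : z * z = 1)
    (hZ2 : ∀ y ∈ Subgroup.center X, y = 1 ∨ y = z)
    (hsq : ∀ x : X, x * x ∈ Subgroup.center X) (a w : X) :
    a * w = w * a ∨ a * w = z * w * a := by
  have hcen : ∀ c ∈ Subgroup.center X, ∀ g : X, g * c = c * g :=
    fun c hc g => Subgroup.mem_center_iff.mp hc g
  have h := hcen (a⁻¹ * a⁻¹) (hsq a⁻¹) w
  have h1 : a * w * a⁻¹ * w⁻¹ = (a * w) * (a * w) * (a⁻¹ * a⁻¹) * (w⁻¹ * w⁻¹) := by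
    calc a * w * a⁻¹ * w⁻¹ = a * w * a * ((a⁻¹ * a⁻¹) * w) * w⁻¹ * w⁻¹ := by group
      _ = a * w * a * (w * (a⁻¹ * a⁻¹)) * w⁻¹ * w⁻¹ := by rw [h]
      _ = (a * w) * (a * w) * (a⁻¹ * a⁻¹) * (w⁻¹ * w⁻¹) := by group
  have h2 : a * w * a⁻¹ * w⁻¹ ∈ Subgroup.center X := by
    rw [h1]
    exact Subgroup.mul_mem _ (Subgroup.mul_mem _ (hsq _) (hsq _)) (hsq _)
  rcases hZ2 _ h2 with h3 | h3
  · left
    exact mul_inv_eq_iff_eq_mul.mp (mul_inv_eq_one.mp h3)
  · right
    have h4 : a * w = (a * w * a⁻¹ * w⁻¹) * w * a := by group
    rw [h3] at h4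
    exact h4

end E32

/-- **TG-E32**. -/
theorem e32 : StE32.{u} := by
  intro X _ _ hZ hsq hcard hno
  classical
  have hfin : Fintype X := Fintype.ofFinite X
  obtain ⟨z, hz, hz1, hzz, hZ2⟩ := e32_center hZ
  have hsq' : ∀ x : X, x * x ∈ Subgroup.center X := fun x => by
    rw [← pow_two]
    exact hsq x
  have hcen : ∀ c ∈ Subgroup.center X, ∀ g : X, g * c = c * g :=
    fun c hc g => Subgroup.mem_center_iff.mp hc g
  have hcardF : (Finset.univ : Finset X).card = 32 := by
    rw [Finset.card_univ, ← Nat.card_eq_fintype_card]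
    exact hcard
  -- centralizers of non-central elements have order 16
  have hC16 : ∀ a : X, a ∉ Subgroup.center X →
      (Finset.univ.filter (fun w : X => a * w = w * a)).card = 16 := by
    intro a ha
    obtain ⟨w₀, hw₀⟩ : ∃ w₀ : X, ¬ a * w₀ = w₀ * a := by
      by_contra h
      push Not at h
      exact ha (Subgroup.mem_center_iff.mpr (fun g => (h g).symm))
    have haw₀ : a * w₀ = z * w₀ * a := (e32_comm z hz hzz hZ2 hsq' a w₀).resolve_left hw₀
    have hzne : ∀ y : X, z * y ≠ y := by
      intro y h
      exact hz1 (by simpa using h)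
    have h1 : (Finset.univ.filter (fun w : X => a * w = w * a)).card ≤
        (Finset.univ.filter (fun w : X => ¬ a * w = w * a)).card := by
      apply Finset.card_le_card_of_injOn (fun w => w₀ * w)
      · intro w hw
        rw [Finset.mem_coe, Finset.mem_filter] at hw ⊢
        refine ⟨Finset.mem_univ _, ?_⟩
        have h2 : a * (w₀ * w) = z * (w₀ * w * a) := by
          calc a * (w₀ * w) = (a * w₀) * w := by rw [mul_assoc]
            _ = z * w₀ * a * w := by rw [haw₀]
            _ = z * w₀ * (a * w) := by rw [mul_assoc]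
            _ = z * w₀ * (w * a) := by rw [hw.2]
            _ = z * (w₀ * w * a) := by simp only [mul_assoc]
        rw [h2]
        exact hzne _
      · intro w _ w' _ h
        exact mul_left_cancel h
    have h2 : (Finset.univ.filter (fun w : X => ¬ a * w = w * a)).card ≤
        (Finset.univ.filter (fun w : X => a * w = w * a)).card := by
      apply Finset.card_le_card_of_injOn (fun w => w₀ * w)
      · intro w hw
        rw [Finset.mem_coe, Finset.mem_filter] at hw ⊢
        refine ⟨Finset.mem_univ _, ?_⟩
        have haw : a * w = z * w * a := (e32_comm z hz hzz hZ2 hsq' a w).resolve_left hw.2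
        have h3 := hcen z hz w₀
        calc a * (w₀ * w) = (a * w₀) * w := by rw [mul_assoc]
          _ = z * w₀ * a * w := by rw [haw₀]
          _ = z * w₀ * (a * w) := by rw [mul_assoc]
          _ = z * w₀ * (z * w * a) := by rw [haw]
          _ = z * (w₀ * z) * (w * a) := by simp only [mul_assoc]
          _ = z * (z * w₀) * (w * a) := by rw [h3]
          _ = (z * z) * (w₀ * w * a) := by simp only [mul_assoc]
          _ = w₀ * w * a := by rw [hzz, one_mul]
      · intro w _ w' _ h
        exact mul_left_cancel h
    have h3 := Finset.card_filter_add_card_filter_not (s := (Finset.univ : Finset X))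
      (fun w : X => a * w = w * a)
    rw [hcardF] at h3
    omega
  -- a non-central involution
  obtain ⟨x, hxZ, hxx⟩ : ∃ x : X, x ∉ Subgroup.center X ∧ x * x = 1 := by
    obtain ⟨a, ha⟩ : ∃ a : X, a ∉ Subgroup.center X := by
      by_contra h
      push Not at h
      have h1 : Subgroup.center X = ⊤ := (Subgroup.eq_top_iff' _).mpr h
      rw [h1, Subgroup.card_top] at hZ
      omega
    by_cases haa : a * a = 1
    · exact ⟨a, ha, haa⟩
    have haz : a * a = z := (hZ2 _ (hsq' a)).resolve_left haa
    have h16 := hC16 a ha
    obtain ⟨b, hbC, hbn⟩ := Finset.exists_mem_notMem_of_card_lt_card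
      (s := ({1, z, a⁻¹, a⁻¹ * z} : Finset X))
      (t := Finset.univ.filter (fun w : X => a * w = w * a))
      (by rw [h16]; exact lt_of_le_of_lt Finset.card_le_four (by norm_num))
    rw [Finset.mem_filter] at hbC
    simp only [Finset.mem_insert, Finset.mem_singleton, not_or] at hbn
    obtain ⟨hb1, hbz, hba, hbaz⟩ := hbn
    have hbZ : b ∉ Subgroup.center X := by
      intro h
      rcases hZ2 b h with h | h
      · exact hb1 h
      · exact hbz h
    have habZ : a * b ∉ Subgroup.center X := by
      intro h
      rcases hZ2 _ h with h | h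
      · exact hba (eq_inv_of_mul_eq_one_right h)
      · apply hbaz
        rw [← h]
        group
    by_cases hbb : b * b = 1
    · exact ⟨b, hbZ, hbb⟩
    have hbz' : b * b = z := (hZ2 _ (hsq' b)).resolve_left hbb
    refine ⟨a * b, habZ, ?_⟩
    calc a * b * (a * b) = a * (b * a) * b := by simp only [mul_assoc]
      _ = a * (a * b) * b := by rw [← hbC.2]
      _ = (a * a) * (b * b) := by simp only [mul_assoc]
      _ = 1 := by rw [haz, hbz', hzz]
  have hxne1 : x ≠ 1 := fun h => hxZ (h ▸ Subgroup.one_mem _)
  have hx' : x⁻¹ = x := inv_eq_of_mul_eq_one_right hxx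
  have ord2 : ∀ w : X, orderOf w = 2 ↔ w * w = 1 ∧ w ≠ 1 := by
    intro w
    rw [orderOf_eq_prime_iff, pow_two]
  rw [Nat.card_eq_fintype_card, Fintype.card_subtype]
  have hsplit := Finset.card_filter_add_card_filter_not
    (s := Finset.univ.filter (fun w : X => orderOf w = 2)) (fun w : X => x * w = w * x)
  -- the commuting involutions are `z, x, x z`
  have hIC : (Finset.univ.filter (fun w : X => orderOf w = 2)).filter
      (fun w => x * w = w * x) = {z, x, x * z} := by
    ext w
    simp only [Finset.mem_filter, Finset.mem_univ, true_and, Finset.mem_insert,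
      Finset.mem_singleton]
    rw [ord2]
    constructor
    · rintro ⟨⟨hww, hw1⟩, hcw⟩
      by_contra hcon
      push Not at hcon
      apply hno
      refine ⟨x, w, hxZ, ?_, ?_, hcw, ?_, ?_⟩
      · rw [pow_two]
        exact hxx
      · rw [pow_two]
        exact hww
      · intro h
        rcases hZ2 w h with h | h
        · exact hw1 h
        · exact hcon.1 h
      · intro h
        rcases hZ2 _ h with h | h
        · apply hcon.2.1
          rw [← hx']
          exact eq_inv_of_mul_eq_one_right h
        · apply hcon.2.2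
          calc w = (x * x) * w := by rw [hxx, one_mul]
            _ = x * (x * w) := by rw [mul_assoc]
            _ = x * z := by rw [h]
    · rintro (h | h | h)
      · rw [h]
        exact ⟨⟨hzz, hz1⟩, hcen z hz x⟩
      · rw [h]
        exact ⟨⟨hxx, hxne1⟩, rfl⟩
      · rw [h]
        have h1 := hcen z hz x
        refine ⟨⟨?_, ?_⟩, ?_⟩
        · calc x * z * (x * z) = x * (z * x) * z := by simp only [mul_assoc]
            _ = x * (x * z) * z := by rw [← h1]
            _ = (x * x) * (z * z) := by simp only [mul_assoc]
            _ = 1 := by rw [hxx, hzz, one_mul]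
        · intro h2
          apply hxZ
          rw [eq_inv_of_mul_eq_one_left h2]
          exact Subgroup.inv_mem _ hz
        · rw [mul_assoc, ← h1]
  have hIC3 : ({z, x, x * z} : Finset X).card = 3 := by
    rw [Finset.card_insert_of_notMem, Finset.card_insert_of_notMem, Finset.card_singleton]
    · simp only [Finset.mem_singleton]
      intro h
      exact hz1 (by simpa using h)
    · simp only [Finset.mem_insert, Finset.mem_singleton, not_or]
      refine ⟨fun h => hxZ (h ▸ hz), fun h => ?_⟩
      exact hxne1 (by simpa using h)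
  -- the non-commuting elements
  have hD : (Finset.univ.filter (fun w : X => ¬ x * w = w * x)).card = 16 := by
    have h1 := Finset.card_filter_add_card_filter_not (s := (Finset.univ : Finset X))
      (fun w : X => x * w = w * x)
    rw [hC16 x hxZ, hcardF] at h1
    omega
  have hDsplit := Finset.card_filter_add_card_filter_not
    (s := Finset.univ.filter (fun w : X => ¬ x * w = w * x)) (fun w : X => orderOf w = 2)
  have hDD : ∀ w : X, ¬ x * w = w * x →
      (¬ x * (x * w) = (x * w) * x) ∧ (orderOf (x * w) = 2 ↔ ¬ orderOf w = 2) := by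
    intro w hw
    have hxw : x * w = z * w * x := (e32_comm z hz hzz hZ2 hsq' x w).resolve_left hw
    constructor
    · intro h
      apply hw
      have h1 : x * (x * w) = x * (w * x) := by rw [h, mul_assoc]
      exact mul_left_cancel h1
    · have hw1 : w ≠ 1 := by
        rintro rfl
        exact hw (by rw [mul_one, one_mul])
      have hxw1 : x * w ≠ 1 := by
        intro h
        apply hw
        have h1 : w = x := by
          rw [← hx']
          exact eq_inv_of_mul_eq_one_right h
        rw [h1]
      have hsqxw : x * w * (x * w) = z * (w * w) := by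
        calc x * w * (x * w) = (x * w) * x * w := by simp only [mul_assoc]
          _ = (z * w * x) * x * w := by rw [hxw]
          _ = z * w * (x * x) * w := by simp only [mul_assoc]
          _ = z * (w * w) := by rw [hxx, mul_one, mul_assoc]
      rw [ord2, ord2]
      rcases hZ2 _ (hsq' w) with hww | hww
      · rw [hsqxw, hww, mul_one]
        constructor
        · intro h
          exact absurd h.1 hz1
        · intro h
          exact absurd ⟨rfl, hw1⟩ h
      · rw [hsqxw, hww, hzz]
        constructor
        · intro _ h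
          exact hz1 h.1
        · intro _
          exact ⟨rfl, hxw1⟩
  have hbij : ((Finset.univ.filter (fun w : X => ¬ x * w = w * x)).filter
      (fun w => orderOf w = 2)).card =
      ((Finset.univ.filter (fun w : X => ¬ x * w = w * x)).filter
        (fun w => ¬ orderOf w = 2)).card := by
    apply Finset.card_bij' (fun w _ => x * w) (fun w _ => x * w)
    · intro w hw
      simp only [Finset.mem_filter, Finset.mem_univ, true_and] at hw ⊢
      obtain ⟨h1, h2⟩ := hDD w hw.1
      exact ⟨h1, fun h => (h2.mp h) hw.2⟩
    · intro w hw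
      simp only [Finset.mem_filter, Finset.mem_univ, true_and] at hw ⊢
      obtain ⟨h1, h2⟩ := hDD w hw.1
      exact ⟨h1, h2.mpr hw.2⟩
    · intro w _
      rw [← mul_assoc, hxx, one_mul]
    · intro w _
      rw [← mul_assoc, hxx, one_mul]
  have hID : (Finset.univ.filter (fun w : X => orderOf w = 2)).filter
      (fun w => ¬ x * w = w * x) =
      (Finset.univ.filter (fun w : X => ¬ x * w = w * x)).filter (fun w => orderOf w = 2) := by
    ext w
    simp only [Finset.mem_filter, Finset.mem_univ, true_and]
    exact and_comm
  rw [hIC, hIC3, hID] at hsplit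
  rw [hD] at hDsplit
  omega

example : Cfsg.Agent.H17.Tg.StE32.{u} := Cfsg.Agent.H18.Tg.e32

end Cfsg.Agent.H18.Tg
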