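import Cfsg.Agent.H9.XPAbs

/-!
# XP-ISO (helper18, for helper9's S5746 project)

Two groups acting faithfully on `Fin n` whose generators act by the same permutations are
isomorphic, compatibly with the generators and the two actions.
-/

set_option autoImplicit false

universe u

namespace Cfsg.Agent.H18.XP

open Cfsg.Agent.H9.XP

theorem range_eq_of_gens {J : Type*} [Group J] {K : Type*} [Group K] {P : Type*} [Group P]
    (φ : J →* P) (ψ : K →* P) {ι : Type*} (f : ι → J) (m : ι → K)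
    (hf : Subgroup.closure (Set.range f) = ⊤) (hm : Subgroup.closure (Set.range m) = ⊤)
    (h : ∀ i, φ (f i) = ψ (m i)) : φ.range = ψ.range := by
  have h1 : φ.range = Subgroup.closure (Set.range fun i => φ (f i)) := by
    rw [MonoidHom.range_eq_map, ← hf, MonoidHom.map_closure]
    congr 1
    ext x
    constructor
    · rintro ⟨_, ⟨i, rfl⟩, rfl⟩
      exact ⟨i, rfl⟩
    · rintro ⟨i, rfl⟩
      exact ⟨f i, ⟨i, rfl⟩, rfl⟩
  have h2 : ψ.range = Subgroup.closure (Set.range fun i => ψ (m i)) := by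
    rw [MonoidHom.range_eq_map, ← hm, MonoidHom.map_closure]
    congr 1
    ext x
    constructor
    · rintro ⟨_, ⟨i, rfl⟩, rfl⟩
      exact ⟨i, rfl⟩
    · rintro ⟨i, rfl⟩
      exact ⟨m i, ⟨i, rfl⟩, rfl⟩
  rw [h1, h2]
  congr 2
  funext i
  exact h i

theorem iso : StIso.{u} := by
  intro J _ K _ n φ ψ ι f m hφ hψ hf hm h
  have hr : φ.range = ψ.range := range_eq_of_gens φ ψ f m hf hm h
  let e1 : J ≃* φ.range := MonoidHom.ofInjective hφ
  let e2 : K ≃* ψ.range := MonoidHom.ofInjective hψ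
  let e3 : φ.range ≃* ψ.range := MulEquiv.subgroupCongr hr
  let Θ : J ≃* K := e1.trans (e3.trans e2.symm)
  have key : ∀ x, ψ (Θ x) = φ x := by
    intro x
    have h1 : (e2 (Θ x) : Equiv.Perm (Fin n)) = ψ (Θ x) := MonoidHom.ofInjective_apply hψ
    have h2 : e2 (Θ x) = e3 (e1 x) := by
      simp [Θ]
    have h3 : ((e3 (e1 x) : ψ.range) : Equiv.Perm (Fin n)) = φ x := by
      have h4 : ((e1 x : φ.range) : Equiv.Perm (Fin n)) = φ x := MonoidHom.ofInjective_apply hφ
      rw [← h4]
      rfl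
    rw [← h1, h2, h3]
  refine ⟨Θ, ?_, key⟩
  intro i
  apply hψ
  rw [key, h i]

example : Cfsg.Agent.H9.XP.StIso.{u} := Cfsg.Agent.H18.XP.iso.{u}

end Cfsg.Agent.H18.XP
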